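import Cfsg.Agent.SNG.Defs

/-! Antiflag-transitive groups: the subspaces `W(a)` (notes/SNG.md, section Geo0). -/

set_option autoImplicit false
set_option linter.unusedSectionVars false

namespace Cfsg.Agent.SNG

open MulAction Module Submodule

variable {F : Type*} [Field F] [Fintype F] {p : ℕ} [Fact p.Prime] [CharP F p]
  {G : Type*} [Group G] {V : Type*} [AddCommGroup V] [Module F V] [DistribMulAction G V]
  [SMulCommClass G F V] [Finite V]

variable {T : Subgroup G} {x y : V} {W : V → Submodule F V}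

theorem geo0_l2_smul (a b : V) {c : F} (hc : c ≠ 0) : span F {a, c • b} = span F {a, b} := by
  rw [l2_eq_sup, l2_eq_sup, span_singleton_smul_eq hc.isUnit]

theorem geo0_notMem {a b z : V} (hb : b ∉ span F {a}) (hz : z ∉ span F {a, b}) : b ∉ span F {a, z} := by
  intro h
  obtain ⟨α, β, e⟩ := mem_span_pair.1 h
  by_cases h0 : β = 0
  · exact hb (mem_span_singleton.2 ⟨α, by rw [← e, h0, zero_smul, add_zero]⟩)
  · refine hz (mem_span_pair.2 ⟨-(β⁻¹ * α), β⁻¹, ?_⟩)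
    rw [← e, smul_add, smul_smul, smul_smul, inv_mul_cancel₀ h0, one_smul, neg_smul]
    abel

/-- the Weyl element -/
theorem Loc.geo0_w (h : Loc F p T x y) {β : F} (hβ : β ≠ 0) :
    ∃ g : G, g • x = β • y ∧ g • y = -β⁻¹ • x := by
  obtain ⟨s, hs, hs'⟩ := h.sw β
  obtain ⟨t, ht, ht'⟩ := h.tv (-β⁻¹)
  have e : x + β • (y + -β⁻¹ • x) = β • y := by
    rw [smul_add, smul_smul, mul_neg, mul_inv_cancel₀ hβ, neg_smul, one_smul]; abel
  have e' : y + -β⁻¹ • (x + β • y) = -β⁻¹ • x := by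
    rw [smul_add, smul_smul, neg_mul, inv_mul_cancel₀ hβ, neg_smul 1, one_smul]; abel
  refine ⟨s * t * s, ?_, ?_⟩
  · rw [mul_smul, mul_smul, hs', smul_add, gs, h.fixx t ht, ht', e, gs, hs]
  · rw [mul_smul, mul_smul, hs, ht', smul_add, gs, hs, hs', e']

theorem Loc.geo0_d (h : Loc F p T x y) {c : F} (hc : c ≠ 0) :
    ∃ g : G, g • x = c • x ∧ g • y = c⁻¹ • y := by
  obtain ⟨g, h1, h2⟩ := h.geo0_w (inv_ne_zero hc)
  obtain ⟨k, h3, h4⟩ := h.geo0_w (neg_ne_zero.2 (one_ne_zero (α := F)))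
  refine ⟨g * k, ?_, ?_⟩
  · rw [mul_smul, h3, gs, h2]; simp
  · rw [mul_smul, h4, gs, h1]; simp

theorem Loc.exists_geo0 (h : Loc F p T x y) : ∃ W : V → Submodule F V, Geo0 p T x y W := by
  let P : V → V → Prop := fun a b => b ∈ span F {a} ∨ ∃ (g : G) (c : F), g • x = a ∧ b = c • g • y
  have eqv : ∀ (g : G) a b, P a b → P (g • a) (g • b) := by
    rintro g a b (hb | ⟨k, c, rfl, rfl⟩)
    · exact Or.inl ((smul_mem_l1 g).2 hb)
    · exact Or.inr ⟨g * k, c, mul_smul _ _ _, by rw [gs, mul_smul]⟩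
  have hl : ∀ z ∈ span F {x, y}, P x z := by
    intro z hz
    obtain ⟨α, β, rfl⟩ := mem_span_pair.1 hz
    by_cases h0 : β = 0
    · exact Or.inl (mem_span_singleton.2 ⟨α, by rw [h0, zero_smul, add_zero]⟩)
    · obtain ⟨t, ht, ht'⟩ := h.tv (β⁻¹ * α)
      exact Or.inr ⟨t, β, h.fixx t ht, by
        rw [ht', smul_add, smul_smul, mul_inv_cancel_left₀ h0, add_comm]⟩
  have hadd : ∀ z, P x z → ∀ u ∈ span F {x, y}, P x (z + u) := by
    intro z hz u hu
    by_cases hz' : z ∈ span F {x, y}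
    · exact hl _ (add_mem hz' hu)
    · obtain ⟨g, hg, -, hg'⟩ := h.p1 z hz' u hu
      have := eqv g _ _ hz
      rwa [h.fixx g hg, hg'] at this
  have hadd' : ∀ (g : G) b, P (g • x) b → ∀ u ∈ span F {x, y}, P (g • x) (b + g • u) := by
    intro g b hb u hu
    have h1 := eqv g⁻¹ _ _ hb
    rw [inv_smul_smul] at h1
    have := eqv g _ _ (hadd _ h1 u hu)
    rwa [smul_add, smul_inv_smul] at this
  have hsm : ∀ (c : F) a b, c ≠ 0 → P a b → P (c • a) b := by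
    rintro c a b hc (hb | ⟨g, d, rfl, rfl⟩)
    · exact Or.inl (by rwa [span_singleton_smul_eq hc.isUnit])
    · obtain ⟨k, h1, h2⟩ := h.geo0_d hc
      exact Or.inr ⟨g * k, d * c, by rw [mul_smul, h1, gs], by
        rw [mul_smul g, h2, gs, smul_smul, mul_inv_cancel_right₀ hc]⟩
  let W : V → Submodule F V := fun a =>
    { carrier := {b | P a b}
      zero_mem' := Or.inl (zero_mem _)
      add_mem' := by
        rintro b c hb (hc | ⟨g, d, rfl, rfl⟩)
        · obtain ⟨d, rfl⟩ := mem_span_singleton.1 hc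
          by_cases ha : a = 0
          · rwa [ha, smul_zero, add_zero, ← ha]
          · obtain ⟨g, rfl⟩ := h.trans a ha
            rw [← gs]
            exact hadd' g b hb _ (smul_mem _ d (left_l2 x y))
        · rw [← gs]
          exact hadd' g b hb _ (smul_mem _ d (right_l2 x y))
      smul_mem' := by
        rintro c b (hb | ⟨g, d, rfl, rfl⟩)
        · exact Or.inl (smul_mem _ c hb)
        · exact Or.inr ⟨g, c * d, rfl, smul_smul _ _ _⟩ }
  refine ⟨W, h, ?_, fun a => Or.inl (self_l1 a), hl y (right_l2 _ _), fun c a hc => ?_, ?_, eqv, ?_⟩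
  · refine eq_bot_iff.2 ?_
    rintro b (hb | ⟨g, -, hg, -⟩)
    · rwa [span_zero_singleton] at hb
    · exact (smul_ne h.x0 hg).elim
  · refine le_antisymm (fun b hb => ?_) fun b hb => hsm c a b hc hb
    have := hsm c⁻¹ _ b (inv_ne_zero hc) hb
    rwa [smul_smul, inv_mul_cancel₀ hc, one_smul] at this
  · rintro a b hb (ha | ⟨g, c, rfl, rfl⟩)
    · obtain ⟨c, rfl⟩ := mem_span_singleton.1 ha
      have hc : c ≠ 0 := by rintro rfl; exact hb (zero_smul _ _)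
      exact Or.inl (by rw [span_singleton_smul_eq hc.isUnit]; exact self_l1 a)
    · have hc : c ≠ 0 := by rintro rfl; exact hb (zero_smul _ _)
      obtain ⟨k, h1, h2⟩ := h.geo0_w hc
      exact Or.inr ⟨g * k, -c, by rw [mul_smul, h1, gs], by
        rw [mul_smul, h2, gs, smul_smul, neg_mul_neg, mul_inv_cancel₀ hc, one_smul]⟩
  · rintro a b (hb | ⟨g, c, rfl, rfl⟩) h1
    · exact (h1 hb).elim
    · have hc : c ≠ 0 := by rintro rfl; exact h1 (by rw [zero_smul]; exact zero_mem _)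
      exact ⟨g, c⁻¹, inv_ne_zero hc, rfl, by rw [smul_smul, inv_mul_cancel₀ hc, one_smul]⟩

theorem Geo0.eqv_iff (h : Geo0 p T x y W) (g : G) (a b : V) : g • b ∈ W (g • a) ↔ b ∈ W a :=
  ⟨fun h' => by simpa using h.eqv g⁻¹ _ _ h', h.eqv g a b⟩

theorem Geo0.ne_zero (h : Geo0 p T x y W) {a b : V} (hb : b ∈ W a) (h0 : b ≠ 0) : a ≠ 0 := by
  rintro rfl
  rw [h.zero] at hb
  exact h0 hb

theorem Geo0.trans2 (h : Geo0 p T x y W) {a b : V} (ha : a ≠ 0) (hb : b ≠ 0) :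
    ∃ g : G, g • a = b := by
  obtain ⟨g, rfl⟩ := h.trans a ha
  obtain ⟨g', rfl⟩ := h.trans b hb
  exact ⟨g' * g⁻¹, by simp [mul_smul]⟩

theorem Geo0.exists_col (h : Geo0 p T x y W) {a : V} (ha : a ≠ 0) :
    ∃ b ∈ W a, b ∉ span F {a} := by
  obtain ⟨g, rfl⟩ := h.trans a ha
  exact ⟨g • y, h.eqv g _ _ h.ymem, fun h' => h.yx ((smul_mem_l1 g).1 h')⟩

theorem Geo0.rk_eq (h : Geo0 p T x y W) {a b : V} (ha : a ≠ 0) (hb : b ≠ 0) :
    finrank F (W a) = finrank F (W b) := by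
  obtain ⟨g, rfl⟩ := h.trans2 ha hb
  exact rk_eq_of_smul g fun v => h.eqv_iff g a v

theorem Geo0.two_le (h : Geo0 p T x y W) {a : V} (ha : a ≠ 0) : 2 ≤ finrank F (W a) := by
  obtain ⟨b, hb, h1⟩ := h.exists_col ha
  rw [← rk_l2 ha h1]
  exact finrank_mono (l2_le (h.self a) hb)

theorem Geo0.p1' (h : Geo0 p T x y W) {a b z u : V} (hb : b ∈ W a) (h1 : b ∉ span F {a})
    (hz : z ∉ span F {a, b}) (hu : u ∈ span F {a, b}) :
    ∃ g : G, g • a = a ∧ g • b = b ∧ g • z = z + u := by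
  obtain ⟨g, c, hc, rfl, e⟩ := h.tr a b hb h1
  rw [← geo0_l2_smul _ b hc, ← e] at hz hu
  obtain ⟨t, ht, h2, h3⟩ := h.p1 (g⁻¹ • z) (by rwa [← smul_mem_l2 g, smul_inv_smul]) (g⁻¹ • u)
    (by rwa [← smul_mem_l2 g, smul_inv_smul])
  refine ⟨g * t * g⁻¹, ?_, ?_, ?_⟩
  · simp only [mul_smul, inv_smul_smul, h.fixx t ht]
  · refine smul_right_injective V hc ?_
    simp only [← gs, ← e, mul_smul, inv_smul_smul, h2]
  · simp only [mul_smul, h3, smul_add, smul_inv_smul]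

theorem Geo0.cos (h : Geo0 p T x y W) {a z w : V} (hz : z ∉ W a) (hw : w ∈ W a) :
    ∃ g : G, g • a = a ∧ g • z = z + w := by
  by_cases h0 : w = 0
  · exact ⟨1, one_smul _ _, by rw [h0, one_smul, add_zero]⟩
  by_cases h1 : w ∈ span F {a}
  · obtain ⟨b, hb, hb1⟩ := h.exists_col (h.ne_zero hw h0)
    obtain ⟨g, h2, -, h3⟩ := h.p1' hb hb1 (z := z) (fun h' => hz (l2_le (h.self a) hb h'))
      (l1_le_l2 a b h1)
    exact ⟨g, h2, h3⟩
  · obtain ⟨g, h2, -, h3⟩ := h.p1' hw h1 (z := z) (fun h' => hz (l2_le (h.self a) hw h'))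
      (right_l2 _ _)
    exact ⟨g, h2, h3⟩

theorem Geo0.tr2 (h : Geo0 p T x y W) {a b a' b' : V} (hb : b ∈ W a) (h1 : b ∉ span F {a})
    (hb' : b' ∈ W a') (h1' : b' ∉ span F {a'}) :
    ∃ (g : G) (c : F), c ≠ 0 ∧ g • a = a' ∧ g • b = c • b' := by
  obtain ⟨g, c, hc, rfl, e⟩ := h.tr a b hb h1
  obtain ⟨g', c', hc', rfl, e'⟩ := h.tr a' b' hb' h1'
  refine ⟨g' * g⁻¹, c⁻¹ * c', mul_ne_zero (inv_ne_zero hc) hc', by simp [mul_smul], ?_⟩
  refine smul_right_injective V hc ?_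
  simp only [← gs, ← e, mul_smul, inv_smul_smul, e', smul_inv_smul₀ hc]

theorem Geo0.trS (h : Geo0 p T x y W) (h3 : 3 ≤ finrank F (W x)) {a b : V} (hb : b ∈ W a)
    (h1 : b ∉ span F {a}) : ∃ g : G, g • x = a ∧ g • y = b := by
  obtain ⟨g, c, hc, rfl, e⟩ := h.tr a b hb h1
  obtain ⟨z, hz, hz'⟩ := exists_notMem (A := span F {x, y}) (B := W x) (by rw [rk_l2 h.x0 h.yx]; omega)
  have zx : z ∉ span F {x} := fun h' => hz' (l1_le_l2 x y h')
  have yz := geo0_notMem h.yx hz'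
  obtain ⟨g1, a1, -, b1⟩ := h.p1' hz zx yz (right_l2 x z)
  obtain ⟨g2, a2, -, b2⟩ := h.p1' h.ymem h.yx (z := y + z) (u := (c⁻¹ - 1) • y)
    (fun h' => hz' ((Submodule.add_mem_iff_right _ (right_l2 x y)).1 h')) (smul_mem _ _ (right_l2 x y))
  obtain ⟨g3, a3, -, b3⟩ := h.p1' hz zx (z := c⁻¹ • y + z) (u := -z)
    (fun h' => yz ((smul_mem_iff _ (inv_ne_zero hc)).1 ((Submodule.add_mem_iff_left _ (right_l2 x z)).1 h')))
    (neg_mem (right_l2 x z))
  refine ⟨g * g3 * g2 * g1, by simp only [mul_smul, a1, a2, a3], ?_⟩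
  rw [mul_smul, mul_smul, mul_smul, b1, b2, show y + z + (c⁻¹ - 1) • y = c⁻¹ • y + z by
    rw [sub_smul, one_smul]; abel, b3, add_neg_cancel_right, gs, e, inv_smul_smul₀ hc]

theorem Geo0.tt (h : Geo0 p T x y W) (hx : W x = ⊤) (h3 : 3 ≤ finrank F V) : TT F G V := by
  have k : ∀ a b : V, a ≠ 0 → b ∉ span F {a} → ∃ g : G, g • x = a ∧ g • y = b := by
    intro a b ha hb
    refine h.trS (by rwa [hx, finrank_top]) ?_ hb
    obtain ⟨g, rfl⟩ := h.trans a ha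
    rw [← smul_inv_smul g b, h.eqv_iff, hx]
    exact mem_top
  intro a b a' b' ha hb ha' hb'
  obtain ⟨g, rfl, rfl⟩ := k a b ha hb
  obtain ⟨g', rfl, rfl⟩ := k a' b' ha' hb'
  exact ⟨g' * g⁻¹, by simp [mul_smul], by simp [mul_smul]⟩

end Cfsg.Agent.SNG
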