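import Cfsg.Agent.SNG.TTa
import Cfsg.Agent.SNG.Geo0

set_option autoImplicit false
set_option linter.unusedSectionVars false

namespace Cfsg.Agent.SNG

open MulAction Module Submodule

variable {F : Type*} [Field F] [Fintype F] {p : ℕ} [Fact p.Prime] [CharP F p]
  {G : Type*} [Group G] {V : Type*} [AddCommGroup V] [Module F V] [DistribMulAction G V]
  [SMulCommClass G F V] [Finite V]

theorem exs_exch {a b c : V} (hb : b ∉ span F {a}) (hc : c ∉ span F {a, b}) : b ∉ span F {a, c} := fun h => by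
  obtain ⟨α, γ, e⟩ := mem_span_pair.1 h
  by_cases h0 : γ = 0
  · exact hb (mem_span_singleton.2 ⟨α, by rw [← e, h0, zero_smul, add_zero]⟩)
  · refine hc (mem_span_pair.2 ⟨-(γ⁻¹ * α), γ⁻¹, ?_⟩)
    rw [← e, smul_add, smul_smul, smul_smul, inv_mul_cancel₀ h0, one_smul, neg_smul, neg_add_cancel_left]

theorem exs_mk {s b c : V} : (Submodule.Quotient.mk c : V ⧸ span F {s}) ∈
    span F {(Submodule.Quotient.mk b : V ⧸ span F {s})} ↔ c ∈ span F {s, b} := by
  rw [l2_eq_sup, mem_adj, mem_span_singleton]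
  refine exists_congr fun β => ?_
  rw [← Submodule.Quotient.mk_smul, eq_comm, Submodule.Quotient.eq]

theorem TT.exists_blk [Finite G] (h : TT F G V) {s : V} (hs : s ≠ 0)
    {T : Subgroup (stabilizer G s)} {x y : V ⧸ span F {s}}
    {W : V ⧸ span F {s} → Submodule F (V ⧸ span F {s})} (hW : Geo0 p T x y W) :
    ∃ S : V → V → Submodule F V, Blk s W S := by
  induction x using Submodule.Quotient.induction_on with | H x => ?_
  induction y using Submodule.Quotient.induction_on with | H y => ?_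
  have xs : x ∉ span F {s} := fun h' => hW.x0 ((Submodule.Quotient.mk_eq_zero _).2 h')
  have h2 : 2 ≤ finrank F V := rk_l2 hs xs ▸ finrank_le _
  let O : V → V → V → Prop := fun a b c => ∃ g : G, g • s = a ∧ g • x = b ∧ g • y = c
  have Oe : ∀ (g : G) a b c, O a b c → O (g • a) (g • b) (g • c) := by
    rintro g a b c ⟨k, rfl, rfl, rfl⟩
    exact ⟨g * k, mul_smul _ _ _, mul_smul _ _ _, mul_smul _ _ _⟩
  have Oi : ∀ a b c, O a b c → a ≠ 0 ∧ b ∉ span F {a} ∧ c ∉ span F {a, b} := by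
    rintro a b c ⟨k, rfl, rfl, rfl⟩
    rw [smul_mem_l1, smul_mem_l2]
    exact ⟨smul_ne hs, xs, fun h' => hW.yx (exs_mk.2 h')⟩
  have o3 : ∀ a b c u, O a b c → u ∈ span F {a, b} → O a b (c + u) := fun a b c u ho hu => by
    obtain ⟨h1, h2, h3⟩ := Oi a b c ho
    obtain ⟨g, e1, e2, e3⟩ := h.m1 h1 h2 h3 hu
    simpa only [e1, e2, e3] using Oe g a b c ho
  have o2 : ∀ a b c u, O a b c → u ∈ span F {a} → O a (b + u) c := fun a b c u ho hu => by
    obtain ⟨h1, h2, h3⟩ := Oi a b c ho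
    obtain ⟨g, e1, e2, e3⟩ := h.m1 h1 (fun k => h3 (l1_le_l2 a b k)) (exs_exch h2 h3) (l1_le_l2 a c hu)
    simpa only [e1, e2, e3] using Oe g a b c ho
  have o1 : ∀ a b c, O a b c → O (a + b) b c := fun a b c ho => by
    obtain ⟨h1, h2, h3⟩ := Oi a b c ho
    rw [l2_comm] at h3
    obtain ⟨g, e1, e2, e3⟩ := h.m1 (ne0_of_notMem h2) (fun k => h3 (l1_le_l2 b a k))
      (exs_exch (notMem_l1_symm h1 h2) h3) (left_l2 b c)
    simpa only [e1, e2, e3] using Oe g a b c ho
  have sw : ∀ a b c, O a b c → O b (-a) c := fun a b c ho => by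
    have := o1 _ _ _ (o2 _ _ _ _ (o1 _ _ _ ho) (neg_mem (self_l1 _)))
    rwa [show b + -(a + b) = -a by abel, show a + b + -a = b by abel] at this
  have mem0 : ∀ b c : V, Submodule.Quotient.mk c ∈ W (Submodule.Quotient.mk b) ↔
      c ∈ span F {s, b} ∨ ∃ l : F, l ≠ 0 ∧ O s b (l • c) := fun b c => by
    constructor
    · intro hc
      refine or_iff_not_imp_left.2 fun h1 => ?_
      obtain ⟨g, l, l0, e1, e2⟩ := hW.tr _ _ hc fun k => h1 (exs_mk.1 k)
      rw [smul_mk, eq_comm, Submodule.Quotient.eq] at e1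
      rw [smul_mk, ← Submodule.Quotient.mk_smul, eq_comm, Submodule.Quotient.eq] at e2
      have := o3 _ _ _ _ (o2 _ _ _ _ ⟨g, g.2, rfl, rfl⟩ e1) (l1_le_l2 _ _ e2)
      exact ⟨l, l0, by simpa only [add_sub_cancel] using this⟩
    · rintro (hc | ⟨l, l0, g, e1, rfl, e3⟩)
      · exact l1_le (hW.self _) (exs_mk.2 hc)
      · have := hW.eqv ⟨g, mem_stabilizer_iff.2 e1⟩ _ _ hW.ymem
        rw [smul_mk, smul_mk, e3] at this
        exact (smul_mem_iff _ l0).1 this
  have : ∀ a : V, ∃ g : G, a ≠ 0 → g • a = s := fun a => by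
    by_cases ha : a = 0
    · exact ⟨1, fun h' => (h' ha).elim⟩
    · obtain ⟨g, hg⟩ := h.trans h2 ha hs
      exact ⟨g, fun _ => hg⟩
  choose γ hγ using this
  let π : V → V →ₗ[F] V ⧸ span F {s} := fun a => (mkQ _).comp (lin F (γ a))
  have Oe' : ∀ (g : G) a b c, O (g • a) (g • b) (g • c) ↔ O a b c := fun g a b c =>
    ⟨fun h' => by simpa using Oe g⁻¹ _ _ _ h', Oe g a b c⟩
  have mem : ∀ a b c, a ≠ 0 → (c ∈ (W (π a b)).comap (π a) ↔
      c ∈ span F {a, b} ∨ ∃ l : F, l ≠ 0 ∧ O a b (l • c)) := fun a b c ha => by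
    rw [← smul_mem_l2 (γ a)]
    simp only [← Oe' (γ a) a, gs, hγ a ha]
    exact mem0 _ _
  have le : ∀ a b, a ≠ 0 → b ≠ 0 → (W (π a b)).comap (π a) ≤ (W (π b a)).comap (π b) := fun a b ha hb c hc => by
    rcases (mem a b c ha).1 hc with k | ⟨l, l0, k⟩
    · exact (mem b a c hb).2 (Or.inl (l2_comm (F := F) a b ▸ k))
    · have := (mem b (-a) c hb).2 (Or.inr ⟨l, l0, sw _ _ _ k⟩)
      rwa [map_neg, ← neg_one_smul F, hW.smul _ _ (neg_ne_zero.2 one_ne_zero)] at this
  refine ⟨fun a b => (W (π a b)).comap (π a), fun a ha => ⟨π a, fun v => ?_, fun v => ?_, fun b => rfl⟩,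
    fun a b ha hb => (le a b ha hb).antisymm (le b a hb ha)⟩
  · induction v using Submodule.Quotient.induction_on with | H v => ?_
    exact ⟨(γ a)⁻¹ • v, congrArg Submodule.Quotient.mk (smul_inv_smul _ _)⟩
  · rw [← smul_mem_l1 (γ a), hγ a ha]
    exact Submodule.Quotient.mk_eq_zero _

end Cfsg.Agent.SNG
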