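import Cfsg.Agent.SNG.TTa

/-! SNG: the hexagon case in dimension seven. -/

set_option autoImplicit false
set_option linter.unusedSectionVars false

namespace Cfsg.Agent.SNG

open MulAction Module Submodule

variable {F : Type*} [Field F] [Fintype F] {p : ℕ} [Fact p.Prime] [CharP F p]
  {G : Type*} [Group G] {V : Type*} [AddCommGroup V] [Module F V] [DistribMulAction G V]
  [SMulCommClass G F V] [Finite V]

theorem fou_big [Finite G] (h : TT F G V) (h2 : 2 ≤ finrank F V) (hn : ¬ Tv F G V) {s : V}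
    (hs : s ≠ 0) (T : Sylow p (stabilizer G s)) {R : Subgroup (stabilizer G s)}
    (hR : ∀ r ∈ R, ∀ v : V ⧸ span F {s}, r • v = v) :
    Fintype.card F ^ finrank F V ≤ Fintype.card F * R.relIndex T ∧
      (Fintype.card F ^ finrank F V = Fintype.card F * R.relIndex T → ∀ t ∈ T,
        ∀ φ : V →ₗ[F] F, φ s = 1 → (∀ d, φ (t • d) = φ d) → ∀ d : V, t • d = d) := by
  have := act_bound (G := stabilizer G s) (T := T) (R := R) (D := (⊤ : Submodule F V)) (x := s)
    trivial hs (fun r hr d _ => faith_quot hn (hR r hr) d)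
    (syl_trA (F := F) T (fun g => g.2) fun φ φ' h1 h3 => by
      obtain ⟨g, hg, hg'⟩ := h.af h2 s s φ φ' h1 h3
      exact ⟨⟨g, hg⟩, hg'⟩)
  rw [finrank_top] at this
  exact ⟨this.1, fun he t ht φ h1 h3 d => this.2 he t ht φ h1 (fun d _ => h3 d) d trivial⟩

theorem fou_comap {s : V} (hs : s ≠ 0) (D : Submodule F (V ⧸ span F {s})) :
    finrank F D + 1 ≤ finrank F (D.comap (span F {s}).mkQ) := by
  have h1 := ((span F {s}).mkQ.domRestrict (D.comap (span F {s}).mkQ)).finrank_range_add_finrank_ker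
  have h2 : LinearMap.range ((span F {s}).mkQ.domRestrict (D.comap (span F {s}).mkQ)) = D := by
    rw [LinearMap.range_domRestrict, map_comap_eq_of_surjective (mkQ_surjective _)]
  have h0 : (span F {s}).mkQ s = 0 := (Quotient.mk_eq_zero _).2 (self_l1 s)
  have h3 : LinearMap.ker ((span F {s}).mkQ.domRestrict (D.comap (span F {s}).mkQ)) ≠ ⊥ := by
    intro h
    have : (⟨s, by rw [mem_comap, h0]; exact D.zero_mem⟩ : D.comap (span F {s}).mkQ) ∈
        LinearMap.ker ((span F {s}).mkQ.domRestrict (D.comap (span F {s}).mkQ)) := h0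
    rw [h, mem_bot] at this
    exact hs (congrArg Subtype.val this)
  have h4 := finrank_eq_zero.not.2 h3
  rw [h2] at h1
  omega

theorem fou_ker {s : V} (hs : s ≠ 0) (D' : Submodule F V) (N : V →ₗ[F] V)
    (h : ∀ v ∈ D', N v ∈ span F {s}) : finrank F D' ≤ finrank F (LinearMap.ker N) + 1 := by
  have h1 := (N.domRestrict D').finrank_range_add_finrank_ker
  have h2 : finrank F (LinearMap.range (N.domRestrict D')) ≤ 1 := by
    rw [← finrank_span_singleton (K := F) hs]
    refine finrank_mono ?_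
    rintro _ ⟨v, rfl⟩
    exact h v v.2
  have h3 : finrank F (LinearMap.ker (N.domRestrict D')) ≤ finrank F (LinearMap.ker N) := by
    rw [← finrank_map_subtype_eq]
    refine finrank_mono ?_
    rintro _ ⟨v, hv, rfl⟩
    exact hv
  omega

theorem fou_conj [Finite G] (h : TT F G V) (h2 : 2 ≤ finrank F V) {s : V} (hs : s ≠ 0)
    (T : Sylow p (stabilizer G s)) :
    ∀ t ∈ (T : Subgroup (stabilizer G s)).map (stabilizer G s).subtype,
      ∀ v ∈ (⊤ : Submodule F V), v ≠ 0 → t • v = v →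
      ∃ k : G, k • v = s ∧ (∀ d, d ∈ (⊤ : Submodule F V) ↔ k • d ∈ (⊤ : Submodule F V)) ∧
        k * t * k⁻¹ ∈ (T : Subgroup (stabilizer G s)).map (stabilizer G s).subtype := by
  rintro _ ⟨t, ht, rfl⟩ v - v0 hv
  obtain ⟨k, hk⟩ := h.trans h2 v0 hs
  obtain ⟨n, hn⟩ := T.isPGroup' ⟨t, ht⟩
  have h3 : k * t * k⁻¹ ∈ stabilizer G s := by
    rw [mem_stabilizer_iff, mul_smul, inv_smul_eq_iff.2 hk.symm, mul_smul]
    exact (congrArg _ hv).trans hk
  obtain ⟨g, -, hg⟩ := syl_conj T le_top (P := Subgroup.zpowers ⟨_, h3⟩) (by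
    rintro ⟨_, j, rfl⟩
    refine ⟨n, Subtype.ext ?_⟩
    have : (⟨_, h3⟩ : stabilizer G s) ^ p ^ n = 1 := Subtype.ext (by
      have : t ^ p ^ n = 1 := congrArg Subtype.val hn
      simp [← Subgroup.coe_pow, this])
    simp only [Subgroup.coe_pow, Subgroup.coe_one]
    rw [← zpow_natCast, ← zpow_mul, mul_comm, zpow_mul, zpow_natCast, this, one_zpow]) le_top
  exact ⟨g * k, by rw [mul_smul, hk]; exact g.2, fun _ => Iff.rfl,
    _, hg _ (Subgroup.mem_zpowers _), by simp [mul_assoc]⟩

theorem case_four [Finite G] (h : TT F G V) (hn : ¬ Tv F G V) {s : V} (hs : s ≠ 0)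
    (T : Sylow p (stabilizer G s)) (h7 : finrank F V = 7)
    (hR : (fx (T : Subgroup (stabilizer G s)) (⊤ : Submodule F (V ⧸ span F {s}))).relIndex T ≤
      Fintype.card F ^ 6) {D : Submodule F (V ⧸ span F {s})} (hD : finrank F D = 4)
    (hT : (fx (T : Subgroup (stabilizer G s)) D).relIndex T ≤ Fintype.card F ^ 5) : False := by
  have hq : 1 < Fintype.card F := Fintype.one_lt_card
  have h2 : 2 ≤ finrank F V := by omega
  obtain ⟨h1, h3⟩ := fou_big h h2 hn hs T
    (R := fx (T : Subgroup (stabilizer G s)) (⊤ : Submodule F (V ⧸ span F {s})))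
    fun r hr v => hr.2 v trivial
  rw [h7] at h1 h3
  have he : Fintype.card F ^ 7 = Fintype.card F *
      (fx (T : Subgroup (stabilizer G s)) (⊤ : Submodule F (V ⧸ span F {s}))).relIndex T :=
    le_antisymm h1 ((Nat.mul_le_mul_left _ hR).trans (by rw [← pow_succ']))
  have key : ∀ r ∈ fx (T : Subgroup (stabilizer G s)) D, ∀ v : V ⧸ span F {s}, r • v = v := by
    intro r hr v
    have h4 := fou_ker hs (D.comap (span F {s}).mkQ) (lin F (r : G) - LinearMap.id) fun v hv =>
      (Submodule.Quotient.eq _).1 (hr.2 _ hv)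
    have h5 := fou_comap hs D
    have h6 := reg_triv (T := (T : Subgroup (stabilizer G s)).map (stabilizer G s).subtype)
      (D := (⊤ : Submodule F V)) (E := LinearMap.ker (lin F (r : G) - LinearMap.id)) (x := s)
      (fun _ _ _ _ => trivial) (by
        rintro _ ⟨t, ht, rfl⟩ φ h7 h8 d -
        exact h3 he t ht φ h7 (fun d => h8 d trivial) d) (fou_conj h h2 hs T) (t := (r : G))
      ⟨r, hr.1, rfl⟩ le_top (fun v hv => sub_eq_zero.1 (LinearMap.mem_ker.1 hv)) (by rw [finrank_top]; omega)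
    induction v using Submodule.Quotient.induction_on with
    | H v => rw [smul_mk, h6 v trivial]
  have h8 := (fou_big h h2 hn hs T key).1
  rw [h7] at h8
  have h9 := h8.trans (Nat.mul_le_mul_left _ hT)
  rw [← pow_succ'] at h9
  exact absurd ((Nat.pow_le_pow_iff_right hq).1 h9) (by omega)

end Cfsg.Agent.SNG
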