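import Cfsg.Agent.SNG.Defs
import Cfsg.Agent.H27.Quad

set_option autoImplicit false
set_option linter.unusedSectionVars false

namespace Cfsg.Agent.SNG

open MulAction Module Submodule

variable {F : Type*} [Field F] [Fintype F] {p : ℕ} [Fact p.Prime] [CharP F p]
  {G : Type*} [Group G] {V : Type*} [AddCommGroup V] [Module F V] [DistribMulAction G V]
  [SMulCommClass G F V] [Finite V]

theorem form_fun {A D : Submodule F V} (h : A ⋖ D) :
    ∃ ψ : V →ₗ[F] F, ∀ b ∈ D, (ψ b = 0 ↔ b ∈ A) := by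
  obtain ⟨v, hv, hv'⟩ := exists_of_covBy h
  obtain ⟨ψ, h1, h2⟩ := sep hv'
  refine ⟨ψ, fun b hb => ⟨fun h0 => ?_, h1 b⟩⟩
  rw [eq_adj h hv hv'] at hb
  obtain ⟨c, hc⟩ := mem_adj.1 hb
  have := h1 _ hc
  rw [map_sub, map_smul, h0, h2, smul_eq_mul, mul_one, zero_sub, neg_eq_zero] at this
  simpa [this] using hc

theorem exists_form {D : Submodule F V} {H : V → Submodule F V}
    (cov : ∀ a ∈ D, a ≠ 0 → H a ⋖ D) (self : ∀ a ∈ D, a ∈ H a)
    (symm : ∀ a ∈ D, ∀ b, b ≠ 0 → b ∈ H a → a ∈ H b) :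
    ∃ f : V →ₗ[F] V →ₗ[F] F, (∀ a ∈ D, f a a = 0) ∧
      ∀ a ∈ D, a ≠ 0 → ∀ b ∈ D, (f a b = 0 ↔ b ∈ H a) := by
  classical
  by_cases hD : ∀ a ∈ D, a = 0
  · exact ⟨0, fun _ _ => rfl, fun a ha a0 => absurd (hD a ha) a0⟩
  push Not at hD
  obtain ⟨a0, ha0, a00⟩ := hD
  have hψ : ∀ a : V, ∃ ψ : V →ₗ[F] F, a ∈ D → a ≠ 0 → ∀ b ∈ D, (ψ b = 0 ↔ b ∈ H a) := fun a => by
    by_cases h : a ∈ D ∧ a ≠ 0
    · obtain ⟨ψ, hψ⟩ := form_fun (cov a h.1 h.2)
      exact ⟨ψ, fun _ _ => hψ⟩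
    · exact ⟨0, fun h1 h2 => absurd ⟨h1, h2⟩ h⟩
  choose ψ hψ using hψ
  set φ0 := ψ a0 with hφ0
  have k0 : ∀ b ∈ D, (φ0 b = 0 ↔ b ∈ H a0) := hψ a0 ha0 a00
  have ne0 : ∀ b, φ0 b ≠ 0 → b ≠ 0 := fun b hb h => hb (by rw [h, map_zero])
  have hn : ∀ b ∈ D, φ0 b ≠ 0 → ψ b a0 ≠ 0 := fun b hb h h' =>
    h ((k0 b hb).2 (symm b hb a0 a00 ((hψ b hb (ne0 b h) a0 ha0).1 h')))
  set φ : V → V →ₗ[F] F := fun b => (-φ0 b / ψ b a0) • ψ b with hφ
  have φa : ∀ b ∈ D, φ0 b ≠ 0 → φ b a0 = -φ0 b := fun b hb h => by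
    have := hn b hb h
    simp only [hφ, LinearMap.smul_apply, smul_eq_mul]
    field_simp
  have kφ : ∀ b ∈ D, φ0 b ≠ 0 → ∀ c ∈ D, (φ b c = 0 ↔ c ∈ H b) := fun b hb h c hc => by
    rw [← hψ b hb (ne0 b h) c hc]
    simp only [hφ, LinearMap.smul_apply, smul_eq_mul, mul_eq_zero, div_eq_zero_iff, neg_eq_zero, h,
      hn b hb h, false_or]
  have φ00 : φ0 a0 = 0 := (k0 a0 ha0).2 (self a0 ha0)
  have φs : ∀ b ∈ D, φ0 b ≠ 0 → φ b b = 0 := fun b hb h => (kφ b hb h b hb).2 (self b hb)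
  have key : ∀ b ∈ D, φ0 b ≠ 0 → ∀ c ∈ D, φ0 c ≠ 0 → φ c b = -φ b c := by
    intro b hb h c hc h'
    set r := (φ b c / φ0 b) • a0 + (-φ0 c / φ0 b) • b + c with hr
    have rD : r ∈ D := D.add_mem (D.add_mem (D.smul_mem _ ha0) (D.smul_mem _ hb)) hc
    have r1 : φ0 r = 0 := by
      simp only [hr, map_add, map_smul, smul_eq_mul, φ00]
      field_simp
      ring
    have r2 : φ b r = 0 := by
      simp only [hr, map_add, map_smul, smul_eq_mul, φs b hb h, φa b hb h]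
      field_simp
      ring
    have r3 : φ c r = 0 := by
      by_cases r0 : r = 0
      · rw [r0, map_zero]
      · have e1 := symm a0 ha0 r r0 ((k0 r rD).1 r1)
        have e2 := symm b hb r r0 ((kφ b hb h r rD).1 r2)
        have e3 : c ∈ H r := by
          have : c = r - ((φ b c / φ0 b) • a0 + (-φ0 c / φ0 b) • b) := by rw [hr]; abel
          rw [this]
          exact (H r).sub_mem (self r rD) ((H r).add_mem ((H r).smul_mem _ e1) ((H r).smul_mem _ e2))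
        exact (kφ c hc h' r rD).2 (symm r rD c (ne0 c h') e3)
    simp only [hr, map_add, map_smul, smul_eq_mul, φs c hc h', φa c hc h'] at r3
    have r4 : φ0 c / φ0 b * (φ c b + φ b c) = 0 := by linear_combination -r3
    rcases mul_eq_zero.1 r4 with h1 | h1
    · exact absurd h1 (div_ne_zero h' h)
    · linear_combination h1
  obtain ⟨c0, c0D, c01⟩ : ∃ c0 ∈ D, φ0 c0 = 1 := by
    obtain ⟨c1, hc1, hc1'⟩ := exists_of_covBy (cov a0 ha0 a00)
    have hc1n : φ0 c1 ≠ 0 := fun h => hc1' ((k0 c1 hc1).1 h)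
    exact ⟨(φ0 c1)⁻¹ • c1, D.smul_mem _ hc1, by rw [map_smul, smul_eq_mul, inv_mul_cancel₀ hc1n]⟩
  have c0n : φ0 c0 ≠ 0 := by rw [c01]; exact one_ne_zero
  have uD : ∀ x ∈ D, x + (1 - φ0 x) • c0 ∈ D := fun x hx => D.add_mem hx (D.smul_mem _ c0D)
  have un : ∀ x, φ0 (x + (1 - φ0 x) • c0) ≠ 0 := fun x => by
    rw [map_add, map_smul, c01, smul_eq_mul, mul_one, add_sub_cancel]; exact one_ne_zero
  have spn : ∀ θ θ' : V →ₗ[F] F, (∀ b ∈ D, φ0 b ≠ 0 → θ b = θ' b) → ∀ x ∈ D, θ x = θ' x := by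
    intro θ θ' h x hx
    have e1 := h _ (uD x hx) (un x)
    rw [map_add, map_add, map_smul, map_smul, h c0 c0D c0n] at e1
    exact add_right_cancel e1
  let Γ : Submodule F (V × (V →ₗ[F] F)) :=
    { carrier := {q | q.1 ∈ D ∧ ∀ b ∈ D, φ0 b ≠ 0 → q.2 b = -φ b q.1}
      add_mem' := fun {q q'} h h' => ⟨D.add_mem h.1 h'.1, fun b hb hb' => by
        simp only [Prod.snd_add, Prod.fst_add, LinearMap.add_apply, map_add, h.2 b hb hb',
          h'.2 b hb hb']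
        ring⟩
      zero_mem' := ⟨D.zero_mem, fun b _ _ => by simp⟩
      smul_mem' := fun c {q} h => ⟨D.smul_mem c h.1, fun b hb hb' => by
        simp only [Prod.smul_snd, Prod.smul_fst, LinearMap.smul_apply, map_smul, h.2 b hb hb',
          smul_eq_mul]
        ring⟩ }
  let P : Γ →ₗ[F] D := ((LinearMap.fst F V (V →ₗ[F] F)).comp Γ.subtype).codRestrict D fun q => q.2.1
  have Ps : LinearMap.range P = ⊤ := by
    rw [LinearMap.range_eq_top]
    rintro ⟨x, hx⟩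
    refine ⟨⟨(x, φ (x + (1 - φ0 x) • c0) - (1 - φ0 x) • φ c0), hx, fun b hb hb' => ?_⟩, rfl⟩
    simp only [LinearMap.sub_apply, LinearMap.smul_apply, key b hb hb' _ (uD x hx) (un x),
      key b hb hb' c0 c0D c0n, map_add, map_smul, smul_eq_mul]
    ring
  obtain ⟨σ, hσ⟩ := P.exists_rightInverse_of_surjective Ps
  obtain ⟨f, hf⟩ := LinearMap.exists_extend
    (((LinearMap.snd F V (V →ₗ[F] F)).comp Γ.subtype).comp σ)
  have f1 : ∀ x ∈ D, ∀ b ∈ D, φ0 b ≠ 0 → f x b = -φ b x := fun x hx b hb hb' => by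
    have e1 : f x = (σ ⟨x, hx⟩).1.2 := LinearMap.congr_fun hf ⟨x, hx⟩
    have e2 : (σ ⟨x, hx⟩).1.1 = x := congrArg Subtype.val (LinearMap.congr_fun hσ ⟨x, hx⟩)
    rw [e1, (σ ⟨x, hx⟩).2.2 b hb hb', e2]
  have f2 : ∀ c ∈ D, φ0 c ≠ 0 → ∀ x ∈ D, f c x = φ c x := fun c hc hc' =>
    spn _ _ fun b hb hb' => by rw [f1 c hc b hb hb', key b hb hb' c hc hc']
  have f3 : ∀ x ∈ D, ∀ y ∈ D, f x y = -f y x := fun x hx =>
    spn (f x) (-f.flip x) fun b hb hb' => by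
      rw [f1 x hx b hb hb', LinearMap.neg_apply, LinearMap.flip_apply, f2 b hb hb' x hx]
  refine ⟨f, fun a ha => ?_, fun a ha a0' b hb => ?_⟩
  · have e1 : f (a + (1 - φ0 a) • c0) (a + (1 - φ0 a) • c0) = 0 := by
      rw [f2 _ (uD a ha) (un a) _ (uD a ha), φs _ (uD a ha) (un a)]
    have e2 : f c0 c0 = 0 := by rw [f2 _ c0D c0n _ c0D, φs _ c0D c0n]
    simp only [map_add, map_smul, LinearMap.add_apply, LinearMap.smul_apply, smul_eq_mul, e2,
      f3 c0 c0D a ha] at e1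
    linear_combination e1
  · have om : ∀ c ∈ D, φ0 c ≠ 0 → (f a c = 0 ↔ c ∈ H a) := fun c hc hc' => by
      rw [f1 a ha c hc hc', neg_eq_zero, kφ c hc hc' a ha]
      exact ⟨symm c hc a a0', symm a ha c (ne0 c hc')⟩
    by_cases hb' : φ0 b ≠ 0
    · exact om b hb hb'
    push Not at hb'
    by_cases hex : ∃ c ∈ H a, φ0 c ≠ 0
    · obtain ⟨c, hc, hc'⟩ := hex
      have cD : c ∈ D := (cov a ha a0').le hc
      have e1 := om (b + c) (D.add_mem hb cD) (by rw [map_add, hb', zero_add]; exact hc')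
      rw [map_add, (om c cD hc').2 hc, add_zero, (H a).add_mem_iff_left hc] at e1
      exact e1
    · push Not at hex
      have le1 : H a ≤ H a0 := fun c hc => (k0 c ((cov a ha a0').le hc)).1 (hex c hc)
      have e1 : H a0 = H a :=
        ((cov a ha a0').eq_or_eq le1 (cov a0 ha0 a00).le).resolve_right (cov a0 ha0 a00).ne
      refine ⟨fun _ => e1 ▸ (k0 b hb).1 hb', fun _ => ?_⟩
      by_contra hne
      have e2 : φ0 (c0 - (f a c0 / f a b) • b) ≠ 0 := by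
        rw [map_sub, map_smul, hb', smul_zero, sub_zero]; exact c0n
      have e3 := (om _ (D.sub_mem c0D (D.smul_mem _ hb)) e2).1 (by
        rw [map_sub, map_smul, smul_eq_mul, div_mul_cancel₀ _ hne, sub_self])
      exact e2 (hex _ e3)

theorem form_prop {D : Submodule F V} (f f' : V →ₗ[F] V →ₗ[F] F)
    (nd : ∀ a ∈ D, a ≠ 0 → ∃ b ∈ D, f a b ≠ 0)
    (h : ∀ a ∈ D, ∀ b ∈ D, f a b = 0 → f' a b = 0) :
    ∃ c : F, ∀ a ∈ D, ∀ b ∈ D, f' a b = c * f a b := by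
  have h1 : ∀ a ∈ D, ∃ c : F, ∀ b ∈ D, f' a b = c * f a b := fun a ha => by
    by_cases a0 : a = 0
    · exact ⟨0, fun b _ => by simp [a0]⟩
    obtain ⟨b0, hb0, hb0'⟩ := nd a ha a0
    refine ⟨f' a b0 / f a b0, fun b hb => ?_⟩
    have := h a ha (b - (f a b / f a b0) • b0) (D.sub_mem hb (D.smul_mem _ hb0)) (by
      rw [map_sub, map_smul, smul_eq_mul, div_mul_cancel₀ _ hb0', sub_self])
    rw [map_sub, map_smul, smul_eq_mul, sub_eq_zero] at this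
    rw [this]
    field_simp
  by_cases hD : ∀ a ∈ D, a = 0
  · exact ⟨0, fun a ha b _ => by simp [hD a ha]⟩
  push Not at hD
  obtain ⟨a0, ha0, a00⟩ := hD
  obtain ⟨c, hc⟩ := h1 a0 ha0
  refine ⟨c, fun a ha b hb => ?_⟩
  by_cases ha' : a ∈ span F {a0}
  · obtain ⟨t, rfl⟩ := mem_span_singleton.1 ha'
    simp only [map_smul, LinearMap.smul_apply, smul_eq_mul, hc b hb]
    ring
  obtain ⟨c1, hc1⟩ := h1 a ha
  obtain ⟨c2, hc2⟩ := h1 (a + a0) (D.add_mem ha ha0)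
  have e0 : (c2 - c1) • a + (c2 - c) • a0 = 0 := by
    by_contra hne
    obtain ⟨d, hd, hd'⟩ := nd _ (D.add_mem (D.smul_mem _ ha) (D.smul_mem _ ha0)) hne
    apply hd'
    have e1 := hc2 d hd
    simp only [map_add, map_smul, LinearMap.add_apply, LinearMap.smul_apply, smul_eq_mul, hc d hd,
      hc1 d hd] at e1 ⊢
    linear_combination -e1
  have e1 : c2 - c1 = 0 := by
    by_contra hne
    refine ha' (mem_span_singleton.2 ⟨-((c2 - c1)⁻¹ * (c2 - c)), ?_⟩)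
    have : a = (c2 - c1)⁻¹ • ((c2 - c1) • a) := by rw [smul_smul, inv_mul_cancel₀ hne, one_smul]
    rw [this, eq_neg_of_add_eq_zero_left e0, smul_neg, smul_smul, neg_smul]
  rw [e1, zero_smul, zero_add, smul_eq_zero, or_iff_left a00] at e0
  rw [hc1 b hb, show c1 = c by linear_combination e0 - e1]

theorem exists_iso {D : Submodule F V} (h3 : 3 ≤ finrank F D) (B : V →ₗ[F] V →ₗ[F] F) :
    ∃ v ∈ D, v ≠ 0 ∧ B v v = 0 :=
  H27.exists_singular_of_three_le (LinearMap.BilinMap.toQuadraticMap B) D h3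

theorem exists_ne3 (hq : 3 ≤ Fintype.card F) {φ ψ χ : V →ₗ[F] F} (h1 : φ ≠ 0) (h2 : ψ ≠ 0)
    (h3 : χ ≠ 0) : ∃ v, φ v ≠ 0 ∧ ψ v ≠ 0 ∧ χ v ≠ 0 := by
  classical
  have nk : ∀ θ : V →ₗ[F] F, θ ≠ 0 → ¬ (⊤ : Submodule F V) ≤ LinearMap.ker θ := fun θ h e =>
    h (LinearMap.ker_eq_top.1 (top_le_iff.1 e))
  obtain ⟨u, -, u1, u2⟩ := exists_notMem2 (nk φ h1) (nk ψ h2)
  rw [LinearMap.mem_ker] at u1 u2
  by_cases u3 : χ u ≠ 0
  · exact ⟨u, u1, u2, u3⟩
  push Not at u3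
  obtain ⟨w, hw⟩ : ∃ w, χ w ≠ 0 := by
    by_contra h
    push Not at h
    exact h3 (LinearMap.ext h)
  obtain ⟨c, hc⟩ : ∃ c : F, c ∉ ({-φ w / φ u, -ψ w / ψ u} : Finset F) := by
    by_contra h
    push Not at h
    have e1 : (Finset.univ : Finset F) ⊆ {-φ w / φ u, -ψ w / ψ u} := fun c _ => h c
    have e2 := Finset.card_le_card e1
    have e3 : ({-φ w / φ u, -ψ w / ψ u} : Finset F).card ≤ 2 := Finset.card_le_two
    rw [Finset.card_univ] at e2
    omega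
  simp only [Finset.mem_insert, Finset.mem_singleton, not_or] at hc
  refine ⟨c • u + w, fun h => hc.1 ?_, fun h => hc.2 ?_, ?_⟩
  · rw [map_add, map_smul, smul_eq_mul] at h
    rw [eq_div_iff u1]; linear_combination h
  · rw [map_add, map_smul, smul_eq_mul] at h
    rw [eq_div_iff u2]; linear_combination h
  · rw [map_add, map_smul, u3, smul_zero, zero_add]; exact hw

end Cfsg.Agent.SNG
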