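import Cfsg.Agent.SNG.ParB
import Cfsg.Agent.SNG.Form

set_option autoImplicit false
set_option linter.unusedSectionVars false

namespace Cfsg.Agent.SNG

open MulAction Module Submodule

variable {F : Type*} [Field F] [Fintype F] {p : ℕ} [Fact p.Prime] [CharP F p]
  {G : Type*} [Group G] {V : Type*} [AddCommGroup V] [Module F V] [DistribMulAction G V]
  [SMulCommClass G F V] [Finite V]

namespace SymplAux

variable {K H : V → Submodule F V}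

theorem form (h : Par K) (cov : ∀ a, a ≠ 0 → H a ⋖ K a) (self : ∀ a, a ∈ H a)
    (symm : ∀ a b, b ≠ 0 → b ∈ H a → a ∈ H b) (v : V) :
    ∃ f : V →ₗ[F] V →ₗ[F] F, (∀ a ∈ K v, a ≠ 0 → ∀ b ∈ K v, (f a b = 0 ↔ b ∈ H a)) ∧
      (∀ a ∈ K v, a ≠ 0 → ∃ b ∈ K v, f a b ≠ 0) ∧
      ∀ w ∈ K v, (∀ z ∈ K v, f z w = 0) → w = 0 := by
  have c : ∀ a ∈ K v, a ≠ 0 → H a ⋖ K v := fun a ha a0 => h.eq v a ha a0 ▸ cov a a0
  obtain ⟨f, -, hf⟩ := exists_form c (fun a _ => self a) fun a _ => symm a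
  refine ⟨f, hf, fun a ha a0 => ?_, fun w hw hz => ?_⟩
  · obtain ⟨b, hb, hb'⟩ := exists_of_covBy (c a ha a0)
    exact ⟨b, hb, fun e => hb' ((hf a ha a0 b hb).1 e)⟩
  · by_contra w0
    obtain ⟨z, hz1, hz2⟩ := exists_of_covBy (c w hw w0)
    exact hz2 (symm z w w0 ((hf z hz1 (ne0_of_notMem hz2) w hw).1 (hz z hz1)))

theorem pair (h : Par K) (cov : ∀ a, a ≠ 0 → H a ⋖ K a) (symm : ∀ a b, b ≠ 0 → b ∈ H a → a ∈ H b)
    {u : V} (hu : u ≠ 0) (h3 : 3 ≤ finrank F (K u)) :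
    ∃ a ∈ H u, a ≠ 0 ∧ ∃ a' ∈ H u, a' ∉ H a := by
  obtain ⟨w, hw, hw'⟩ := exists_of_covBy (cov u hu)
  have w0 := ne0_of_notMem hw'
  have cw : H w ⋖ K u := h.eq u w hw w0 ▸ cov w w0
  have h1 := finrank_sup_add_finrank_inf_eq (H u) (H w)
  have h2 := finrank_mono (sup_le (cov u hu).le cw.le)
  have h4 := (covBy_iff.1 (cov u hu)).2
  have h5 := (covBy_iff.1 cw).2
  obtain ⟨a, ha, a0⟩ := exists_notMem (A := ⊥) (B := H u ⊓ H w) (by rw [finrank_bot]; omega)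
  have a0' : a ≠ 0 := ne0_of_notMem a0
  refine ⟨a, ha.1, a0', ?_⟩
  by_contra hn
  push Not at hn
  have ca : H a ⋖ K u := h.eq u a ((cov u hu).le ha.1) a0' ▸ cov a a0'
  rcases (cov u hu).eq_or_eq (show H u ≤ H a from hn) ca.le with e | e
  · exact hw' (e ▸ symm w a a0' ha.2)
  · exact ca.ne e

theorem tau (h : Par K) {u v : V} (hu : u ≠ 0) (hv : v ∉ K u) (y : V) :
    ∃ τ : V →ₗ[F] V, y ∈ K v → τ u = y ∧ (∀ a ∈ K u, τ a ∈ K v ∧ a + τ a ∈ K (u + y)) ∧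
      (y = 0 → τ = 0) ∧ (y ≠ 0 → ∀ b ∈ K v, ∃ a ∈ K u, τ a = b) := by
  by_cases hy : y ∈ K v
  · by_cases y0 : y = 0
    · subst y0
      exact ⟨0, fun _ => ⟨rfl, fun a ha => ⟨zero_mem _, by simpa using ha⟩, fun _ => rfl,
        fun e => absurd rfl e⟩⟩
    · obtain ⟨τ, h1, h2, h3, -⟩ := h.graph hu (v := y) fun k => y0 (h.disj hv k hy)
      rw [h.eq v y hy y0] at h2 h3
      exact ⟨τ, fun _ => ⟨h1, h2, fun e => absurd e y0, fun _ => h3⟩⟩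
  · exact ⟨0, fun k => absurd k hy⟩

theorem step (h : Par K) (cov : ∀ a, a ≠ 0 → H a ⋖ K a) (lin : ∀ a b, H (a + b) ≤ H a ⊔ H b)
    {u v y y' : V} (hu : u ≠ 0) (hv : v ∉ K u) (hy : y ∈ K v) (hy' : y' ∈ K v) (hne : y ≠ y')
    {τ τ' : V →ₗ[F] V} (h1 : ∀ a ∈ K u, τ a ∈ K v ∧ a + τ a ∈ K (u + y))
    (h2 : ∀ a ∈ K u, τ' a ∈ K v ∧ a + τ' a ∈ K (u + y')) (h0 : y' = 0 → τ' = 0) {a a' : V}
    (ha : a ∈ K u) (ha' : a' ∈ K u) (a0 : a ≠ 0) (k : a' ∈ H a) :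
    τ a' - τ' a' ∈ H (τ a - τ' a) := by
  have k1 : a' + τ' a' ∈ H (a + τ' a) := by
    by_cases y0 : y' = 0
    · simpa [h0 y0] using k
    · have e := h.eq v y' hy' y0
      exact (h.sim cov lin hu (v := y') (fun k => y0 (h.disj hv k hy')) ha ha' (e ▸ (h2 a ha).1)
        (e ▸ (h2 a' ha').1) a0 (h2 a ha).2 (h2 a' ha').2).1.1 k
  have nz : ∀ c ∈ K u, ∀ d ∈ K v, c ≠ 0 → c + d ≠ 0 := fun c hc d hd c0 e =>
    c0 (h.disj hv hc (by rw [eq_neg_of_add_eq_zero_left e]; exact neg_mem hd))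
  have hd : y - y' ∈ K v := sub_mem hy hy'
  have d0 : y - y' ≠ 0 := sub_ne_zero.2 hne
  have e := h.eq v _ hd d0
  have hn : y - y' ∉ K (u + y') := fun k => by
    have h3 : u + y' ∈ K v := h.eq_of_mem k hd d0 ▸ h.self (u + y')
    exact hu (h.disj hv (h.self u) ((add_mem_cancel_right hy').1 h3))
  have e2 : u + y' + (y - y') = u + y := by abel
  have e3 : ∀ c, c + τ' c + (τ c - τ' c) = c + τ c := fun c => by abel
  exact (h.sim cov lin (nz u (h.self u) y' hy' hu) hn (h2 a ha).2 (h2 a' ha').2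
    (e ▸ sub_mem (h1 a ha).1 (h2 a ha).1) (e ▸ sub_mem (h1 a' ha').1 (h2 a' ha').1)
    (nz a ha _ (h2 a ha).1 a0) (by rw [e2, e3]; exact (h1 a ha).2)
    (by rw [e2, e3]; exact (h1 a' ha').2)).2.1 k1

end SymplAux

open SymplAux in
theorem Par.sympl {K H : V → Submodule F V} (h : Par K) (cov : ∀ a, a ≠ 0 → H a ⋖ K a)
    (self : ∀ a, a ∈ H a) (symm : ∀ a b, b ≠ 0 → b ∈ H a → a ∈ H b)
    (lin : ∀ a b, H (a + b) ≤ H a ⊔ H b) {u : V} (hu : u ≠ 0) (h3 : 3 ≤ finrank F (K u)) :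
    K u = ⊤ := by
  by_contra hne
  obtain ⟨v, hv⟩ : ∃ v, v ∉ K u := by
    by_contra h'
    push Not at h'
    exact hne (eq_top_iff.2 fun v _ => h' v)
  have v0 := ne0_of_notMem hv
  obtain ⟨f, f1, f2, -⟩ := form h cov self symm u
  obtain ⟨g, g1, g2, g3⟩ := form h cov self symm v
  choose τ hτ using tau h hu hv
  have mB : ∀ y ∈ K v, ∀ a ∈ K u, τ y a ∈ K v := fun y hy a ha => ((hτ y hy).2.1 a ha).1
  have Q : ∀ y ∈ K v, ∀ y' ∈ K v, ∃ c : F, ∀ a ∈ K u, ∀ a' ∈ K u,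
      g (τ y a - τ y' a) (τ y a' - τ y' a') = c * f a a' := fun y hy y' hy' => by
    by_cases e : y = y'
    · exact ⟨0, fun a _ a' _ => by simp [e]⟩
    refine form_prop f (g.compl₁₂ (τ y - τ y') (τ y - τ y')) f2 fun a ha a' ha' k => ?_
    change g (τ y a - τ y' a) (τ y a' - τ y' a') = 0
    by_cases a0 : a = 0
    · simp [a0]
    by_cases s0 : τ y a - τ y' a = 0
    · simp [s0]
    exact (g1 _ (sub_mem (mB y hy a ha) (mB y' hy' a ha)) s0 _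
      (sub_mem (mB y hy a' ha') (mB y' hy' a' ha'))).2 (step h cov lin hu hv hy hy' e (hτ y hy).2.1
        (hτ y' hy').2.1 (hτ y' hy').2.2.1 ha ha' a0 ((f1 a ha a0 a' ha').1 k))
  have Q0 : ∀ y ∈ K v, ∃ c : F, ∀ a ∈ K u, ∀ a' ∈ K u, g (τ y a) (τ y a') = c * f a a' :=
    fun y hy => by simpa [(hτ 0 (zero_mem _)).2.2.1 rfl] using Q y hy 0 (zero_mem _)
  have P : ∀ y ∈ K v, ∀ z ∈ K v, ∃ c : F, ∀ a ∈ K u, ∀ a' ∈ K u,
      g (τ y a) (τ z a') + g (τ z a) (τ y a') = c * f a a' := fun y hy z hz => by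
    obtain ⟨c1, h1⟩ := Q y hy z hz
    obtain ⟨c2, h2⟩ := Q0 y hy
    obtain ⟨c3, h4⟩ := Q0 z hz
    refine ⟨c2 + c3 - c1, fun a ha a' ha' => ?_⟩
    have := h1 a ha a' ha'
    simp only [map_sub, LinearMap.sub_apply] at this
    linear_combination h2 a ha a' ha' + h4 a ha a' ha' - this
  obtain ⟨a, ha, a0, a', ha', hn⟩ := pair h cov symm hu h3
  have aA := (cov u hu).le ha
  have aA' := (cov u hu).le ha'
  have fa : f a a' ≠ 0 := fun e => hn ((f1 a aA a0 a' aA').1 e)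
  have kill : ∀ σ : V → V, σ u = 0 → (∀ x ∈ K u, σ x ∈ K v) → (∀ z ∈ K v, ∃ c : F, ∀ x ∈ K u, ∀ x' ∈ K u,
      g (σ x) (τ z x') + g (τ z x) (σ x') = c * f x x') → ∀ x ∈ K u, σ x = 0 := fun σ s0 sB hs => by
    choose c hc using hs
    have k1 : ∀ z hz, ∀ x ∈ K u, g z (σ x) = c z hz * f u x := fun z hz x hx => by
      simpa [s0, (hτ z hz).1] using hc z hz u (h.self u) x hx
    have k2 : ∀ x ∈ H u, σ x = 0 := fun x hx => g3 _ (sB x ((cov u hu).le hx)) fun z hz => by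
      rw [k1 z hz x ((cov u hu).le hx), (f1 u (h.self u) hu x ((cov u hu).le hx)).2 hx, mul_zero]
    refine fun x hx => g3 _ (sB x hx) fun z hz => ?_
    have := hc z hz a aA a' aA'
    rw [k2 a ha, k2 a' ha'] at this
    rw [k1 z hz x hx, (mul_eq_zero.1 (by simpa using this.symm : c z hz * f a a' = 0)).resolve_right fa,
      zero_mul]
  have add : ∀ y ∈ K v, ∀ y' ∈ K v, ∀ x ∈ K u, τ (y + y') x = τ y x + τ y' x := fun y hy y' hy' x hx => by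
    have hs := add_mem hy hy'
    refine sub_eq_zero.1 (kill (fun x => τ (y + y') x - (τ y x + τ y' x))
      (by simp [(hτ _ hy).1, (hτ _ hy').1, (hτ _ hs).1])
      (fun x hx => sub_mem (mB _ hs x hx) (add_mem (mB _ hy x hx) (mB _ hy' x hx))) (fun z hz => ?_) x hx)
    obtain ⟨c1, h1⟩ := P _ hs z hz
    obtain ⟨c2, h2⟩ := P _ hy z hz
    obtain ⟨c3, h4⟩ := P _ hy' z hz
    refine ⟨c1 - c2 - c3, fun b hb b' hb' => ?_⟩
    simp only [map_sub, map_add, LinearMap.sub_apply, LinearMap.add_apply]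
    linear_combination h1 b hb b' hb' - h2 b hb b' hb' - h4 b hb b' hb'
  have smul : ∀ (t : F), ∀ y ∈ K v, ∀ x ∈ K u, τ (t • y) x = t • τ y x := fun t y hy x hx => by
    have hs := smul_mem _ t hy
    refine sub_eq_zero.1 (kill (fun x => τ (t • y) x - t • τ y x)
      (by simp [(hτ _ hy).1, (hτ _ hs).1])
      (fun x hx => sub_mem (mB _ hs x hx) (smul_mem _ t (mB _ hy x hx))) (fun z hz => ?_) x hx)
    obtain ⟨c1, h1⟩ := P _ hs z hz
    obtain ⟨c2, h2⟩ := P _ hy z hz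
    refine ⟨c1 - t * c2, fun b hb b' hb' => ?_⟩
    simp only [map_sub, map_smul, LinearMap.sub_apply, LinearMap.smul_apply, smul_eq_mul]
    linear_combination h1 b hb b' hb' - t * h2 b hb b' hb'
  let L : ∀ x ∈ K u, K v →ₗ[F] V := fun x hx =>
    { toFun := fun y => τ y x
      map_add' := fun y y' => add _ y.2 _ y'.2 x hx
      map_smul' := fun t y => smul t _ y.2 x hx }
  obtain ⟨y, -, y0, hy⟩ := exists_iso (D := (⊤ : Submodule F (K v)))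
    (by rw [finrank_top, h.rk v u v0 hu]; exact h3) (g.compl₁₂ (L a aA) (L a' aA'))
  have y0' : (y : V) ≠ 0 := fun e => y0 (Subtype.ext e)
  obtain ⟨c, hc⟩ := Q0 y y.2
  have c0 : c = 0 := (mul_eq_zero.1 ((hc a aA a' aA').symm.trans hy)).resolve_right fa
  obtain ⟨b, hb, hb'⟩ := g2 v (h.self v) v0
  obtain ⟨x, hx, e⟩ := (hτ y y.2).2.2.2 y0' v (h.self v)
  obtain ⟨x', hx', e'⟩ := (hτ y y.2).2.2.2 y0' b hb
  exact hb' (by rw [← e, ← e', hc x hx x' hx', c0, zero_mul])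

end Cfsg.Agent.SNG
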