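import Cfsg.Agent.SNG.Step
import Cfsg.Agent.SNG.Sympl

set_option autoImplicit false
set_option linter.unusedSectionVars false

namespace Cfsg.Agent.SNG

open MulAction Module Submodule

variable {F : Type*} [Field F] [Fintype F] {p : ℕ} [Fact p.Prime] [CharP F p]
  {G : Type*} [Group G] {V : Type*} [AddCommGroup V] [Module F V] [DistribMulAction G V]
  [SMulCommClass G F V] [Finite V]

variable {T : Subgroup G} {x y : V} {W : V → Submodule F V}

/-- the points of `W a` on the same plane as `b` -/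
def Geo.dichN (h : Geo p T x y W) (a b : V) : Submodule F V where
  carrier := {u | u ∈ W a ∧ W u ≤ W a ⊔ W b}
  add_mem' hu hv := ⟨add_mem hu.1 hv.1, (h.lin _ _).trans (sup_le hu.2 hv.2)⟩
  zero_mem' := ⟨zero_mem _, h.zero ▸ bot_le⟩
  smul_mem' c u hu := ⟨smul_mem _ c hu.1, by
    by_cases hc : c = 0
    · rw [hc, zero_smul, h.zero]; exact bot_le
    · exact (h.smul c u hc).le.trans hu.2⟩

theorem dich_rk {A B C : Submodule F V} (h1 : A ≤ C) (h2 : B ≤ C) :
    finrank F A + finrank F B ≤ finrank F C + finrank F (A ⊓ B : Submodule F V) := by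
  rw [← finrank_sup_add_finrank_inf_eq]
  exact Nat.add_le_add_right (finrank_mono (sup_le h1 h2)) _

theorem Geo.dich_s (h : Geo p T x y W) (h1 : ¬ W y ≤ W x)
    (H : ∀ a b, b ∈ W a → b ∉ span F {a} → ∀ z ∈ W a, W z ≤ W a ⊔ W b) {a : V} (ha : a ≠ 0) : W a ⋖ ⊤ := by
  have key : ∀ a, a ≠ 0 → W a ⋖ Cl W a := fun a ha => by
    obtain ⟨b, hb, ba⟩ := h.exists_col ha
    have : Cl W a = W a ⊔ W b := by
      refine le_antisymm (cl_le (mem_sup_left (h.self a)) fun z hz => ?_)
        (sup_le (cl_closed (cl_self W a)) (cl_closed (cl_closed (cl_self W a) hb)))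
      by_cases hz' : z ∈ W a
      · exact H a b hb ba z hz'
      obtain ⟨c, hc, c0, hcz⟩ := h.exists_mid (ne0_of_notMem ba) hb hz hz'
      have hzc := h.symm _ _ c0 hcz
      refine (H c a (h.symm _ _ c0 hc) (fun k => hz' ?_) z hzc).trans (sup_le (H a b hb ba c hc) le_sup_left)
      obtain ⟨l, rfl⟩ := mem_span_singleton.1 k
      rwa [h.smul l c fun e => ha (by rw [e, zero_smul])]
    rw [this]
    exact h.cov_sup h1 hb ba
  rw [← h.par_cl.sympl key h.self h.symm h.lin ha (by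
    have := (covBy_iff.1 (key a ha)).2
    have := h.two_le ha
    omega)]
  exact key a ha

theorem Geo.dich_ge (h : Geo p T x y W) (h1 : ¬ W y ≤ W x) {a b : V} (hb : b ∈ W a) (ba : b ∉ span F {a}) :
    finrank F (W a) ≤ finrank F (h.dichN a b) + 1 := by
  have b0 := ne0_of_notMem ba
  have a0 := h.ne_zero hb b0
  have c1 := h.cov_inf' h1 hb ba
  obtain ⟨z, hz, hz'⟩ := exists_of_covBy c1
  have za : z ∉ W a := fun k => hz' ⟨k, hz⟩
  have az : a ∉ W z := fun k => za (h.symm _ _ a0 k)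
  have c2 := h.cov_inf h1 hz fun k => za (l1_le hb k)
  have h2 := dich_rk c1.le c2.le
  have h3 : (W a ⊓ W b ⊓ (W b ⊓ W z)) ⊔ span F {a} ≤ h.dichN a b := by
    refine sup_le (fun c hc => ?_) (l1_le ⟨h.self a, le_sup_left⟩)
    by_cases c0 : c = 0
    · exact c0 ▸ zero_mem _
    have ca : c ∉ span F {a} := notMem_l1_symm c0 fun k => az (l1_le hc.2.2 k)
    exact ⟨hc.1.1, le_sup_right.trans (eq_of_mem (h.cov_sup h1 hc.1.1 ca) (h.cov_sup h1 hb ba)
      (mem_sup_right (h.symm _ _ c0 hc.2.2)) (mem_sup_right hz) za).le⟩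
  have h4 := finrank_mono h3
  rw [rk_adj (show a ∉ W a ⊓ W b ⊓ (W b ⊓ W z) from fun k => az k.2.2)] at h4
  have := (covBy_iff.1 c1).2
  have := (covBy_iff.1 c2).2
  have := h.rk_eq a0 b0
  omega

theorem Geo.dich (h : Geo p T x y W) (h1 : ¬ W y ≤ W x) :
    (∀ a, a ≠ 0 → W a ⋖ ⊤) ∨ Hex p T x y W := by
  by_cases H : ∃ a b, b ∈ W a ∧ b ∉ span F {a} ∧ ∀ z ∈ W a, W z ≤ W a ⊔ W b
  · obtain ⟨a, b, hb, ba, H⟩ := H
    refine .inl fun _ => h.dich_s h1 fun a' b' hb' ba' z hz v hv => ?_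
    obtain ⟨g, c, hc, rfl, e⟩ := h.tr2 hb ba hb' ba'
    rw [← h.smul c b' hc, ← e, ← smul_inv_smul g v, h.sup_eqv]
    exact H (g⁻¹ • z) (by rwa [← h.eqv_iff g, smul_inv_smul]) (h.eqv _ _ _ hv)
  push Not at H
  have key : ∀ a b, b ∈ W a → b ∉ span F {a} → finrank F (W a) = 3 ∧ span F {a, b} = h.dichN a b :=
    fun a b hb ba => by
      have a0 := h.ne_zero hb (ne0_of_notMem ba)
      obtain ⟨c, hc, hc'⟩ := H a b hb ba
      have l2 : span F {a, b} ≤ h.dichN a b := l2_le ⟨h.self a, le_sup_left⟩ ⟨hb, le_sup_right⟩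
      have ca : c ∉ span F {a} := fun k => hc' (l2 (l1_le_l2 a b k)).2
      have h2 : h.dichN a b ⊓ h.dichN a c ≤ span F {a} := fun u hu => by_contra fun ua => hc' (by
        have k := h.cov_sup h1 hu.1.1 ua
        rw [← ((h.cov_sup h1 hb ba).eq_or_eq le_sup_left (sup_le le_sup_left hu.1.2)).resolve_left k.ne',
          ((h.cov_sup h1 hc ca).eq_or_eq le_sup_left (sup_le le_sup_left hu.2.2)).resolve_left k.ne']
        exact le_sup_right)
      have h3 := dich_rk (A := h.dichN a b) (B := h.dichN a c) (C := W a) (fun _ k => k.1) fun _ k => k.1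
      have h4 := finrank_mono h2
      have h5 := h.dich_ge h1 hb ba
      have h6 := h.dich_ge h1 hc ca
      have h7 := finrank_mono l2
      have h8 := finrank_lt_finrank_of_lt (show h.dichN a b < W a from
        lt_of_le_of_ne (fun _ k => k.1) fun e => hc' (show c ∈ h.dichN a b from e ▸ hc).2)
      rw [finrank_span_singleton a0] at h4
      have h9 := rk_l2 a0 ba
      exact ⟨by omega, eq_of_le_of_finrank_eq l2 (by omega)⟩
  refine .inr ⟨h, h1, fun a ha => ?_, fun a b b' hb ba hb' k => ?_⟩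
  · obtain ⟨b, hb, ba⟩ := h.exists_col ha
    exact (key a b hb ba).1
  · rw [(key a b hb ba).2]
    exact ⟨hb', k⟩

end Cfsg.Agent.SNG
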