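import Cfsg.Agent.SNG.HexB
import Cfsg.Agent.SNG.Dich

/-! Project SNG (notes/SNG.md): the hexagon case has dimension six. -/

set_option autoImplicit false
set_option linter.unusedSectionVars false

namespace Cfsg.Agent.SNG

open MulAction Module Submodule

variable {F : Type*} [Field F] [Fintype F] {p : ℕ} [Fact p.Prime] [CharP F p]
  {G : Type*} [Group G] {V : Type*} [AddCommGroup V] [Module F V] [DistribMulAction G V]
  [SMulCommClass G F V] [Finite V]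

variable {T : Subgroup G} {x y : V} {W : V → Submodule F V}

theorem hexC_zero {a b w : V} (a0 : a ≠ 0) (hb : b ∉ span F {a}) (h1 : w ∈ span F {a + b})
    (h2 : w ∈ span F {b}) : w = 0 := by
  obtain ⟨l, rfl⟩ := mem_span_singleton.1 h1
  obtain ⟨m, e⟩ := mem_span_singleton.1 h2
  by_contra h
  have l0 : l ≠ 0 := by rintro rfl; exact h (zero_smul _ _)
  refine notMem_l1_symm a0 hb (mem_span_singleton.2 ⟨l⁻¹ * m - 1, ?_⟩)
  rw [sub_smul, mul_smul, e, smul_smul, inv_mul_cancel₀ l0, one_smul, one_smul, add_sub_cancel_right]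

theorem Hex.hexC_rigid2 [Finite G] (h : Hex p T x y W) {g : G} {a b : V} (hb : b ∈ W a)
    (hg : ∀ v ∈ W2 W a, g • v = v) : ∀ v ∈ W2 W b, g • v = v := by
  by_cases h2 : b ∈ span F {a}
  · obtain ⟨c, rfl⟩ := mem_span_singleton.1 h2
    by_cases c0 : c = 0
    · intro v hv
      rw [c0, zero_smul, h.toGeo.W2_zero, mem_bot] at hv
      rw [hv, smul_zero]
    · rwa [h.toGeo.W2_smul c0]
  have h0 := ne0_of_notMem h2
  have a0 := h.toGeo0.ne_zero hb h0
  have key : ∀ c ∈ W a, c ∉ span F {a} → ∀ d ∈ W2 W c, g • d - d ∈ span F {c} := fun c hc ca d hd =>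
    h.rigid1 (h.symm _ _ (ne0_of_notMem ca) hc) (notMem_l1_symm a0 ca)
      (fun v hv => hg v (h.toGeo.sup_le_W2 hc (by rwa [sup_comm]))) hd
  have hab := add_mem (h.self a) hb
  have na : a + b ∉ span F {a} := fun h' => h2 (((span F {a}).add_mem_iff_right (self_l1 a)).1 h')
  obtain ⟨d, hd, hd'⟩ := SetLike.not_le_iff_exists.1 (h.W2_ne hab na)
  obtain ⟨u, hu, e, he, rfl⟩ := mem_sup.1 (h.toGeo.W2_lin a b hd)
  have h3 := key _ hab na _ hd
  rw [smul_add, hg u hu, add_sub_add_left_eq_sub] at h3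
  have h4 : g • e = e := sub_eq_zero.1 (hexC_zero a0 h2 h3 (key b hb h2 e he))
  have hba := h.symm _ _ h0 hb
  have h5 : W b ⊔ W a ≤ W2 W a := sup_comm (W a) _ ▸ h.toGeo.sup_le_W2 hb
  rw [eq_adj (h.cov_W2 hba (notMem_l1_symm a0 h2)) he fun h' => hd' (add_mem hu (h5 h'))]
  exact fix_sup (fun v hv => hg v (h5 hv)) (fix_l1 h4)

theorem Hex.rigid3 [Finite G] (h : Hex p T x y W) {g : G} {a : V} (hg : ∀ v ∈ W2 W a, g • v = v) :
    ∀ v ∈ Cl W a, g • v = v := by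
  intro v hv
  let U : Submodule F V :=
    { carrier := {u | ∀ v ∈ W2 W u, g • v = v}
      add_mem' := fun {b c} hb hc v hv => fix_sup hb hc v (h.toGeo.W2_lin b c hv)
      zero_mem' := h.hexC_rigid2 (zero_mem _) hg
      smul_mem' := fun c u hu => h.hexC_rigid2 (smul_mem _ c (h.self u)) hu }
  exact cl_le (U := U) hg (fun u hu b hb => h.hexC_rigid2 hb hu) hv v (h.toGeo.W2_self v (h.self v))

theorem Hex.hexC_idx [Finite G] (h : Hex p T x y W) :
    (fx T (W x ⊔ W y)).relIndex T ≤ Fintype.card F ^ 5 ∧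
      (fx T (W2 W x)).relIndex T ≤ Fintype.card F ^ 6 := by
  obtain ⟨e1, e2, e3⟩ := h.chain
  have e4 : (fx T (W x ⊔ W y)).relIndex T ≤ Fintype.card F ^ 5 := by
    rw [← Subgroup.relIndex_mul_relIndex _ (fx T (W x)) T (fx_anti T le_sup_left) (fx_le _ _),
      show 5 = 2 + 3 from rfl, pow_add]
    exact Nat.mul_le_mul e2 e1
  refine ⟨e4, ?_⟩
  rw [← Subgroup.relIndex_mul_relIndex _ (fx T (W x ⊔ W y)) T (fx_anti T (h.toGeo.sup_le_W2 h.ymem))
    (fx_le _ _), pow_succ']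
  exact Nat.mul_le_mul e3 e4

theorem Hex.hexC_six [Finite G] (h : Hex p T x y W) : finrank F V = 6 ∧ Cl W x = ⊤ := by
  obtain ⟨e5, e6⟩ := h.hexC_idx
  have q1 : 1 < Fintype.card F := Fintype.one_lt_card
  obtain ⟨h1, h2⟩ := act_bound (T := T) (R := fx T (W2 W x)) (cl_self W x) h.x0
    (fun r hr => h.rigid3 hr.2) h.trA
  have hx := h.toGeo.W2_le_cl (cl_self W x)
  have h7 : Fintype.card F * (fx T (W2 W x)).relIndex T ≤ Fintype.card F ^ 7 := by
    rw [pow_succ']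
    exact Nat.mul_le_mul_left _ e6
  have h3 : finrank F (Cl W x) ≠ 7 := fun he => by
    rw [he] at h1 h2
    have le : fx T (W x ⊔ W y) ≤ fx T (W2 W x) := fun t ht => ⟨ht.1, fun v hv =>
      reg_triv (D := Cl W x) (x := x) (fun t ht d hd => h.fixx t ht ▸ (h.toGeo.cl_eqv t _ _).2 hd)
        (h2 (le_antisymm h1 h7)) h.toGeo.conj_cl ht.1 ((h.toGeo.sup_le_W2 h.ymem).trans hx) ht.2
        (by rw [he, h.rk4 h.ymem h.yx]; norm_num) v (hx hv)⟩
    rw [← le_antisymm le (fx_anti T (h.toGeo.sup_le_W2 h.ymem))] at h1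
    have h8 := h1.trans (Nat.mul_le_mul_left _ e5)
    rw [← pow_succ', Nat.pow_le_pow_iff_right q1] at h8
    omega
  obtain ⟨v, hv, hv'⟩ := SetLike.not_le_iff_exists.1 (h.W2_ne h.ymem h.yx)
  have h4 := finrank_mono (sup_le hx (l1_le (h.toGeo.W2_le_cl (cl_closed (cl_self W x) h.ymem) hv)))
  rw [rk_adj hv', h.rk5 h.x0] at h4
  have h8 := h1.trans h7
  rw [Nat.pow_le_pow_iff_right q1] at h8
  have h5 : finrank F (Cl W x) = 6 := by omega
  have h6 := h.toGeo.par_cl.sympl (H := W2 W) (fun a ha => covBy_iff.2 ⟨h.toGeo.W2_le_cl (cl_self W a), by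
    rw [h.toGeo.par_cl.rk a x ha h.x0, h5, h.rk5 ha]⟩) (fun a => h.toGeo.W2_self a (h.self a))
    h.W2_symm h.toGeo.W2_lin h.x0 (by omega)
  rw [h6, finrank_top] at h5
  exact ⟨h5, h6⟩

theorem Geo.cases [Finite G] (h : Geo p T x y W) : Par W ∨ (∀ a, a ≠ 0 → W a ⋖ ⊤) ∨
    (finrank F V = 6 ∧ (fx T (⊤ : Submodule F V)).relIndex T ≤ Fintype.card F ^ 6 ∧
      ∃ D : Submodule F V, finrank F D = 4 ∧ (fx T D).relIndex T ≤ Fintype.card F ^ 5) := by
  by_cases h1 : W y ≤ W x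
  · exact Or.inl (h.par_of_le h1)
  rcases h.dich h1 with h2 | h3
  · exact Or.inr (Or.inl h2)
  obtain ⟨e5, e6⟩ := h3.hexC_idx
  obtain ⟨h4, h5⟩ := h3.hexC_six
  refine Or.inr (Or.inr ⟨h4, ?_, _, h3.rk4 h.ymem h.yx, e5⟩)
  rwa [le_antisymm (fx_anti T (le_top : W2 W x ≤ ⊤)) fun t ht => ⟨ht.1, h5 ▸ h3.rigid3 ht.2⟩]

end Cfsg.Agent.SNG
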