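import Cfsg.Agent.SNG.TTa

set_option autoImplicit false
set_option linter.unusedSectionVars false

namespace Cfsg.Agent.SNG

open MulAction Module Submodule

variable {F : Type*} [Field F] [Fintype F] {p : ℕ} [Fact p.Prime] [CharP F p]
  {G : Type*} [Group G] {V : Type*} [AddCommGroup V] [Module F V] [DistribMulAction G V]
  [SMulCommClass G F V] [Finite V]

theorem case_one (hq : 3 ≤ Fintype.card F) (hn : ¬ Tv F G V) (h4 : 4 ≤ finrank F V) {s : V}
    (hs : s ≠ 0) (all : ∀ (c : V ⧸ span F {s}) (ψ : (V ⧸ span F {s}) →ₗ[F] F), ψ c = 0 →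
      ∃ g : stabilizer G s, ∀ v, g • v = v + ψ v • c) : False := by
  have h3 := rk_quot (F := F) hs
  obtain ⟨c0, -, c0n⟩ := exists_notMem (A := (⊥ : Submodule F (V ⧸ span F {s}))) (B := ⊤) (by simp; omega)
  replace c0n : c0 ≠ 0 := by simpa using c0n
  obtain ⟨w, -, wn⟩ := exists_notMem (A := span F {c0}) (B := ⊤) (by rw [finrank_span_singleton c0n, finrank_top]; omega)
  obtain ⟨ψ, ψc, ψw⟩ := sep2 c0n wn 0 1
  obtain ⟨φ, hφ⟩ := sep0 (F := F) hs
  obtain ⟨σ, hσ⟩ := (span F {s}).mkQ.exists_rightInverse_of_surjective (range_mkQ _)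
  replace hσ : ∀ v, Submodule.Quotient.mk (σ v) = v := fun v => LinearMap.congr_fun hσ v
  choose! g hg using all
  have k0 : ∀ u v : V, (Submodule.Quotient.mk u : V ⧸ span F {s}) = Submodule.Quotient.mk v → ∃ t : F, u = v + t • s :=
    fun u v h => let ⟨t, ht⟩ := mem_span_singleton.1 ((Submodule.Quotient.eq _).1 h); ⟨t, by rw [ht, add_sub_cancel]⟩
  have E : ∀ a b : stabilizer G s, (∀ v : V ⧸ span F {s}, a • v = b • v) → ∀ v : V, a.1 • v = b.1 • v := fun a b h v => by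
    have := faith_quot hn (g := b⁻¹ * a) (fun v => by rw [mul_smul, h, inv_smul_smul]) v
    rwa [Subgroup.coe_mul, mul_smul, Subgroup.coe_inv, inv_smul_eq_iff] at this
  have fs : ∀ (a : stabilizer G s) (t : F) (v : V), a.1 • (v + t • s) = a.1 • v + t • s := fun a t v => by
    rw [smul_add, gs, show a.1 • s = s from a.2]
  obtain ⟨β, F0⟩ : ∃ β : V ⧸ span F {s} → (V ⧸ span F {s}) →ₗ[F] F, ∀ c, ψ c = 0 → ∀ d : V,
      ψ (Submodule.Quotient.mk d) = 0 → (g c ψ).1 • d = d + β c (Submodule.Quotient.mk d) • s := by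
    refine ⟨fun c => φ ∘ₗ (lin F (g c ψ).1 - LinearMap.id) ∘ₗ σ, fun c hc d hd => ?_⟩
    obtain ⟨t, ht⟩ := k0 ((g c ψ).1 • d) d (by rw [← smul_mk, hg c ψ hc, hd, zero_smul, add_zero])
    obtain ⟨r, hr⟩ := k0 _ d (hσ _)
    simp [lin_apply, hr, fs, ht, hφ]
  have sy : ∀ c d, ψ c = 0 → ψ d = 0 → β c d = β d c := fun c d hc hd => by
    obtain ⟨l, hl⟩ := k0 ((g d ψ).1 • σ w) (σ w + σ d) (by
      rw [← smul_mk, hg d ψ hd, Submodule.Quotient.mk_add, hσ, hσ, ψw, one_smul])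
    obtain ⟨m, hm⟩ := k0 ((g c ψ).1 • σ w) (σ w + σ c) (by
      rw [← smul_mk, hg c ψ hc, Submodule.Quotient.mk_add, hσ, hσ, ψw, one_smul])
    have := congrArg φ (E (g c ψ * g d ψ) (g d ψ * g c ψ) (fun v => by
      simp only [mul_smul, hg c ψ hc, hg d ψ hd, map_add, map_smul, hc, hd, smul_zero, add_zero]
      abel) (σ w))
    rw [Subgroup.coe_mul, Subgroup.coe_mul, mul_smul, mul_smul, hl, hm, fs, fs, smul_add, smul_add, hl, hm,
      F0 c hc _ (by rwa [hσ]), F0 d hd _ (by rwa [hσ]), hσ, hσ] at this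
    simp only [map_add, map_smul, hφ, smul_eq_mul] at this
    linear_combination this
  have eq : ∀ (h : stabilizer G s) (δ : F) (c c' d : V ⧸ span F {s}), (∀ v, ψ (h • v) = δ * ψ v) → δ • c' = h • c →
      ψ c = 0 → ψ c' = 0 → ψ d = 0 → β c' (h • d) = β c d := fun h δ c c' d h1 h2 hc hc' hd => by
    have := congrArg φ (E (g c' ψ * h) (h * g c ψ) (fun v => by
      rw [mul_smul, mul_smul, hg c ψ hc, hg c' ψ hc', h1, mul_comm, mul_smul, h2, smul_add, gs]) (σ d))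
    rw [Subgroup.coe_mul, Subgroup.coe_mul, mul_smul, mul_smul, F0 c hc _ (by rwa [hσ]), fs,
      F0 c' hc' _ (by rw [← smul_mk, hσ, h1, hd, mul_zero]), ← smul_mk, hσ] at this
    simpa [hφ] using this
  have alt : ∀ d, ψ d = 0 → β d d = 0 := fun d hd => by
    by_cases d0 : d = 0
    · rw [d0, map_zero]
    have wd : w ∉ span F {d} := fun k => by
      obtain ⟨t, rfl⟩ := mem_span_singleton.1 k
      simp [hd] at ψw
    obtain ⟨v, -, hv⟩ := exists_notMem (A := span F {d, w}) (B := ⊤) (by rw [rk_l2 d0 wd, finrank_top]; omega)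
    obtain ⟨ψ', a1, a2⟩ := sep2 d0 (b := v - ψ v • w) (fun k => hv (by
      rw [← sub_add_cancel v (ψ v • w)]
      exact add_mem (l1_le_l2 _ _ k) (smul_mem _ _ (right_l2 _ _)))) (0 : F) 1
    have a3 : ψ (v - ψ v • w) = 0 := by simp [ψw]
    generalize v - ψ v • w = c at a2 a3
    have a4 : ψ (c + d) = 0 := by simp [a3, hd]
    have := eq (g d ψ') 1 c (c + d) d (fun v => by simp [hg d ψ' a1, hd]) (by simp [hg d ψ' a1, a2]) a3 a4 hd
    rw [hg d ψ' a1, a1, zero_smul, add_zero, sy _ d a4 hd, map_add, sy d c hd a3] at this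
    linear_combination this
  have zero : ∀ d, ψ d = 0 → β c0 d = 0 := fun d hd => by
    by_cases dc : d ∈ span F {c0}
    · obtain ⟨t, rfl⟩ := mem_span_singleton.1 dc
      rw [map_smul, alt c0 ψc, smul_zero]
    by_cases h2 : (2 : F) = 0
    swap
    · have a4 : ψ (c0 + d) = 0 := by simp [ψc, hd]
      have := alt _ a4
      rw [map_add, sy _ c0 a4 ψc, sy _ d a4 hd, map_add, map_add, alt c0 ψc, alt d hd, sy d c0 hd ψc] at this
      exact (mul_eq_zero.1 (by linear_combination this)).resolve_left h2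
    obtain ⟨a, a0, a1⟩ : ∃ a : F, a ≠ 0 ∧ a ≠ 1 := by
      classical
      obtain ⟨a, -, ha⟩ := Finset.exists_mem_notMem_of_card_lt_card (s := {0, 1}) (t := (Finset.univ : Finset F))
        (Finset.card_le_two.trans_lt hq)
      exact ⟨a, by simpa using ha⟩
    obtain ⟨ψ'', b1, b2⟩ := sep2 c0n dc (1 : F) 0
    obtain ⟨ψ', b1, b2, b3⟩ : ∃ ψ' : (V ⧸ span F {s}) →ₗ[F] F, ψ' c0 = 1 ∧ ψ' d = 0 ∧ ψ' w = 0 :=
      ⟨ψ'' - ψ'' w • ψ, by simp [b1, ψc], by simp [b2, hd], by simp [ψw]⟩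
    have l : ∀ (t : F) v, g w (t • ψ') • v = v + (t * ψ' v) • w := fun t => hg w _ (by simp [b3])
    have a4 : ψ ((a * a) • c0) = 0 := by simp [ψc]
    have := eq (g w ((a⁻¹ - 1) • ψ') * g c0 ψ * g w ((a - 1) • ψ')) a⁻¹ c0 ((a * a) • c0) d (fun v => by
      simp only [mul_smul, l, hg c0 ψ ψc, map_add, map_smul, ψc, ψw, b1, b3, smul_eq_mul]
      field_simp
      ring) (by
      simp only [mul_smul (α := stabilizer G s), l, hg c0 ψ ψc, map_add, map_smul, ψc, ψw, b1, b3, smul_eq_mul]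
      match_scalars <;> field_simp <;> ring) ψc a4 hd
    simp only [mul_smul (α := stabilizer G s), l, hg c0 ψ ψc, b2, hd, mul_zero, zero_smul, add_zero] at this
    rw [sy _ d a4 hd, map_smul, sy d c0 hd ψc, smul_eq_mul] at this
    exact (mul_eq_zero.1 (show (a - 1) ^ 2 * β c0 d = 0 by linear_combination this - (a - 1) * β c0 d * h2)).resolve_left
      (pow_ne_zero 2 (sub_ne_zero.2 a1))
  refine hn (tv_of_hyper (g := (g c0 ψ).1) (ψ := ψ ∘ₗ (span F {s}).mkQ) (w := σ w) (by simp [hσ, ψw]) (fun v hv => ?_) ?_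
    fun k => c0n ?_)
  · rw [F0 c0 ψc v hv, zero (Submodule.Quotient.mk v) hv, zero_smul, add_zero]
  · simp [← smul_mk, hσ, hg c0 ψ ψc, ψw, ψc]
  · have := congrArg (Submodule.Quotient.mk (p := span F {s})) k
    rwa [← smul_mk, hσ, hg c0 ψ ψc, ψw, one_smul, add_eq_left] at this

end Cfsg.Agent.SNG
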