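import Cfsg.Agent.SNG.Defs
import Mathlib.FieldTheory.ChevalleyWarning
import Mathlib.Algebra.MvPolynomial.Division
import Mathlib.Algebra.MvPolynomial.NoZeroDivisors
import Mathlib.RingTheory.MvPolynomial.Homogeneous
import Mathlib.LinearAlgebra.Matrix.ToLinearEquiv
import Mathlib.LinearAlgebra.Matrix.Adjugate

set_option autoImplicit false
set_option linter.unusedSectionVars false

namespace Cfsg.Agent.SNG

open MulAction Module Submodule

variable {F : Type*} [Field F] [Fintype F] {p : ℕ} [Fact p.Prime] [CharP F p]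
  {G : Type*} [Group G] {V : Type*} [AddCommGroup V] [Module F V] [DistribMulAction G V]
  [SMulCommClass G F V] [Finite V]

namespace Tri2X

open Matrix MvPolynomial

theorem upd {R ι : Type*} [CommRing R] [Fintype ι] [DecidableEq ι] (A : Matrix ι ι R) (a k : ι) (u : ι → R) :
    (A.updateRow a (Pi.single a 1) *ᵥ u) k = if k = a then u a else (A *ᵥ u) k := by
  split_ifs with h
  · subst h
    simp [mulVec]
  · simp [mulVec, updateRow_ne h]

theorem prop {R ι : Type*} [CommRing R] [IsDomain R] [Fintype ι] [DecidableEq ι] {A : Matrix ι ι R} {v w : ι → R}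
    (hv : A *ᵥ v = 0) (hw : A *ᵥ w = 0) {a : ι} (h : adjugate A a a ≠ 0) (i : ι) : v a * w i = w a * v i := by
  rw [adjugate_apply] at h
  have := eq_zero_of_mulVec_eq_zero h (v := v a • w - w a • v) (funext fun k => by
    rw [upd]
    split_ifs
    · simp [mul_comm]
    · simp [mulVec_sub, mulVec_smul, hv, hw])
  simpa [sub_eq_zero] using congrFun this i

theorem sq_rel {R ι : Type*} [CommRing R] [IsDomain R] [Fintype ι] [DecidableEq ι] {A : Matrix ι ι R} {x : ι → R}
    (hT : Aᵀ = -A) (hx : A *ᵥ x = 0) (x0 : x ≠ 0) {a : ι} (h : adjugate A a a ≠ 0) (j : ι) :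
    x a ^ 2 * adjugate A j j = adjugate A a a * x j ^ 2 := by
  have hd : A.det = 0 := exists_mulVec_eq_zero_iff.1 ⟨x, x0, hx⟩
  have h1 : A * adjugate A = 0 := by rw [mul_adjugate, hd, zero_smul]
  have h2 : A * (adjugate A)ᵀ = 0 := by
    have : (adjugate A * A)ᵀ = 0 := by rw [adjugate_mul, hd, zero_smul, transpose_zero]
    rwa [transpose_mul, hT, Matrix.neg_mul, neg_eq_zero] at this
  have h3 := prop hx (w := fun i => adjugate A i j) (funext fun k => congrFun (congrFun h1 k) j) h j
  have h4 := prop hx (w := fun i => adjugate A a i) (funext fun k => congrFun (congrFun h2 k) a) h j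
  linear_combination x a * h3 + x j * h4

theorem hom_det {σ ι : Type*} [Fintype ι] [DecidableEq ι] {A : Matrix ι ι (MvPolynomial σ F)}
    (h : ∀ i j, (A i j).IsHomogeneous 1) : A.det.IsHomogeneous (Fintype.card ι) := by
  rw [det_apply']
  refine IsHomogeneous.sum _ _ _ fun s _ => ?_
  have := IsHomogeneous.prod Finset.univ (fun i => A (s i) i) (fun _ => 1) fun i _ => h _ _
  rw [Finset.sum_const, smul_eq_mul, mul_one, Finset.card_univ] at this
  simpa using this.C_mul ((Equiv.Perm.sign s : ℤ) : F)

/-- the polynomial part of the argument -/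
theorem core {n : ℕ} (hn : 3 ≤ n) (c : Fin (n + 1) → Fin (n + 1) → Fin (n + 1) → F)
    (h1 : ∀ k i j, c k j i = -c k i j) (h2 : ∀ k i j, c j i k = -c k i j) (h3 : ∀ k i, c k i k = 0)
    (pt : ∀ (s : Fin (n + 1) → F) a, s a ≠ 0 → adjugate (Matrix.of fun i j => ∑ k, c k i j * s k) a a ≠ 0) :
    False := by
  classical
  set A : Matrix (Fin (n + 1)) (Fin (n + 1)) (MvPolynomial (Fin (n + 1)) F) :=
    Matrix.of fun i j => ∑ k, C (c k i j) * X k with hA
  have ev : ∀ (s : Fin (n + 1) → F) a, s a ≠ 0 → eval s (adjugate A a a) ≠ 0 := fun s a ha => by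
    have e1 := congrFun (congrFun ((eval s).map_adjugate A) a) a
    have e2 : (eval s).mapMatrix A = Matrix.of fun i j => ∑ k, c k i j * s k := by
      ext i j
      simp [hA]
    rw [e2] at e1
    exact fun h => pt s a ha (e1.symm.trans h)
  have ne : ∀ a, adjugate A a a ≠ 0 := fun a h => ev (fun _ => 1) a one_ne_zero (by rw [h, map_zero])
  have hT : Aᵀ = -A := by
    refine Matrix.ext fun i j => ?_
    simp only [hA, transpose_apply, of_apply, Matrix.neg_apply, ← Finset.sum_neg_distrib]
    exact Finset.sum_congr rfl fun k _ => by rw [h1, map_neg, neg_mul]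
  have hx : A *ᵥ X = 0 := funext fun i => by
    simp only [hA, mulVec, dotProduct, of_apply, Finset.sum_mul, Pi.zero_apply]
    rw [← Finset.sum_product']
    refine Finset.sum_involution (fun a _ => a.swap) (fun a _ => ?_) (fun a _ h e => h ?_) (fun a _ => by simp)
      fun a _ => rfl
    · rw [Prod.fst_swap, Prod.snd_swap, h2 a.1 i a.2, map_neg]; ring
    · rw [show a.2 = a.1 from congrArg Prod.fst e, h3, map_zero, zero_mul, zero_mul]
  have rel := sq_rel hT hx (fun h => X_ne_zero (R := F) 0 (congrFun h 0)) (ne 0)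
  have h01 : (0 : Fin (n + 1)) ≠ Fin.last n := fun e => by
    have := congrArg Fin.val e
    simp only [Fin.val_zero, Fin.val_last] at this
    omega
  obtain ⟨L, hL⟩ : X 0 ^ 2 ∣ adjugate A 0 0 := X_prime.pow_dvd_of_dvd_mul_right 2
    (fun h => h01 (X_dvd_X.1 (X_prime.dvd_of_dvd_pow h))) ⟨_, (rel (Fin.last n)).symm⟩
  have hj : ∀ j, adjugate A j j = L * X j ^ 2 := fun j =>
    mul_left_cancel₀ (pow_ne_zero 2 (X_ne_zero (R := F) 0)) (by rw [rel, hL, mul_assoc])
  have hh : (adjugate A 0 0).IsHomogeneous n := by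
    rw [adjugate_fin_succ_eq_det_submatrix]
    simpa using hom_det (A := A.submatrix (Fin.succAbove 0) (Fin.succAbove 0)) fun i j => by
      rw [submatrix_apply, hA, of_apply]
      exact IsHomogeneous.sum _ _ _ fun k _ => isHomogeneous_C_mul_X _ _
  have hdeg : L.totalDegree < Fintype.card (Fin (n + 1)) := by
    have := (totalDegree_le_of_dvd_of_isDomain (f := L) ⟨_, hj 0⟩ (ne 0)).trans hh.totalDegree_le
    rw [Fintype.card_fin]
    omega
  have h0 : eval 0 L = 0 := by
    have := hh.coeff_eq_zero (d := Finsupp.single 0 1 + (Finsupp.single 0 1 + 0)) (by simp; omega)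
    rw [hL, pow_two, mul_assoc, coeff_X_mul, coeff_X_mul] at this
    simpa [constantCoeff_eq] using this
  have hp : Fact (ringChar F).Prime := ⟨CharP.char_is_prime F _⟩
  have hcw := char_dvd_card_solutions (ringChar F) hdeg
  have : Unique {x : Fin (n + 1) → F // eval x L = 0} :=
    ⟨⟨⟨0, h0⟩⟩, fun s => Subtype.ext (funext fun a => by
      by_contra ha
      exact ev s.1 a ha (by rw [hj, map_mul, s.2, zero_mul]))⟩
  rw [Fintype.card_unique] at hcw
  exact hp.out.one_lt.ne' (Nat.dvd_one.1 hcw)

theorem anti (B : V →ₗ[F] V →ₗ[F] F) (h : ∀ b, B b b = 0) (b c : V) : B c b = -B b c := by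
  have := h (b + c)
  simp only [map_add, LinearMap.add_apply, h] at this
  linear_combination this

end Tri2X

open Tri2X Matrix in
theorem no_tri (h4 : 4 ≤ finrank F V) (f : V →ₗ[F] V →ₗ[F] V →ₗ[F] F) (a1 : ∀ s b, f s b b = 0)
    (a2 : ∀ s, f s s = 0) (nd : ∀ s b, s ≠ 0 → b ∉ span F {s} → f s b ≠ 0) : False := by
  obtain ⟨n, hn⟩ : ∃ n, finrank F V = n + 1 := ⟨finrank F V - 1, by omega⟩
  let b := finBasisOfFinrankEq F V hn
  have t1 : ∀ s u w, f s w u = -f s u w := fun s => anti _ (a1 s)
  have t2 : ∀ s u w, f u s w = -f s u w := fun s u w => by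
    have := congrArg (· w) (a2 (s + u))
    simp only [map_add, LinearMap.add_apply, a2, LinearMap.zero_apply] at this
    linear_combination this
  refine core (n := n) (by omega) (fun k i j => f (b k) (b i) (b j)) (fun _ _ _ => t1 _ _ _)
    (fun k i j => by rw [t2, t1, t2, neg_neg]) (fun k i => by rw [t1, a2]; simp) fun s a ha hd => ?_
  rw [adjugate_apply] at hd
  obtain ⟨u, u0, hu⟩ := exists_mulVec_eq_zero_iff.2 hd
  have key : ∀ i, ((Matrix.of fun i j => ∑ k, f (b k) (b i) (b j) * s k) *ᵥ u) i =
      f (b.equivFun.symm s) (b i) (b.equivFun.symm u) := fun i => by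
    simp only [mulVec, dotProduct, of_apply, Basis.equivFun_symm_apply, map_sum, map_smul, LinearMap.sum_apply,
      LinearMap.smul_apply, smul_eq_mul]
    exact Finset.sum_congr rfl fun j _ => by
      rw [mul_comm]; congr 1; exact Finset.sum_congr rfl fun k _ => mul_comm _ _
  have ua : u a = 0 := by simpa [upd] using congrFun hu a
  have h1 : ∀ k, k ≠ a → f (b.equivFun.symm s) (b k) (b.equivFun.symm u) = 0 := fun k hk => by
    rw [← key]
    simpa [upd, hk] using congrFun hu k
  have h2 : ∀ k, f (b.equivFun.symm s) (b k) (b.equivFun.symm u) = 0 := fun k => by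
    by_cases hk : k = a
    · subst hk
      have := congrArg (· (b.equivFun.symm u)) (a2 (b.equivFun.symm s))
      nth_rw 2 [Basis.equivFun_symm_apply] at this
      simp only [map_sum, map_smul, LinearMap.sum_apply, LinearMap.smul_apply, smul_eq_mul,
        LinearMap.zero_apply] at this
      rw [Finset.sum_eq_single k (fun j _ hj => by rw [h1 j hj, mul_zero]) (by simp)] at this
      exact (mul_eq_zero.1 this).resolve_left ha
    · exact h1 k hk
  have s0 : b.equivFun.symm s ≠ 0 := fun h => ha (congrFun ((map_eq_zero_iff _ b.equivFun.symm.injective).1 h) a)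
  have h3 : b.equivFun.symm u ∈ span F {b.equivFun.symm s} := by
    by_contra h
    exact nd _ _ s0 h (b.ext fun k => by rw [t1, h2]; simp)
  obtain ⟨c, hc⟩ := mem_span_singleton.1 h3
  rw [← map_smul, b.equivFun.symm.injective.eq_iff] at hc
  subst hc
  exact u0 (by rw [(mul_eq_zero.1 ua).resolve_right ha, zero_smul])

end Cfsg.Agent.SNG
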