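import Cfsg.Agent.SNG.Form
import Cfsg.Agent.SNG.Tri2

set_option autoImplicit false
set_option linter.unusedSectionVars false

namespace Cfsg.Agent.SNG

open MulAction Module Submodule

variable {F : Type*} [Field F] [Fintype F] {p : ℕ} [Fact p.Prime] [CharP F p]
  {G : Type*} [Group G] {V : Type*} [AddCommGroup V] [Module F V] [DistribMulAction G V]
  [SMulCommClass G F V] [Finite V]

namespace Tri1X

theorem prop {φ ψ : V →ₗ[F] F} (h0 : φ ≠ 0) (h : ∀ v, φ v = 0 → ψ v = 0) : ∃ c : F, ∀ v, ψ v = -c * φ v := by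
  obtain ⟨z, hz⟩ : ∃ z, φ z ≠ 0 := by
    by_contra hh
    exact h0 (LinearMap.ext fun v => not_not.1 fun e => hh ⟨v, e⟩)
  refine ⟨-(ψ z / φ z), fun v => ?_⟩
  have := h (φ z • v - φ v • z) (by simp [mul_comm])
  simp only [map_sub, map_smul, smul_eq_mul] at this
  field_simp
  linear_combination this

theorem ex_ne {φ : V →ₗ[F] F} (h0 : φ ≠ 0) : ∃ z, φ z ≠ 0 := by
  by_contra hh
  exact h0 (LinearMap.ext fun v => not_not.1 fun e => hh ⟨v, e⟩)

end Tri1X

open Tri1X in
theorem exists_tri (hq : 3 ≤ Fintype.card F) (f : V → V →ₗ[F] V →ₗ[F] F)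
    (alt : ∀ s b, s ≠ 0 → f s b b = 0) (rad : ∀ s, s ≠ 0 → f s s = 0)
    (nd : ∀ s b, s ≠ 0 → b ∉ span F {s} → f s b ≠ 0)
    (comm : ∀ s b c, s ≠ 0 → b ∉ span F {s} → f s b c = 0 → f b s c = 0) :
    ∃ t : V →ₗ[F] V →ₗ[F] V →ₗ[F] F, (∀ s b, t s b b = 0) ∧ (∀ s, t s s = 0) ∧
      ∀ s b, s ≠ 0 → b ∉ span F {s} → t s b ≠ 0 := by
  by_cases hV : ∃ s0 : V, s0 ≠ 0
  swap
  · exact ⟨0, fun _ _ => rfl, fun _ => rfl, fun s _ h => absurd ⟨s, h⟩ hV⟩
  obtain ⟨s0, h0⟩ := hV
  have an : ∀ s, s ≠ 0 → ∀ b c, f s c b = -f s b c := fun s hs => Tri2X.anti _ fun b => alt s b hs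
  have hc : ∀ s x, ∃ c : F, s ≠ 0 → x ∉ span F {s} → ∀ v, f x s v = -c * f s x v := fun s x => by
    by_cases h : s ≠ 0 ∧ x ∉ span F {s}
    · obtain ⟨c, hc⟩ := prop (nd s x h.1 h.2) fun v => comm s x v h.1 h.2
      exact ⟨c, fun _ _ => hc⟩
    · exact ⟨0, fun a b => absurd ⟨a, b⟩ h⟩
  choose c hc using hc
  have inv : ∀ s x, s ≠ 0 → x ∉ span F {s} → c s x * c x s = 1 := fun s x hs hx => by
    obtain ⟨v, hv⟩ := ex_ne (nd s x hs hx)
    have e1 := hc s x hs hx v
    have e2 := hc x s (ne0_of_notMem hx) (notMem_l1_symm hs hx) v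
    refine mul_right_cancel₀ hv ?_
    linear_combination c x s * e1 - e2
  have n1 : ∀ s x z, s ≠ 0 → f s x z ≠ 0 → z ∉ span F {s} := fun s x z hs h hz => by
    obtain ⟨a, rfl⟩ := mem_span_singleton.1 hz
    exact h (by rw [an s hs, map_smul, rad s hs]; simp)
  have n2 : ∀ s x z, s ≠ 0 → f s x z ≠ 0 → z ∉ span F {x} := fun s x z hs h hz => by
    obtain ⟨a, rfl⟩ := mem_span_singleton.1 hz
    exact h (by rw [map_smul, alt s x hs, smul_zero])
  have cyc : ∀ s x z, s ≠ 0 → x ∉ span F {s} → f s x z ≠ 0 → c s x * c x z * c z s = 1 := fun s x z hs hx h => by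
    have x0 := ne0_of_notMem hx
    have hzs := n1 s x z hs h
    have z0 := ne0_of_notMem hzs
    have e1 := hc s x hs hx z
    have e2 := hc x z x0 (n2 s x z hs h) s
    have e3 := hc z s z0 (notMem_l1_symm hs hzs) x
    rw [an x x0 s z] at e2
    rw [an s hs x z, an z z0 x s] at e3
    refine mul_right_cancel₀ h ?_
    linear_combination e3 + c z s * e2 + c z s * c x z * e1
  have coc : ∀ s x z, s ≠ 0 → x ∉ span F {s} → z ∉ span F {x} → z ∉ span F {s} → c s x * c x z * c z s = 1 :=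
    fun s x z hs hx hz hz' => by
      have x0 := ne0_of_notMem hx
      have z0 := ne0_of_notMem hz
      have hsz := notMem_l1_symm hs hz'
      obtain ⟨w, w1, w2, w3⟩ := exists_ne3 hq (nd s x hs hx) (nd x z x0 hz) (nd z s z0 hsz)
      have e1 := cyc s x w hs hx w1
      have e2 := cyc x z w x0 hz w2
      have e3 := cyc z s w z0 hsz w3
      have i1 := inv s w hs (n1 s x w hs w1)
      have i2 := inv x w x0 (n1 x z w x0 w2)
      have i3 := inv z w z0 (n1 z s w z0 w3)
      calc _ = c s x * c x z * c z s * (c s w * c w s) * (c x w * c w x) * (c z w * c w z) := by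
            rw [i1, i2, i3, mul_one, mul_one, mul_one]
        _ = (c s x * c x w * c w s) * (c x z * c z w * c w x) * (c z s * c s w * c w z) := by ring
        _ = 1 := by rw [e1, e2, e3, mul_one, mul_one]
  have hg : ∀ z, ∃ g : V →ₗ[F] V →ₗ[F] F, (z ∉ span F {s0} → g = c z s0 • f z) ∧
      ∀ a : F, a • s0 = z → g = a • f s0 := fun z => by
    by_cases hz : z ∈ span F {s0}
    · obtain ⟨a, rfl⟩ := mem_span_singleton.1 hz
      exact ⟨a • f s0, fun h => absurd hz h, fun b e => by rw [smul_left_injective F h0 e]⟩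
    · exact ⟨_, fun _ => rfl, fun a e => absurd (mem_span_singleton.2 ⟨a, e⟩) hz⟩
  choose g g1 g2 using hg
  have mixed : ∀ (a : F) x, x ∉ span F {s0} → ∀ v, g (a • s0) x v = -g x (a • s0) v := fun a x hx v => by
    rw [g1 x hx, g2 _ a rfl]
    simp only [LinearMap.smul_apply, map_smul, smul_eq_mul, hc s0 x h0 hx v]
    linear_combination -(a * f s0 x v) * inv s0 x h0 hx
  have ga : ∀ z x v, g z x v = -g x z v := fun z x v => by
    by_cases hz : z ∈ span F {s0} <;> by_cases hx : x ∈ span F {s0}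
    · obtain ⟨a, rfl⟩ := mem_span_singleton.1 hz
      obtain ⟨b, rfl⟩ := mem_span_singleton.1 hx
      rw [g2 _ a rfl, g2 _ b rfl]
      simp [rad s0 h0]
    · obtain ⟨a, rfl⟩ := mem_span_singleton.1 hz
      exact mixed a x hx v
    · obtain ⟨b, rfl⟩ := mem_span_singleton.1 hx
      rw [mixed b z hz v, neg_neg]
    · have x0 := ne0_of_notMem hx
      have z0 := ne0_of_notMem hz
      rw [g1 z hz, g1 x hx]
      by_cases hzx : z ∈ span F {x}
      · have hxz : x ∈ span F {z} := by_contra fun h => notMem_l1_symm z0 h hzx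
        have k : ∀ u w : V, u ≠ 0 → w ∈ span F {u} → f u w = 0 := fun u w hu hw => by
          obtain ⟨a, rfl⟩ := mem_span_singleton.1 hw
          rw [map_smul, rad u hu, smul_zero]
        simp [k z x z0 hxz, k x z x0 hzx]
      · simp only [LinearMap.smul_apply, smul_eq_mul, hc x z x0 hzx v]
        linear_combination -(c x s0 * f x z v) * coc s0 x z h0 hx hzx hz +
          (c x z * c z s0 * f x z v) * inv s0 x h0 hx
  refine ⟨⟨⟨g, fun z z' => ?_⟩, fun a z => ?_⟩, fun s b => ?_, fun s => ?_, fun s b hs hb => ?_⟩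
  · ext x v
    simp only [LinearMap.add_apply]
    rw [ga, ga z, ga z', map_add, LinearMap.add_apply, neg_add]
  · ext x v
    simp only [LinearMap.smul_apply, RingHom.id_apply]
    rw [ga, ga z, map_smul, LinearMap.smul_apply, smul_neg]
  · change g s b b = 0
    by_cases h : s ∈ span F {s0}
    · obtain ⟨a, rfl⟩ := mem_span_singleton.1 h
      simp [g2 _ a rfl, alt s0 b h0]
    · simp [g1 s h, alt s b (ne0_of_notMem h)]
  · change g s s = 0
    by_cases h : s ∈ span F {s0}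
    · obtain ⟨a, rfl⟩ := mem_span_singleton.1 h
      simp [g2 _ a rfl, rad s0 h0]
    · simp [g1 s h, rad s (ne0_of_notMem h)]
  · change g s b ≠ 0
    by_cases h : s ∈ span F {s0}
    · obtain ⟨a, rfl⟩ := mem_span_singleton.1 h
      have a0 : a ≠ 0 := by rintro rfl; exact hs (zero_smul _ _)
      rw [span_singleton_smul_eq (IsUnit.mk0 a a0)] at hb
      rw [g2 _ a rfl, LinearMap.smul_apply]
      exact smul_ne_zero a0 (nd s0 b h0 hb)
    · rw [g1 s h, LinearMap.smul_apply]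
      exact smul_ne_zero (right_ne_zero_of_mul_eq_one (inv s0 s h0 h)) (nd s b hs hb)

theorem case_three (hq : 3 ≤ Fintype.card F) (h4 : 4 ≤ finrank F V) {s : V}
    {W : V ⧸ span F {s} → Submodule F (V ⧸ span F {s})} {S : V → V → Submodule F V}
    (hS : Blk s W S) (cov : ∀ a, a ≠ 0 → W a ⋖ ⊤) (self : ∀ a, a ∈ W a)
    (symm : ∀ a b, b ≠ 0 → b ∈ W a → a ∈ W b) : False := by
  have : Finite (V ⧸ span F {s}) := Finite.of_surjective _ (span F {s}).mkQ_surjective
  obtain ⟨B, b1, b2⟩ := exists_form (D := ⊤) (H := W) (fun a _ => cov a) (fun a _ => self a) fun a _ => symm a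
  have hπ : ∀ a : V, ∃ π : V →ₗ[F] V ⧸ span F {s}, a ≠ 0 → Function.Surjective π ∧
      (∀ v, π v = 0 ↔ v ∈ span F {a}) ∧ ∀ b, S a b = (W (π b)).comap π := fun a => by
    by_cases h : a = 0
    · exact ⟨0, fun h' => absurd h h'⟩
    · exact (hS.proj a h).imp fun _ h' _ => h'
  choose π hπ using hπ
  have key : ∀ a b c, a ≠ 0 → b ∉ span F {a} → (B (π a b) (π a c) = 0 ↔ c ∈ S a b) := fun a b c ha hb => by
    rw [b2 _ mem_top (fun h => hb (((hπ a ha).2.1 b).1 h)) _ mem_top, (hπ a ha).2.2, mem_comap]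
  obtain ⟨t, t1, t2, t3⟩ := exists_tri hq (fun a => B.compl₁₂ (π a) (π a)) (fun a b _ => b1 _ mem_top)
    (fun a ha => by
      ext v
      simp [((hπ a ha).2.1 a).2 (self_l1 a)])
    (fun a b ha hb h => by
      have b0 : π a b ≠ 0 := fun h => hb (((hπ a ha).2.1 b).1 h)
      obtain ⟨v, -, hv⟩ := exists_of_covBy (cov _ b0)
      obtain ⟨v, rfl⟩ := (hπ a ha).1 v
      exact hv ((b2 _ mem_top b0 _ mem_top).1 (LinearMap.congr_fun h v)))
    fun a b c ha hb h => (key b a c (ne0_of_notMem hb) (notMem_l1_symm ha hb)).2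
      (hS.comm a b ha (ne0_of_notMem hb) ▸ (key a b c ha hb).1 h)
  exact no_tri h4 t t1 t2 t3

end Cfsg.Agent.SNG
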