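import Cfsg.Agent.SNG.Defs

/-! Project SNG: linear partitions, the basic facts. -/

set_option autoImplicit false
set_option linter.unusedSectionVars false

namespace Cfsg.Agent.SNG

open MulAction Module Submodule

variable {F : Type*} [Field F] [Fintype F] {p : ℕ} [Fact p.Prime] [CharP F p]
  {G : Type*} [Group G] {V : Type*} [AddCommGroup V] [Module F V] [DistribMulAction G V]
  [SMulCommClass G F V] [Finite V]

variable {K : V → Submodule F V}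

theorem Par.eq_of_mem (h : Par K) {a b c : V} (ha : c ∈ K a) (hb : c ∈ K b) (hc : c ≠ 0) :
    K a = K b := (h.eq a c ha hc).symm.trans (h.eq b c hb hc)

theorem Par.le_of_mem (h : Par K) {u a : V} (ha : a ∈ K u) : K a ≤ K u := by
  by_cases h3 : a = 0
  · rw [h3, h.zero]; exact bot_le
  · rw [h.eq u _ ha h3]

theorem Par.swap (h : Par K) {u v : V} (hu : u ≠ 0) (hv : v ∉ K u) : u ∉ K v := fun h' =>
  hv (h.eq v u h' hu ▸ h.self v)

theorem Par.disj (h : Par K) {u v c : V} (hv : v ∉ K u) (h1 : c ∈ K u) (h2 : c ∈ K v) : c = 0 := by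
  by_contra hc
  exact hv (h.eq_of_mem h1 h2 hc ▸ h.self v)

theorem Par.parB_add_notMem (h : Par K) {u v : V} (hv : v ∉ K u) : u + v ∉ K u := fun h' =>
  hv (((K u).add_mem_iff_right (h.self u)).1 h')

theorem Par.disj_left (h : Par K) {u v c : V} (hv : v ∉ K u) (h1 : c ∈ K u) (h2 : c ∈ K (u + v)) :
    c = 0 := h.disj (h.parB_add_notMem hv) h1 h2

theorem Par.disj_right (h : Par K) {u v c : V} (hu : u ≠ 0) (hv : v ∉ K u) (h1 : c ∈ K v)
    (h2 : c ∈ K (u + v)) : c = 0 := h.disj_left (h.swap hu hv) h1 (by rwa [add_comm])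

theorem Par.closed (h : Par K) {u v a : V} (ha : a ∈ K u ⊔ K v) : K a ≤ K u ⊔ K v := by
  obtain ⟨c, hc, d, hd, rfl⟩ := mem_sup.1 ha
  exact (h.lin c d).trans (sup_le_sup (h.le_of_mem hc) (h.le_of_mem hd))

theorem Par.rk_sup (h : Par K) {u v : V} (hu : u ≠ 0) (hv : v ∉ K u) :
    finrank F (K u ⊔ K v : Submodule F V) = 2 * finrank F (K u) := by
  have h1 := finrank_sup_add_finrank_inf_eq (K u) (K v)
  have h2 : K u ⊓ K v = ⊥ := eq_bot_iff.2 fun c hc => (mem_bot F).2 (h.disj hv hc.1 hc.2)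
  rw [h2, finrank_bot, h.rk v u (ne0_of_notMem hv) hu] at h1
  omega

theorem Par.parB_sup_right (h : Par K) {u v : V} (hu : u ≠ 0) (hv : v ∉ K u) :
    K (u + v) ⊔ K v = K u ⊔ K v := by
  refine eq_of_le_of_finrank_eq (sup_le (h.lin u v) le_sup_right) ?_
  have h1 : u + v ∉ K v := by rw [add_comm]; exact h.parB_add_notMem (h.swap hu hv)
  rw [h.rk_sup hu hv, sup_comm, h.rk_sup (ne0_of_notMem hv) h1, h.rk v u (ne0_of_notMem hv) hu]

theorem Par.parB_ex (h : Par K) {u v : V} (hu : u ≠ 0) (hv : v ∉ K u) {a : V} (ha : a ∈ K u) :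
    ∃ b ∈ K v, a + b ∈ K (u + v) := by
  have h1 : a ∈ K (u + v) ⊔ K v := by rw [h.parB_sup_right hu hv]; exact mem_sup_left ha
  obtain ⟨c, hc, d, hd, rfl⟩ := mem_sup.1 h1
  exact ⟨-d, neg_mem hd, by simpa using hc⟩

theorem Par.parB_ex' (h : Par K) {u v : V} (hu : u ≠ 0) (hv : v ∉ K u) {b : V} (hb : b ∈ K v) :
    ∃ a ∈ K u, a + b ∈ K (u + v) := by
  obtain ⟨a, ha, hab⟩ := h.parB_ex (ne0_of_notMem hv) (h.swap hu hv) hb
  exact ⟨a, ha, by rwa [add_comm a, add_comm u]⟩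

theorem Par.graph (h : Par K) {u v : V} (hu : u ≠ 0) (hv : v ∉ K u) :
    ∃ τ : V →ₗ[F] V, τ u = v ∧ (∀ a ∈ K u, τ a ∈ K v ∧ a + τ a ∈ K (u + v)) ∧
      (∀ b ∈ K v, ∃ a ∈ K u, τ a = b) ∧ (∀ a ∈ K u, τ a = 0 → a = 0) ∧
      (∀ a ∈ K u, ∀ b ∈ K v, a + b ∈ K (u + v) → b = τ a) ∧
      ∀ c ∈ K (u + v), ∃ a ∈ K u, c = a + τ a := by
  have hd : Disjoint (K (u + v)) (K v) :=
    Submodule.disjoint_def.2 fun c h1 h2 => h.disj_right hu hv h2 h1
  obtain ⟨C, hC, hc⟩ := hd.exists_isCompl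
  let P : V →ₗ[F] V := (K v).subtype.comp ((K v).linearProjOfIsCompl C hc.symm)
  have P1 : ∀ b ∈ K v, P b = b := fun b hb =>
    congrArg Subtype.val (linearProjOfIsCompl_apply_left hc.symm ⟨b, hb⟩)
  have P2 : ∀ c ∈ K (u + v), P c = 0 := fun c h1 =>
    congrArg Subtype.val (linearProjOfIsCompl_apply_right' hc.symm (hC h1))
  have key : ∀ a, ∀ b ∈ K v, a + b ∈ K (u + v) → b = (-P) a := fun a b hb hab => by
    have := P2 _ hab
    rw [map_add, P1 b hb] at this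
    rw [LinearMap.neg_apply]
    exact eq_neg_of_add_eq_zero_right this
  have k2 : ∀ a ∈ K u, (-P) a ∈ K v ∧ a + (-P) a ∈ K (u + v) := fun a ha => by
    obtain ⟨b, hb, hab⟩ := h.parB_ex hu hv ha
    rw [← key a b hb hab]
    exact ⟨hb, hab⟩
  refine ⟨-P, (key u v (h.self v) (h.self _)).symm, k2, fun b hb => ?_, fun a ha h0 => ?_,
    fun a _ => key a, fun c hc => ?_⟩
  · obtain ⟨a, ha, hab⟩ := h.parB_ex' hu hv hb
    exact ⟨a, ha, (key a b hb hab).symm⟩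
  · have := (k2 a ha).2
    rw [h0, add_zero] at this
    exact h.disj_left hv ha this
  · obtain ⟨a, ha, b, hb, rfl⟩ := mem_sup.1 (h.lin u v hc)
    exact ⟨a, ha, by rw [← key a b hb hc]⟩

theorem Par.sim (h : Par K) {H : V → Submodule F V} (cov : ∀ a, a ≠ 0 → H a ⋖ K a)
    (lin : ∀ a b, H (a + b) ≤ H a ⊔ H b) {u v : V} (hu : u ≠ 0) (hv : v ∉ K u) {a a' b b' : V}
    (ha : a ∈ K u) (ha' : a' ∈ K u) (hb : b ∈ K v) (hb' : b' ∈ K v) (a0 : a ≠ 0)
    (h1 : a + b ∈ K (u + v)) (h2 : a' + b' ∈ K (u + v)) :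
    (a' ∈ H a ↔ a' + b' ∈ H (a + b)) ∧ (a' ∈ H a ↔ b' ∈ H b) := by
  have b0 : b ≠ 0 := by
    rintro rfl
    exact a0 (h.disj_left hv ha (by simpa using h1))
  have ab0 : a + b ≠ 0 := fun h' => a0 (h.disj hv ha (by
    rw [eq_neg_of_add_eq_zero_left h']; exact neg_mem hb))
  have ca := cov a a0
  have cb := cov b b0
  have cc := cov _ ab0
  rw [h.eq u a ha a0] at ca
  rw [h.eq v b hb b0] at cb
  rw [h.eq _ _ h1 ab0] at cc
  have dec : ∀ c ∈ K u, ∀ d ∈ K v, c + d ∈ H (a + b) → c ∈ H a ∧ d ∈ H b := by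
    intro c hc d hd hcd
    obtain ⟨c', hc', d', hd', e⟩ := mem_sup.1 (lin _ _ hcd)
    have e1 : c - c' = d' - d := by
      rw [sub_eq_sub_iff_add_eq_add, ← e, add_comm]
    have e2 : c - c' = 0 := h.disj hv (sub_mem hc (ca.le hc')) (e1 ▸ sub_mem (cb.le hd') hd)
    rw [e2, eq_comm, sub_eq_zero] at e1
    rw [sub_eq_zero] at e2
    exact ⟨e2 ▸ hc', e1 ▸ hd'⟩
  have gen : a' + b' ∉ H (a + b) → ∀ c ∈ K u, ∀ d ∈ K v, c + d ∈ K (u + v) →
      ∃ r : F, c - r • a' ∈ H a ∧ d - r • b' ∈ H b := by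
    intro hn c hc d hd hcd
    rw [eq_adj cc h2 hn] at hcd
    obtain ⟨r, hr⟩ := mem_adj.1 hcd
    refine ⟨r, dec _ (sub_mem hc (smul_mem _ _ ha')) _ (sub_mem hd (smul_mem _ _ hb')) ?_⟩
    rwa [smul_add, add_sub_add_comm] at hr
  have k1 : a' ∈ H a → a' + b' ∈ H (a + b) := fun h3 => by
    by_contra hn
    obtain ⟨c, hc, hc'⟩ := exists_of_covBy ca
    obtain ⟨d, hd, hcd⟩ := h.parB_ex hu hv hc
    obtain ⟨r, hr, -⟩ := gen hn c hc d hd hcd
    exact hc' (by simpa using add_mem hr (smul_mem _ r h3))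
  have k2 : b' ∈ H b → a' + b' ∈ H (a + b) := fun h3 => by
    by_contra hn
    obtain ⟨d, hd, hd'⟩ := exists_of_covBy cb
    obtain ⟨c, hc, hcd⟩ := h.parB_ex' hu hv hd
    obtain ⟨r, -, hr⟩ := gen hn c hc d hd hcd
    exact hd' (by simpa using add_mem hr (smul_mem _ r h3))
  exact ⟨⟨k1, fun h3 => (dec _ ha' _ hb' h3).1⟩,
    fun h3 => (dec _ ha' _ hb' (k1 h3)).2, fun h3 => (dec _ ha' _ hb' (k2 h3)).1⟩

end Cfsg.Agent.SNG
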