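import Cfsg.Agent.SNG.Fld
import Cfsg.Agent.SNG.Geo0
import Cfsg.Agent.SNG.ParB
import Mathlib.Combinatorics.Enumerative.DoubleCounting

set_option autoImplicit false
set_option linter.unusedSectionVars false

namespace Cfsg.Agent.SNG

open MulAction Module Submodule

variable {F : Type*} [Field F] [Fintype F] {p : ℕ} [Fact p.Prime] [CharP F p]
  {G : Type*} [Group G] {V : Type*} [AddCommGroup V] [Module F V] [DistribMulAction G V]
  [SMulCommClass G F V] [Finite V]

theorem two_roots {E : Type*} [Ring E] [Algebra F E] [Module.Finite F E] [Nontrivial E] [NoZeroDivisors E]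
    (comm : ∀ a b : E, a * b = b * a) (f : E) :
    ∃ R : Set E, R.ncard ≤ finrank F E ∧ ∀ ρ : E, Polynomial.aeval ρ (minpoly F f) = 0 → ρ ∈ R := by
  let _ : CommRing E := { ‹Ring E› with mul_comm := comm }
  have := NoZeroDivisors.to_isDomain E
  exact ⟨(minpoly F f).rootSet E, (Polynomial.ncard_rootSet_le _ E).trans (minpoly.natDegree_le f), fun ρ h =>
    (Polynomial.mem_rootSet_of_ne (minpoly.ne_zero_of_finite F f)).2 h⟩

theorem two_num {q : ℕ} (hq : 3 ≤ q) (e : ℕ) : q + (e + 2) * (q - 1) < q ^ (e + 2) := by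
  obtain ⟨r, rfl⟩ : ∃ r, q = r + 3 := ⟨q - 3, by omega⟩
  rw [show r + 3 - 1 = r + 2 from rfl]
  induction e with
  | zero => rw [zero_add, pow_two]; nlinarith
  | succ e ih =>
    rw [pow_succ]
    refine lt_of_le_of_lt ?_ (Nat.mul_lt_mul_of_pos_right ih (by omega))
    have := Nat.mul_le_mul_left (r + 3 + (e + 2) * (r + 2)) hq
    nlinarith

theorem case_twoB (hq : 3 ≤ Fintype.card F) {T : Subgroup G} {x y : V} {W : V → Submodule F V}
    (h : Geo p T x y W) (hP : Par W) {u v w : V} (hu : u ≠ 0) (hv : v ∉ W u)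
    (hw : w ∉ W u ⊔ W v) : False := by
  obtain ⟨E, e1, e2, e3, e4⟩ := hP.field hu hv hw
  have : Nontrivial V := ⟨x, 0, h.x0⟩
  have : Finite (Module.End F V) := Finite.of_injective _ DFunLike.coe_injective
  have : NoZeroDivisors E := ⟨fun {a b} k => or_iff_not_imp_right.2 fun n => Subtype.ext (e3 a a.2 (b.1 x)
    (fun l => n (Subtype.ext (e3 b b.2 x h.x0 l))) (LinearMap.congr_fun (congrArg Subtype.val k) x))⟩
  obtain ⟨f, hf, fx⟩ := e4 x y h.ymem
  obtain ⟨R, r1, r2⟩ := two_roots (F := F) (E := E) (fun a b => Subtype.ext (e2 a a.2 b b.2)) ⟨f, hf⟩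
  have r3 : finrank F E ≤ finrank F (W x) := LinearMap.finrank_le_finrank_of_injective
    (f := ((LinearMap.applyₗ x).comp E.val.toLinearMap).codRestrict (W x) fun a => (e1 a).1 a.2 x)
    ((injective_iff_map_eq_zero _).2 fun a k => Subtype.ext (e3 a a.2 x h.x0 (congrArg Subtype.val k)))
  have r4 : (W x : Set V) ⊆ (span F {x} : Set V) ∪ (fun z : E × F => z.2 • z.1.1 x) '' (R ×ˢ {0}ᶜ) := fun b hb => by
    refine or_iff_not_imp_left.2 fun n => ?_
    obtain ⟨g, c, c0, g1, g2⟩ := h.tr x b hb n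
    have k : ∀ a, (DistribMulAction.toLinearEquiv F V g).conjAlgEquiv F f a = g • f (g⁻¹ • a) := fun _ => rfl
    refine ⟨(⟨(DistribMulAction.toLinearEquiv F V g).conjAlgEquiv F f, (e1 _).2 fun a => ?_⟩, c⁻¹),
      ⟨r2 _ (Subtype.ext ?_), inv_ne_zero c0⟩, ?_⟩
    · have := h.eqv g _ _ ((e1 f).1 hf (g⁻¹ • a))
      rwa [smul_inv_smul] at this
    · refine (Polynomial.aeval_algHom_apply E.val _ _).symm.trans ((Polynomial.aeval_algHom_apply
        ((DistribMulAction.toLinearEquiv F V g).conjAlgEquiv F) f _).trans ?_)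
      rw [show Polynomial.aeval f (minpoly F (⟨f, hf⟩ : E)) = 0 from
        (Polynomial.aeval_algHom_apply E.val ⟨f, hf⟩ _).trans (by rw [minpoly.aeval, map_zero]), map_zero]
      rfl
    · simp only [k]
      rw [inv_smul_eq_iff.2 g1.symm, fx, g2, inv_smul_smul₀ c0]
  have r5 := (Set.ncard_le_ncard r4).trans ((Set.ncard_union_le _ _).trans (Nat.add_le_add_left (Set.ncard_image_le) _))
  obtain ⟨e, he⟩ := Nat.exists_eq_add_of_le' (h.toGeo0.two_le h.x0)
  rw [Set.ncard_prod, ← Nat.card_coe_set_eq, ← Nat.card_coe_set_eq, SetLike.coe_sort_coe, SetLike.coe_sort_coe,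
    card_eq_pow, card_eq_pow, finrank_span_singleton h.x0, pow_one, Set.compl_eq_univ_diff,
    Set.ncard_diff_singleton_of_mem (Set.mem_univ _), Set.ncard_univ, Nat.card_eq_fintype_card, he] at r5
  exact (two_num hq e).not_ge (r5.trans (Nat.add_le_add_left (Nat.mul_le_mul_right _ (r1.trans (r3.trans he.le))) _))

theorem case_twoA {s : V} {W : V ⧸ span F {s} → Submodule F (V ⧸ span F {s})}
    {S : V → V → Submodule F V} (hS : Blk s W S) (hP : Par W) {e : ℕ} (he : 2 ≤ e)
    (hrk : ∀ a, a ≠ 0 → finrank F (W a) = e) (hs : s ≠ 0) (hV : finrank F V = 2 * e + 1) :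
    False := by
  classical
  have m1 : ∀ a b, a ≠ 0 → a ∈ S a b := fun a b a0 => by
    obtain ⟨π, -, k1, k2⟩ := hS.proj a a0
    rw [k2, mem_comap, (k1 a).2 (self_l1 a)]
    exact zero_mem _
  have m2 : ∀ a b, a ≠ 0 → b ∈ S a b := fun a b a0 => by
    obtain ⟨π, -, -, k2⟩ := hS.proj a a0
    rw [k2]
    exact hP.self _
  have eq : ∀ a b c, a ≠ 0 → c ∈ S a b → c ∉ span F {a} → S a c = S a b := fun a b c a0 hc hc' => by
    obtain ⟨π, -, k1, k2⟩ := hS.proj a a0
    rw [k2] at hc
    rw [k2, k2, hP.eq _ _ hc (mt (k1 c).1 hc')]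
  have rk : ∀ a b, a ≠ 0 → b ∉ span F {a} → finrank F (S a b) = e + 1 := fun a b a0 hb => by
    obtain ⟨π, k0, k1, k2⟩ := hS.proj a a0
    have := (π.domRestrict (S a b)).finrank_range_add_finrank_ker
    rw [LinearMap.range_domRestrict, LinearMap.ker_domRestrict, show LinearMap.ker π = span F {a} from Submodule.ext k1,
      (comapSubtypeEquivOfLe (l1_le (m1 a b a0))).finrank_eq, finrank_span_singleton a0] at this
    rw [← this, k2, map_comap_eq_of_surjective k0, hrk _ (mt (k1 b).1 hb)]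
  obtain ⟨a, -, ha⟩ := exists_notMem (A := span F {s}) (B := ⊤) (by rw [finrank_span_singleton hs, finrank_top]; omega)
  have a0 := ne0_of_notMem ha
  have sa := notMem_l1_symm hs ha
  obtain ⟨b, -, hb⟩ := exists_notMem (A := S a s) (B := ⊤) (by rw [rk a s a0 sa, finrank_top]; omega)
  have b1 : s ∉ S a b := fun k => hb (eq a b s a0 k sa ▸ m2 a b a0)
  have b2 := rk a b a0 fun k => hb (l1_le (m1 a s a0) k)
  have b3 : ∀ u ∈ S a b, u ∉ span F {a} → ∀ u' ∈ S a b, u' ∉ span F {u} → S u u' = S a b := fun u hu n u' hu' n' => by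
    have k : S u a = S a b := (hS.comm u a (ne0_of_notMem n) a0).trans (eq a b u a0 hu n)
    rw [eq u a u' (ne0_of_notMem n) (k ▸ hu') n', k]
  have b4 : ∀ u ∈ S a b, u ≠ 0 → ∀ u' ∈ S a b, u' ∉ span F {u} → S u u' = S a b := fun u hu u0 u' hu' n' => by
    by_cases n : u ∈ span F {a}
    · rw [hS.comm u u' u0 (ne0_of_notMem n')]
      refine b3 u' hu' (fun k => n' ?_) u hu (notMem_l1_symm u0 n')
      exact l1_le (by_contra fun l => notMem_l1_symm u0 l n) k
    · exact b3 u hu n u' hu' n'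
  have cd : ∀ A B : Submodule F V, B ≤ A → (Set.toFinite ((A : Set V) \ B)).toFinset.card =
      Fintype.card F ^ finrank F A - Fintype.card F ^ finrank F B := fun A B k => by
    rw [← Set.ncard_eq_toFinset_card, Set.ncard_diff k, ← Nat.card_coe_set_eq, ← Nat.card_coe_set_eq, SetLike.coe_sort_coe,
      SetLike.coe_sort_coe, card_eq_pow, card_eq_pow]
  have key := Finset.card_mul_le_card_mul (fun u v => v ∈ S s u) (s := (Set.toFinite ((S a b : Set V) \ (⊥ : Submodule F V))).toFinset)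
    (t := (Set.toFinite (((⊤ : Submodule F V) : Set V) \ span F {s})).toFinset)
    (m := Fintype.card F ^ (e + 1) - Fintype.card F ^ 1) (n := Fintype.card F ^ 1 - Fintype.card F ^ 0) (fun u hu => by
      obtain ⟨u1, u2⟩ : u ∈ S a b ∧ u ≠ 0 := by simpa using hu
      rw [← rk s u hs (notMem_l1_symm u2 fun k => b1 (l1_le u1 k)), ← finrank_span_singleton (K := F) hs,
        ← cd _ _ (l1_le (m1 s u hs))]
      exact Finset.card_le_card fun v hv => by simpa [and_comm] using hv) (fun v hv => by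
      replace hv : v ∉ span F {s} := by simpa using hv
      refine le_of_not_gt fun k => ?_
      obtain ⟨u, hu⟩ := Finset.card_pos.1 (Nat.zero_lt_of_lt k)
      refine k.not_ge ?_
      obtain ⟨⟨u1, u2⟩, u3⟩ : (u ∈ S a b ∧ u ≠ 0) ∧ v ∈ S s u := by simpa using hu
      rw [← finrank_span_singleton (K := F) u2, ← finrank_bot F V, ← cd _ _ bot_le]
      refine Finset.card_le_card fun u' hu' => ?_
      obtain ⟨⟨c1, c2⟩, c3⟩ : (u' ∈ S a b ∧ u' ≠ 0) ∧ v ∈ S s u' := by simpa using hu'
      have : u' ∈ span F {u} := by_contra fun n => b1 (by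
        rw [← b4 u u1 u2 u' c1 n, eq u s u' u2 (by
          rw [hS.comm u s u2 hs, ← eq s u v hs u3 hv, eq s u' v hs c3 hv]
          exact m2 s u' hs) n]
        exact m2 u s u2)
      simpa using ⟨this, c2⟩)
  rw [cd _ _ bot_le, cd _ _ le_top, b2, finrank_bot, finrank_top, hV, finrank_span_singleton hs] at key
  have hq : 2 ≤ Fintype.card F := Fintype.one_lt_card
  generalize Fintype.card F = q at key hq
  have p1 : q ^ 2 ≤ q ^ e := Nat.pow_le_pow_right (by omega) he
  rw [show q ^ (2 * e + 1) = q ^ e * q ^ e * q by ring, pow_succ, pow_one, pow_zero] at key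
  generalize q ^ e = Q at key p1
  have p2 : q + 2 ≤ Q := by nlinarith
  zify [show 1 ≤ Q * q by nlinarith, show q ≤ Q * q by nlinarith, show q ≤ Q * Q * q by nlinarith,
    show 1 ≤ q by omega] at key p2 hq
  nlinarith [mul_pos (mul_pos (show (0 : ℤ) < Q by omega) (show (0 : ℤ) < q by omega)) (show (0 : ℤ) < Q - q - 1 by omega)]

theorem case_two (hq : 3 ≤ Fintype.card F) {s : V} (hs : s ≠ 0) {T : Subgroup (stabilizer G s)}
    {x y : V ⧸ span F {s}} {W : V ⧸ span F {s} → Submodule F (V ⧸ span F {s})}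
    (h : Geo p T x y W) (hP : Par W) {S : V → V → Submodule F V} (hS : Blk s W S) :
    W x = ⊤ := by
  have : Finite (V ⧸ span F {s}) := Finite.of_surjective _ (span F {s}).mkQ_surjective
  refine eq_top_iff.2 fun v _ => by_contra fun hv => ?_
  have k : W x ⊔ W v = ⊤ := eq_top_iff.2 fun w _ => by_contra fun hw => case_twoB hq h hP h.x0 hv hw
  have := hP.rk_sup h.x0 hv
  rw [k, finrank_top] at this
  exact case_twoA hS hP (h.toGeo0.two_le h.x0) (fun a a0 => hP.rk a x a0 h.x0) hs (by rw [← rk_quot hs, this])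

end Cfsg.Agent.SNG
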