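import Cfsg.Agent.SNG.Lin
import Cfsg.Agent.SNG.HexC
import Cfsg.Agent.SNG.Tri1
import Cfsg.Agent.SNG.Two
import Cfsg.Agent.SNG.ExS
import Cfsg.Agent.SNG.One
import Cfsg.Agent.SNG.Fou
import Cfsg.Agent.H29.CKMain

set_option autoImplicit false
set_option linter.unusedSectionVars false

namespace Cfsg.Agent.SNG

open MulAction Module Submodule

universe u v

theorem CK_ind {F : Type*} [Field F] [Fintype F] (p : ℕ) [Fact p.Prime] [CharP F p]
    (hq : 3 ≤ Fintype.card F) (n : ℕ) : ∀ (G : Type u) [Group G] [Finite G] (V : Type v)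
      [AddCommGroup V] [Module F V] [DistribMulAction G V] [SMulCommClass G F V] [Finite V],
      finrank F V = n → TT F G V → 3 ≤ finrank F V → Tv F G V := by
  induction n using Nat.strong_induction_on with | h n ih => ?_
  intro G _ _ V _ _ _ _ _ hV h h3
  by_contra hn
  have h4 : 4 ≤ finrank F V := by
    have := mt h.small hn
    omega
  obtain ⟨s, -, hs⟩ := exists_notMem (F := F) (A := (⊥ : Submodule F V)) (B := ⊤)
    (by rw [finrank_bot, finrank_top]; omega)
  have hs : s ≠ 0 := ne0_of_notMem hs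
  have hc := rk_quot (F := F) hs
  haveI : Finite (V ⧸ span F {s}) := Finite.of_surjective _ (mkQ_surjective (span F {s}))
  obtain ⟨T⟩ : Nonempty (Sylow p (stabilizer G s)) := inferInstance
  obtain ⟨x, y, W, hW⟩ := exists_geo (h.af_quot hs) (by omega) T
  obtain ⟨S, hS⟩ := h.exists_blk hs hW.toGeo0
  rcases hW.cases with hP | hI | ⟨h6, hR, D, hD, hT⟩
  · have hx := case_two hq hs hW hP hS
    have h5 : TT F (stabilizer G s) (V ⧸ span F {s}) := hW.toGeo0.tt hx (by omega)
    have h6 := ih _ (by omega) (stabilizer G s) (V ⧸ span F {s}) rfl h5 (by omega)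
    exact case_one hq hn h4 hs fun c ψ h1 => h5.tv_all h6 h1
  · exact case_three hq h4 hS hI hW.self hW.symm
  · exact case_four h hn hs T (by omega) hR hD hT

variable {F : Type*} [Field F] [Fintype F] {p : ℕ} [Fact p.Prime] [CharP F p]
  {G : Type*} [Group G] {V : Type*} [AddCommGroup V] [Module F V] [DistribMulAction G V]
  [SMulCommClass G F V] [Finite V]

theorem ck [Finite G] (hq : 3 ≤ Fintype.card F) (h : TT F G V) (h3 : 3 ≤ finrank F V) :
    Tv F G V := by
  haveI : Fact (ringChar F).Prime := ⟨CharP.char_is_prime F (ringChar F)⟩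
  exact CK_ind (ringChar F) hq _ G V rfl h h3

theorem ck_all [Finite G] (h : TT F G V) (h5 : 5 ≤ finrank F V) : Tv F G V := by
  by_cases hq : 3 ≤ Fintype.card F
  · exact ck hq h (by omega)
  have hq2 : Fintype.card F = 2 := by
    have := Fintype.one_lt_card (α := F)
    omega
  have h2 : (1 + 1 : F) = 0 := by
    have := FiniteField.cast_card_eq_zero F
    rw [hq2] at this
    exact_mod_cast (by rw [one_add_one_eq_two]; exact_mod_cast this)
  have z01 : ∀ c : F, c = 0 ∨ c = 1 := fun c => by
    have := FiniteField.pow_card c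
    rw [hq2] at this
    have h' : c * (c - 1) = 0 := by rw [mul_sub, mul_one, ← sq, this, sub_self]
    exact (mul_eq_zero.1 h').imp id sub_eq_zero.1
  have aa : ∀ v : V, v + v = 0 := fun v => by
    rw [← one_smul F v, ← add_smul, h2, zero_smul]
  haveI : H29.CK.Ex2 V := ⟨aa⟩
  have nm : ∀ a b : V, b ≠ 0 → b ≠ a → b ∉ span F {a} := fun a b h1 h2 h3 => by
    obtain ⟨c, rfl⟩ := mem_span_singleton.1 h3
    rcases z01 c with rfl | rfl
    · exact h1 (zero_smul _ _)
    · exact h2 (one_smul _ _)
  have hT : H29.CK.TT G V := fun a b a' b' a0 b0 ba a0' b0' ba' =>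
    h a b a' b' a0 (nm a b b0 ba) a0' (nm a' b' b0' ba')
  have hc : Nat.card V = 2 ^ finrank F V := by rw [card_top_eq_pow (F := F), hq2]
  have h32 : 32 ≤ Nat.card V := by
    rw [hc]
    exact Nat.pow_le_pow_right (n := 2) two_pos h5
  obtain ⟨g, c, w, h1, h3⟩ := (H29.CK.cameron_kantor _ G V rfl hT (by omega)).resolve_right
    (by omega)
  have hw : g • w = w + c := (h1 w).resolve_left h3
  have c0 : c ≠ 0 := by
    rintro rfl
    exact h3 (by rw [hw, add_zero])
  obtain ⟨θ, hθ⟩ := sep0 (F := F) c0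
  have hcc : g • c = c := (h1 c).resolve_right fun h' => smul_ne c0 (h'.trans (aa c))
  refine ⟨g, c, θ ∘ₗ (lin F g - LinearMap.id), c0, fun h' => ?_, ?_, fun v => ?_⟩
  · have := LinearMap.congr_fun h' w
    simp only [LinearMap.comp_apply, LinearMap.sub_apply, lin_apply, LinearMap.id_apply, hw,
      add_sub_cancel_left, hθ, LinearMap.zero_apply] at this
    exact one_ne_zero this
  · simp only [LinearMap.comp_apply, LinearMap.sub_apply, lin_apply, LinearMap.id_apply, hcc,
      sub_self, map_zero]
  · simp only [LinearMap.comp_apply, LinearMap.sub_apply, lin_apply, LinearMap.id_apply]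
    rcases h1 v with h' | h'
    · rw [h', sub_self, map_zero, zero_smul, add_zero]
    · rw [h', add_sub_cancel_left, hθ, one_smul]

end Cfsg.Agent.SNG
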