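import Cfsg.Agent.SNG.Defs
import Mathlib.NumberTheory.LegendreSymbol.Complex

set_option autoImplicit false
set_option linter.unusedSectionVars false

namespace Cfsg.Agent.SNG

open MulAction Module Submodule

variable {F : Type*} [Field F] [Fintype F] {p : ℕ} [Fact p.Prime] [CharP F p]
  {G : Type*} [Group G] {V : Type*} [AddCommGroup V] [Module F V] [DistribMulAction G V]
  [SMulCommClass G F V] [Finite V]

theorem four_char : ∃ (e : AddChar F ℂ) (c : F), e c ≠ 1 := by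
  have h := AddChar.FiniteField.primitiveChar_to_Complex_isPrimitive F
  have h1 := h (a := 1) one_ne_zero
  rw [AddChar.mulShift_one] at h1
  obtain ⟨c, hc⟩ := AddChar.ne_one_iff.1 h1
  exact ⟨_, c, hc⟩

theorem four_shift {A : Type*} [AddCommGroup A] [Fintype A] (f : A → ℂ) (a : A) {μ : ℂ} (hμ : μ ≠ 1)
    (h : ∀ x, f (x + a) = μ * f x) : ∑ x, f x = 0 := by
  have h1 : ∑ x, f (x + a) = ∑ x, f x := Equiv.sum_comp (Equiv.addRight a) f
  simp only [h, ← Finset.mul_sum] at h1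
  have h2 : (μ - 1) * ∑ x, f x = 0 := by rw [sub_mul, h1, one_mul, sub_self]
  exact (mul_eq_zero.1 h2).resolve_left (sub_ne_zero.2 hμ)

theorem fourier (Y : Subgroup G) (U : Submodule F V)
    (h : ∀ φ ψ : V →ₗ[F] F, (∃ u ∈ U, φ u ≠ 0) → (∀ u ∈ U, ψ u = 0) →
      ∃ g ∈ Y, ∀ w, (φ + ψ) (g • w) = φ w)
    {z u : V} (hz : z ∉ U) (hu : u ∈ U) : ∃ g ∈ Y, g • z = z + u := by
  classical
  obtain ⟨e, c, hc⟩ := four_char (F := F)
  have := Fintype.ofFinite V
  have := Fintype.ofFinite (V →ₗ[F] F)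
  obtain ⟨f, hf⟩ : ∃ f : V → ℂ, ∀ w, f w = if ∃ g ∈ Y, g • z = w then 1 else 0 := ⟨_, fun _ => rfl⟩
  have finv : ∀ g ∈ Y, ∀ w, f (g • w) = f w := fun g hg w => by
    rw [hf, hf]
    refine if_congr ⟨fun ⟨k, hk, e⟩ => ⟨g⁻¹ * k, Y.mul_mem (Y.inv_mem hg) hk, ?_⟩,
      fun ⟨k, hk, e⟩ => ⟨g * k, Y.mul_mem hg hk, ?_⟩⟩ rfl rfl
    · rw [mul_smul, e, inv_smul_smul]
    · rw [mul_smul, e]
  obtain ⟨Fh, hF⟩ : ∃ Fh : (V →ₗ[F] F) → ℂ, ∀ φ, Fh φ = ∑ w, f w * e (φ w) := ⟨_, fun _ => rfl⟩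
  have Finv : ∀ φ ψ : V →ₗ[F] F, (∃ u ∈ U, φ u ≠ 0) → (∀ u ∈ U, ψ u = 0) → Fh (φ + ψ) = Fh φ := fun φ ψ a b => by
    obtain ⟨g, hg, e1⟩ := h φ ψ a b
    rw [hF, hF, ← Equiv.sum_comp (MulAction.toPerm g)]
    refine Finset.sum_congr rfl fun w _ => ?_
    rw [MulAction.toPerm_apply, finv g hg, e1]
  have orth : ∀ v : V, ∑ φ : V →ₗ[F] F, e (φ v) = if v = 0 then (Fintype.card (V →ₗ[F] F) : ℂ) else 0 := fun v => by
    split_ifs with h0
    · simp [h0]
    · obtain ⟨ψ, hψ⟩ := sep0 (F := F) h0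
      refine four_shift _ (c • ψ) hc fun φ => ?_
      rw [LinearMap.add_apply, LinearMap.smul_apply, hψ, smul_eq_mul, mul_one, AddChar.map_add_eq_mul, mul_comm]
  have inv : ∀ v, ∑ φ, Fh φ * e (-φ v) = Fintype.card (V →ₗ[F] F) * f v := fun v => by
    simp only [hF, Finset.sum_mul]
    rw [Finset.sum_comm]
    have : ∀ w, ∑ φ : V →ₗ[F] F, f w * e (φ w) * e (-φ v) =
        if w = v then (Fintype.card (V →ₗ[F] F) : ℂ) * f v else 0 := fun w => by
      simp only [mul_assoc, ← AddChar.map_add_eq_mul, ← sub_eq_add_neg, ← map_sub, ← Finset.mul_sum, orth,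
        sub_eq_zero]
      split_ifs with h1
      · rw [h1, mul_comm]
      · rw [mul_zero]
    simp only [this, Finset.sum_ite_eq', Finset.mem_univ, if_true]
  have van : ∀ v, v ∉ U → ∑ φ : V →ₗ[F] F, (if ∀ u ∈ U, φ u = 0 then 0 else Fh φ * e (-φ v)) = 0 := fun v hv => by
    obtain ⟨ψ, h1, h2⟩ := sep hv
    refine four_shift _ ((-c) • ψ) hc fun φ => ?_
    have h3 : ∀ u ∈ U, ((-c) • ψ) u = 0 := fun u hu => by rw [LinearMap.smul_apply, h1 u hu, smul_zero]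
    have h4 : (∀ u ∈ U, (φ + (-c) • ψ) u = 0) ↔ ∀ u ∈ U, φ u = 0 :=
      forall₂_congr fun u hu => by rw [LinearMap.add_apply, h3 u hu, add_zero]
    rw [if_congr h4 rfl rfl]
    split_ifs with h5
    · rw [mul_zero]
    · push Not at h5
      rw [Finv φ _ h5 h3, LinearMap.add_apply, LinearMap.smul_apply, h2, smul_eq_mul, mul_one, neg_add, neg_neg,
        AddChar.map_add_eq_mul]
      ring
  have spl : ∀ v, v ∉ U → (Fintype.card (V →ₗ[F] F) : ℂ) * f v =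
      ∑ φ : V →ₗ[F] F, (if ∀ u ∈ U, φ u = 0 then Fh φ * e (-φ v) else 0) := fun v hv => by
    refine Eq.trans ?_ ((congrArg (_ + ·) (van v hv)).trans (add_zero _))
    rw [← inv, ← Finset.sum_add_distrib]
    refine Finset.sum_congr rfl fun φ _ => ?_
    split_ifs <;> simp
  have e1 : (Fintype.card (V →ₗ[F] F) : ℂ) * f (z + u) = Fintype.card (V →ₗ[F] F) * f z := by
    rw [spl z hz, spl (z + u) fun h1 => hz ((U.add_mem_iff_left hu).1 h1)]
    refine Finset.sum_congr rfl fun φ _ => ?_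
    split_ifs with h1
    · rw [map_add, h1 u hu, add_zero]
    · rfl
  have e2 := mul_left_cancel₀ (Nat.cast_ne_zero.2 Fintype.card_ne_zero) e1
  rw [hf, hf, if_pos (show ∃ g ∈ Y, g • z = z from ⟨1, Y.one_mem, one_smul _ _⟩)] at e2
  by_contra hn
  rw [if_neg hn] at e2
  exact zero_ne_one e2

theorem fourier' (Y : Subgroup G) (U : Submodule F V)
    (h : ∀ z, z ∉ U → ∀ u ∈ U, ∃ g ∈ Y, g • z = z + u) {φ φ' : V →ₗ[F] F}
    (h1 : ∃ u ∈ U, φ u ≠ 0) (h2 : ∀ u ∈ U, φ' u = φ u) : ∃ g ∈ Y, ∀ w, φ' (g • w) = φ w := by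
  let U' : Submodule F (Du F V) :=
    { carrier := {θ | ∀ u ∈ U, θ.ap u = 0}
      add_mem' := fun {a b} ha hb u hu => by rw [Du.ap_add, ha u hu, hb u hu, add_zero]
      zero_mem' := fun _ _ => rfl
      smul_mem' := fun c a ha u hu => by rw [Du.ap_smul', ha u hu, mul_zero] }
  have : Module.Finite F V := Module.Finite.of_finite
  obtain ⟨g, hg, e⟩ := fourier (V := Du F V) Y U' (z := Du.mk φ) (u := Du.mk (φ' - φ)) (fun Φ Ψ a b => by
      obtain ⟨z, rfl⟩ := Du.ev_surj Φ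
      obtain ⟨u, rfl⟩ := Du.ev_surj Ψ
      obtain ⟨θ, hθ, a⟩ := a
      have hz : z ∉ U := fun hz => a (hθ z hz)
      have hu : u ∈ U := by
        by_contra hu
        obtain ⟨ψ, c1, c2⟩ := sep hu
        have := b (Du.mk ψ) c1
        rw [Du.ev_apply, Du.ap_mk, c2] at this
        exact one_ne_zero this
      obtain ⟨g, hg, e⟩ := h z hz u hu
      refine ⟨g, hg, fun θ => ?_⟩
      rw [LinearMap.add_apply, Du.ev_apply, Du.ev_apply, Du.ev_apply, ← map_add, Du.ap_smul, ← e, inv_smul_smul])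
    (fun a => by
      obtain ⟨u, hu, b⟩ := h1
      exact b (a u hu))
    (fun u hu => by rw [Du.ap_mk, LinearMap.sub_apply, h2 u hu, sub_self])
  refine ⟨g, hg, fun w => ?_⟩
  have := Du.smul_eq_iff.1 e w
  rwa [Du.ap_add, Du.ap_mk, Du.ap_mk, LinearMap.sub_apply, add_sub_cancel] at this

theorem af_of_lt (htr : ∀ a b : V, a ≠ 0 → b ≠ 0 → ∃ g : G, g • a = b)
    (hlt : ∀ a b : V, a ≠ 0 → b ∉ span F {a} → LT F G a b) : AF F G V := fun x x' φ φ' h1 h2 => by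
  have x0 : x ≠ 0 := fun e => by rw [e, map_zero] at h1; exact zero_ne_one h1
  have x0' : x' ≠ 0 := fun e => by rw [e, map_zero] at h2; exact zero_ne_one h2
  obtain ⟨k, hk⟩ := htr x x' x0 x0'
  obtain ⟨g, hg, e⟩ := fourier' (stabilizer G x) (span F {x}) (φ := φ) (φ' := φ'.comp (lin F k))
    (fun z hz u hu => by
      obtain ⟨β, rfl⟩ := mem_span_singleton.1 hu
      obtain ⟨g, a, b⟩ := hlt x z x0 hz β
      exact ⟨g, a, b⟩)
    ⟨x, self_l1 x, by rw [h1]; exact one_ne_zero⟩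
    (fun u hu => by
      obtain ⟨β, rfl⟩ := mem_span_singleton.1 hu
      rw [map_smul, map_smul, LinearMap.comp_apply, lin_apply, hk, h1, h2])
  exact ⟨k * g, by rw [mul_smul, show g • x = x from hg, hk], fun v => by rw [mul_smul]; exact e v⟩

end Cfsg.Agent.SNG
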