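import Cfsg.Agent.H5.Linear

/-! Project SNG (S5636): Cameron–Kantor over every finite field and overgroups of the Singer
torus.  Definitions and the basic interface. -/

set_option autoImplicit false
set_option linter.unusedSectionVars false

namespace Cfsg.Agent.SNG

open MulAction Module Submodule

section Lin

variable {F : Type*} [Field F] {V : Type*} [AddCommGroup V] [Module F V]

theorem self_l1 (a : V) : a ∈ span F {a} := mem_span_singleton_self a
theorem left_l2 (a b : V) : a ∈ span F {a, b} := subset_span (by simp)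
theorem right_l2 (a b : V) : b ∈ span F {a, b} := subset_span (by simp)
theorem l1_le {A : Submodule F V} {a : V} (h : a ∈ A) : span F {a} ≤ A :=
  (span_singleton_le_iff_mem a A).2 h
theorem l2_le {A : Submodule F V} {a b : V} (h : a ∈ A) (h' : b ∈ A) : span F {a, b} ≤ A :=
  span_le.2 (by rintro _ (rfl | rfl); exacts [h, h'])
theorem l1_le_l2 (a b : V) : span F {a} ≤ span F {a, b} := l1_le (left_l2 a b)
theorem l2_comm (a b : V) : span F {a, b} = span F {b, a} := by rw [Set.pair_comm]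
theorem l2_eq_sup (a b : V) : span F {a, b} = span F {a} ⊔ span F {b} := span_insert a {b}
theorem ne0_of_notMem {A : Submodule F V} {b : V} (h : b ∉ A) : b ≠ 0 := by
  rintro rfl; exact h A.zero_mem

theorem notMem_l1_symm {a b : V} (a0 : a ≠ 0) (h : b ∉ span F {a}) : a ∉ span F {b} := by
  intro h'
  obtain ⟨c, rfl⟩ := mem_span_singleton.1 h'
  have hc : c ≠ 0 := by rintro rfl; exact a0 (zero_smul _ _)
  exact h (mem_span_singleton.2 ⟨c⁻¹, by rw [smul_smul, inv_mul_cancel₀ hc, one_smul]⟩)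

theorem sep {U : Submodule F V} {v : V} (hv : v ∉ U) :
    ∃ φ : V →ₗ[F] F, (∀ u ∈ U, φ u = 0) ∧ φ v = 1 := by
  obtain ⟨g, hg, hg'⟩ := LinearMap.exists_extend_of_notMem (K := F) (p := U) (0 : _ →ₗ[F] F) hv 1
  exact ⟨g, fun u hu => LinearMap.congr_fun hg ⟨u, hu⟩, hg'⟩

theorem sep0 {v : V} (hv : v ≠ 0) : ∃ φ : V →ₗ[F] F, φ v = 1 := by
  obtain ⟨φ, -, h⟩ := sep (F := F) (U := ⊥) (v := v) (by simpa using hv)
  exact ⟨φ, h⟩

/-- prescribe two values at independent vectors -/
theorem sep2 {a b : V} (a0 : a ≠ 0) (hb : b ∉ span F {a}) (α β : F) :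
    ∃ φ : V →ₗ[F] F, φ a = α ∧ φ b = β := by
  obtain ⟨φ, h1, h2⟩ := sep hb
  obtain ⟨ψ, h3, h4⟩ := sep (notMem_l1_symm a0 hb)
  exact ⟨α • ψ + β • φ, by simp [h4, h1 a (self_l1 a)], by simp [h2, h3 b (self_l1 b)]⟩

theorem covBy_adj {A : Submodule F V} {v : V} (hv : v ∉ A) : A ⋖ A ⊔ span F {v} := by
  rw [sup_comm]; exact covBy_span_singleton_sup hv

theorem eq_adj {A B : Submodule F V} (h : A ⋖ B) {v : V} (hv : v ∈ B) (hv' : v ∉ A) :
    B = A ⊔ span F {v} :=
  ((h.eq_or_eq le_sup_left (sup_le h.le (l1_le hv))).resolve_left fun e =>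
    hv' (e ▸ mem_sup_right (self_l1 v))).symm

theorem eq_of_mem {A B C : Submodule F V} (h : A ⋖ B) (h' : A ⋖ C) {v : V} (hB : v ∈ B)
    (hC : v ∈ C) (hv : v ∉ A) : B = C := by rw [eq_adj h hB hv, eq_adj h' hC hv]

theorem mem_adj {A : Submodule F V} {v w : V} :
    w ∈ A ⊔ span F {v} ↔ ∃ c : F, w - c • v ∈ A := by
  constructor
  · intro h
    obtain ⟨a, ha, b, hb, rfl⟩ := mem_sup.1 h
    obtain ⟨c, rfl⟩ := mem_span_singleton.1 hb
    exact ⟨c, by simpa using ha⟩
  · rintro ⟨c, hc⟩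
    exact mem_sup.2 ⟨_, hc, _, mem_span_singleton.2 ⟨c, rfl⟩, sub_add_cancel _ _⟩

theorem exists_of_covBy {A B : Submodule F V} (h : A ⋖ B) : ∃ v ∈ B, v ∉ A :=
  SetLike.exists_of_lt h.lt

theorem rk_adj [FiniteDimensional F V] {A : Submodule F V} {v : V} (hv : v ∉ A) :
    finrank F (A ⊔ span F {v} : Submodule F V) = finrank F A + 1 := by
  have h := finrank_sup_add_finrank_inf_eq A (span F {v})
  rw [disjoint_iff.1 ((disjoint_span_singleton' (ne0_of_notMem hv)).2 hv), finrank_bot,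
    finrank_span_singleton (ne0_of_notMem hv)] at h
  exact h

theorem covBy_iff [FiniteDimensional F V] {A B : Submodule F V} :
    A ⋖ B ↔ A ≤ B ∧ finrank F B = finrank F A + 1 := by
  constructor
  · intro h
    obtain ⟨v, hv, hv'⟩ := exists_of_covBy h
    exact ⟨h.le, by rw [eq_adj h hv hv', rk_adj hv']⟩
  · rintro ⟨h1, h2⟩
    refine ⟨lt_of_le_of_ne h1 fun e => by rw [e] at h2; omega, fun C h3 h4 => ?_⟩
    have := finrank_lt_finrank_of_lt h3
    have := finrank_lt_finrank_of_lt h4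
    omega

theorem rk_l2 [FiniteDimensional F V] {a b : V} (a0 : a ≠ 0) (hb : b ∉ span F {a}) :
    finrank F (span F {a, b} : Submodule F V) = 2 := by
  rw [l2_eq_sup, rk_adj hb, finrank_span_singleton a0]

theorem exists_notMem [FiniteDimensional F V] {A B : Submodule F V}
    (h : finrank F A < finrank F B) : ∃ v ∈ B, v ∉ A := by
  by_contra h'
  push Not at h'
  exact absurd (finrank_mono (show B ≤ A from h')) (by omega)

/-- two proper subspaces do not cover -/
theorem exists_notMem2 {A B C : Submodule F V} (h1 : ¬ C ≤ A) (h2 : ¬ C ≤ B) :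
    ∃ v ∈ C, v ∉ A ∧ v ∉ B := by
  obtain ⟨a, ha, ha'⟩ := SetLike.not_le_iff_exists.1 h1
  obtain ⟨b, hb, hb'⟩ := SetLike.not_le_iff_exists.1 h2
  by_cases h3 : a ∈ B
  · by_cases h4 : b ∈ A
    · exact ⟨a + b, C.add_mem ha hb, fun h => ha' ((A.add_mem_iff_left h4).1 h),
        fun h => hb' ((B.add_mem_iff_right h3).1 h)⟩
    · exact ⟨b, hb, h4, hb'⟩
  · exact ⟨a, ha, ha', h3⟩

theorem card_eq_pow [Fintype F] [Finite V] (A : Submodule F V) :
    Nat.card A = Fintype.card F ^ finrank F A := by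
  rw [Module.natCard_eq_pow_finrank (K := F), Nat.card_eq_fintype_card]

theorem card_top_eq_pow [Fintype F] [Finite V] :
    Nat.card V = Fintype.card F ^ finrank F V := by
  rw [Module.natCard_eq_pow_finrank (K := F), Nat.card_eq_fintype_card]

instance finite_dual [Finite F] [Finite V] : Finite (V →ₗ[F] F) :=
  Finite.of_injective (fun f => (f : V → F)) DFunLike.coe_injective

/-- a linear partition into subspaces of equal dimension -/
structure Par (K : V → Submodule F V) : Prop where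
  zero : K 0 = ⊥
  self : ∀ a, a ∈ K a
  eq : ∀ a b, b ∈ K a → b ≠ 0 → K b = K a
  lin : ∀ a b, K (a + b) ≤ K a ⊔ K b
  rk : ∀ a b, a ≠ 0 → b ≠ 0 → finrank F (K a) = finrank F (K b)

/-- the component of a vector -/
def Cl (W : V → Submodule F V) (a : V) : Submodule F V := sInf {U | a ∈ U ∧ ∀ u ∈ U, W u ≤ U}

theorem cl_self (W : V → Submodule F V) (a : V) : a ∈ Cl W a := mem_sInf.2 fun _ h => h.1

theorem cl_closed {W : V → Submodule F V} {a u : V} (hu : u ∈ Cl W a) : W u ≤ Cl W a :=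
  le_sInf fun U hU => hU.2 u (mem_sInf.1 hu U hU)

theorem cl_le {W : V → Submodule F V} {a : V} {U : Submodule F V} (ha : a ∈ U)
    (h : ∀ u ∈ U, W u ≤ U) : Cl W a ≤ U := sInf_le ⟨ha, h⟩

/-- points at distance at most two -/
def W2 (W : V → Submodule F V) (a : V) : Submodule F V := sInf {U | ∀ b ∈ W a, W b ≤ U}

theorem le_W2 {W : V → Submodule F V} {a b : V} (hb : b ∈ W a) : W b ≤ W2 W a :=
  le_sInf fun _ hU => hU b hb

theorem W2_le {W : V → Submodule F V} {a : V} {U : Submodule F V} (h : ∀ b ∈ W a, W b ≤ U) :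
    W2 W a ≤ U := sInf_le h

end Lin

section Act

variable {F : Type*} [Field F] {G : Type*} [Group G] {V : Type*} [AddCommGroup V] [Module F V]
  [DistribMulAction G V] [SMulCommClass G F V]

variable (F) in
/-- the action of an element as a linear map -/
abbrev lin (g : G) : V →ₗ[F] V := DistribSMul.toLinearMap F V g

theorem lin_apply (g : G) (v : V) : lin F g v = g • v := rfl

theorem gs (g : G) (c : F) (v : V) : g • c • v = c • g • v := smul_comm g c v

theorem smul_ne {g : G} {v : V} (h : v ≠ 0) : g • v ≠ 0 := fun h' => h (by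
  rw [← inv_smul_smul g v, h', smul_zero])

theorem smul_inj {g : G} {v w : V} (h : g • v = g • w) : v = w := MulAction.injective g h

theorem smul_mem_l1 (g : G) {a v : V} : g • v ∈ span F {g • a} ↔ v ∈ span F {a} := by
  simp only [mem_span_singleton, ← gs, smul_left_cancel_iff]

theorem smul_mem_l2 (g : G) {a b v : V} : g • v ∈ span F {g • a, g • b} ↔ v ∈ span F {a, b} := by
  simp only [mem_span_pair, ← gs, ← smul_add, smul_left_cancel_iff]

theorem fix_l1 {g : G} {a : V} (h : g • a = a) : ∀ u ∈ span F {a}, g • u = u := fun u hu => by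
  obtain ⟨c, rfl⟩ := mem_span_singleton.1 hu
  rw [gs, h]

theorem fix_sup {g : G} {A B : Submodule F V} (h : ∀ u ∈ A, g • u = u) (h' : ∀ u ∈ B, g • u = u) :
    ∀ u ∈ A ⊔ B, g • u = u := fun u hu => by
  obtain ⟨a, ha, b, hb, rfl⟩ := mem_sup.1 hu
  rw [smul_add, h a ha, h' b hb]

theorem fix_l2 {g : G} {a b : V} (h : g • a = a) (h' : g • b = b) :
    ∀ u ∈ span F {a, b}, g • u = u := by
  rw [l2_eq_sup]; exact fix_sup (fix_l1 h) (fix_l1 h')

theorem rk_eq_of_smul (g : G) {A B : Submodule F V} (h : ∀ v, g • v ∈ B ↔ v ∈ A) :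
    finrank F A = finrank F B := by
  have : A.map (DistribMulAction.toLinearEquiv F V g : V →ₗ[F] V) = B := by
    ext v
    constructor
    · rintro ⟨w, hw, rfl⟩; exact (h w).2 hw
    · intro hv; exact ⟨g⁻¹ • v, (h _).1 (by rwa [smul_inv_smul]), smul_inv_smul g v⟩
  rw [← this, LinearEquiv.finrank_map_eq]

/-- the dual, with the contragredient action -/
def Du (F V : Type*) [Field F] [AddCommGroup V] [Module F V] := V →ₗ[F] F

instance du_acg : AddCommGroup (Du F V) := inferInstanceAs (AddCommGroup (V →ₗ[F] F))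
instance du_mod : Module F (Du F V) := inferInstanceAs (Module F (V →ₗ[F] F))
instance du_finite [Finite F] [Finite V] : Finite (Du F V) := inferInstanceAs (Finite (V →ₗ[F] F))

/-- a functional as an element of the dual -/
def Du.mk (φ : V →ₗ[F] F) : Du F V := φ
/-- an element of the dual as a functional -/
def Du.ap (φ : Du F V) : V →ₗ[F] F := φ

theorem Du.ext {φ ψ : Du F V} (h : ∀ v, φ.ap v = ψ.ap v) : φ = ψ := LinearMap.ext h
theorem Du.ap_add (φ ψ : Du F V) (v : V) : (φ + ψ).ap v = φ.ap v + ψ.ap v := rfl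
theorem Du.ap_smul' (c : F) (φ : Du F V) (v : V) : (c • φ).ap v = c * φ.ap v := rfl
theorem Du.ap_zero (v : V) : (0 : Du F V).ap v = 0 := rfl
theorem Du.ap_mk (φ : V →ₗ[F] F) : (Du.mk φ).ap = φ := rfl

instance du_act : DistribMulAction G (Du F V) where
  smul g φ := Du.mk (φ.ap.comp (lin F g⁻¹))
  one_smul φ := Du.ext fun v => by
    change φ.ap ((1 : G)⁻¹ • v) = _
    rw [inv_one, one_smul]
  mul_smul g h φ := Du.ext fun v => by
    change φ.ap ((g * h)⁻¹ • v) = φ.ap (h⁻¹ • g⁻¹ • v)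
    rw [mul_inv_rev, mul_smul]
  smul_zero _ := rfl
  smul_add _ _ _ := rfl

instance du_comm : SMulCommClass G F (Du F V) := ⟨fun _ _ _ => rfl⟩

theorem Du.ap_smul (g : G) (φ : Du F V) (v : V) : (g • φ).ap v = φ.ap (g⁻¹ • v) := rfl

theorem Du.smul_eq_iff {g : G} {φ φ' : Du F V} : g • φ = φ' ↔ ∀ v, φ'.ap (g • v) = φ.ap v := by
  constructor
  · rintro rfl v; rw [Du.ap_smul, inv_smul_smul]
  · intro h
    exact Du.ext fun v => by rw [Du.ap_smul, ← h, smul_inv_smul]

/-- evaluation -/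
def Du.ev (v : V) : Du F V →ₗ[F] F := Module.Dual.eval F V v

theorem Du.ev_apply (v : V) (φ : Du F V) : Du.ev v φ = φ.ap v := rfl

theorem Du.ev_surj [FiniteDimensional F V] (θ : Du F V →ₗ[F] F) : ∃ v : V, θ = Du.ev v := by
  obtain ⟨v, hv⟩ := (Module.evalEquiv F V).surjective θ
  exact ⟨v, hv.symm⟩

theorem Du.rk [FiniteDimensional F V] : finrank F (Du F V) = finrank F V :=
  Subspace.dual_finrank_eq

/-- action on an invariant subspace -/
abbrev subAct (A : Submodule F V) (h : ∀ g : G, ∀ v ∈ A, g • v ∈ A) : DistribMulAction G A where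
  smul g v := ⟨g • v.1, h g _ v.2⟩
  one_smul v := Subtype.ext (one_smul G v.1)
  mul_smul g g' v := Subtype.ext (mul_smul g g' v.1)
  smul_zero g := Subtype.ext (smul_zero g)
  smul_add g v w := Subtype.ext (smul_add g v.1 w.1)

theorem subAct_comm (A : Submodule F V) (h : ∀ g : G, ∀ v ∈ A, g • v ∈ A) :
    letI := subAct A h
    SMulCommClass G F A :=
  letI := subAct A h
  ⟨fun g c v => Subtype.ext (gs g c v.1)⟩

/-- action on the quotient by an invariant subspace -/
abbrev quotAct (A : Submodule F V) (h : ∀ g : G, ∀ v ∈ A, g • v ∈ A) :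
    DistribMulAction G (V ⧸ A) where
  smul g := A.mapQ A (lin F g) (h g)
  one_smul v := by
    induction v using Submodule.Quotient.induction_on with
    | H v => exact congrArg Submodule.Quotient.mk (one_smul G v)
  mul_smul g g' v := by
    induction v using Submodule.Quotient.induction_on with
    | H v => exact congrArg Submodule.Quotient.mk (mul_smul g g' v)
  smul_zero g := map_zero (A.mapQ A (lin F g) (h g))
  smul_add g := map_add (A.mapQ A (lin F g) (h g))

theorem quotAct_comm (A : Submodule F V) (h : ∀ g : G, ∀ v ∈ A, g • v ∈ A) :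
    letI := quotAct A h
    SMulCommClass G F (V ⧸ A) :=
  letI := quotAct A h
  ⟨fun g c v => map_smul (A.mapQ A (lin F g) (h g)) c v⟩

instance stabQuot (s : V) : DistribMulAction (stabilizer G s) (V ⧸ span F {s}) :=
  quotAct _ fun g v hv => by
    have := (smul_mem_l1 (F := F) (g : G)).2 hv
    rwa [show (g : G) • s = s from g.2] at this

instance stabQuot_comm (s : V) : SMulCommClass (stabilizer G s) F (V ⧸ span F {s}) :=
  quotAct_comm _ _

theorem smul_mk (s : V) (g : stabilizer G s) (v : V) :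
    g • (Submodule.Quotient.mk v : V ⧸ span F {s}) = Submodule.Quotient.mk ((g : G) • v) := rfl

theorem rk_quot [FiniteDimensional F V] {s : V} (hs : s ≠ 0) :
    finrank F (V ⧸ span F {s}) + 1 = finrank F V := by
  rw [← finrank_span_singleton (K := F) hs, finrank_quotient_add_finrank]

/-- the pointwise stabiliser in `T` of a subspace -/
def fx (T : Subgroup G) (A : Submodule F V) : Subgroup G where
  carrier := {t | t ∈ T ∧ ∀ v ∈ A, t • v = v}
  mul_mem' ha hb := ⟨T.mul_mem ha.1 hb.1, fun v hv => by rw [mul_smul, hb.2 v hv, ha.2 v hv]⟩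
  one_mem' := ⟨T.one_mem, fun v _ => one_smul _ v⟩
  inv_mem' ha := ⟨T.inv_mem ha.1, fun v hv => by rw [inv_smul_eq_iff, ha.2 v hv]⟩

theorem mem_fx {T : Subgroup G} {A : Submodule F V} {t : G} :
    t ∈ fx T A ↔ t ∈ T ∧ ∀ v ∈ A, t • v = v := Iff.rfl

theorem fx_le (T : Subgroup G) (A : Submodule F V) : fx T A ≤ T := fun _ h => h.1

theorem fx_anti (T : Subgroup G) {A B : Submodule F V} (h : A ≤ B) : fx T B ≤ fx T A :=
  fun _ ht => ⟨ht.1, fun v hv => ht.2 v (h hv)⟩

variable (F G V) in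
/-- antiflag transitivity -/
def AF : Prop := ∀ (x x' : V) (φ φ' : V →ₗ[F] F), φ x = 1 → φ' x' = 1 →
  ∃ g : G, g • x = x' ∧ ∀ v, φ' (g • v) = φ v

variable (F G V) in
/-- transitivity on ordered pairs of independent vectors -/
def TT : Prop := ∀ a b a' b' : V, a ≠ 0 → b ∉ span F {a} → a' ≠ 0 → b' ∉ span F {a'} →
  ∃ g : G, g • a = a' ∧ g • b = b'

variable (F G V) in
/-- some element acts as a transvection -/
def Tv : Prop := ∃ (g : G) (c : V) (ψ : V →ₗ[F] F), c ≠ 0 ∧ ψ ≠ 0 ∧ ψ c = 0 ∧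
  ∀ v, g • v = v + ψ v • c

variable (F G) in
/-- all translations with centre `a` on the plane `⟨a, b⟩` are induced -/
def LT (a b : V) : Prop := ∀ β : F, ∃ g : G, g • a = a ∧ g • b = b + β • a

variable (F) in
/-- the local data of an antiflag-transitive group -/
structure Loc (p : ℕ) (T : Subgroup G) (x y : V) : Prop where
  pg : IsPGroup p T
  x0 : x ≠ 0
  yx : y ∉ span F {x}
  fixx : ∀ t ∈ T, t • x = x
  fixy : ∀ t ∈ T, ∃ β : F, t • y = y + β • x
  trA : ∀ φ φ' : V →ₗ[F] F, φ x = 1 → φ' x = 1 → ∃ t ∈ T, ∀ v, φ' (t • v) = φ v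
  conj : ∀ P : Subgroup G, IsPGroup p P → ∀ v : V, v ≠ 0 → (∀ g ∈ P, g • v = v) →
    ∃ k : G, k • v = x ∧ ∀ g ∈ P, k * g * k⁻¹ ∈ T
  trans : ∀ a : V, a ≠ 0 → ∃ g : G, g • x = a
  p1 : ∀ z, z ∉ span F {x, y} → ∀ u ∈ span F {x, y}, ∃ t ∈ T, t • y = y ∧ t • z = z + u
  tv : ∀ β : F, ∃ t ∈ T, t • y = y + β • x
  sw : ∀ β : F, ∃ g : G, g • y = y ∧ g • x = x + β • y

/-- the geometry, without linearity -/
structure Geo0 (p : ℕ) (T : Subgroup G) (x y : V) (W : V → Submodule F V) : Prop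
    extends Loc F p T x y where
  zero : W 0 = ⊥
  self : ∀ a, a ∈ W a
  ymem : y ∈ W x
  smul : ∀ (c : F) a, c ≠ 0 → W (c • a) = W a
  symm : ∀ a b, b ≠ 0 → b ∈ W a → a ∈ W b
  eqv : ∀ (g : G) a b, b ∈ W a → g • b ∈ W (g • a)
  tr : ∀ a b, b ∈ W a → b ∉ span F {a} → ∃ (g : G) (c : F), c ≠ 0 ∧ g • x = a ∧ g • y = c • b

/-- the geometry -/
structure Geo (p : ℕ) (T : Subgroup G) (x y : V) (W : V → Submodule F V) : Prop
    extends Geo0 p T x y W where
  lin : ∀ a b, W (a + b) ≤ W a ⊔ W b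

/-- the hexagon case -/
structure Hex (p : ℕ) (T : Subgroup G) (x y : V) (W : V → Submodule F V) : Prop
    extends Geo p T x y W where
  h1 : ¬ W y ≤ W x
  rk3 : ∀ a, a ≠ 0 → finrank F (W a) = 3
  inj : ∀ a b b', b ∈ W a → b ∉ span F {a} → b' ∈ W a → W b' ≤ W a ⊔ W b → b' ∈ span F {a, b}

/-- the blocks of a doubly transitive group -/
structure Blk (s : V) (W : V ⧸ span F {s} → Submodule F (V ⧸ span F {s}))
    (S : V → V → Submodule F V) : Prop where
  proj : ∀ a, a ≠ 0 → ∃ π : V →ₗ[F] V ⧸ span F {s}, Function.Surjective π ∧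
    (∀ v, π v = 0 ↔ v ∈ span F {a}) ∧ ∀ b, S a b = (W (π b)).comap π
  comm : ∀ a b, a ≠ 0 → b ≠ 0 → S a b = S b a

end Act

section Chars

open scoped ComplexConjugate

/-- restrictions to `T` of the irreducible characters over one central character -/
structure Exc {T : Type*} [Group T] [Fintype T] (W : Subgroup (MulAut T)) {ι : Type*}
    (S : Finset ι) (f : ι → T → ℂ) : Prop where
  comm : ∀ a b : T, a * b = b * a
  free : ∀ w ∈ W, ∀ t : T, t ≠ 1 → w t = t → w = 1
  chr : ∀ i ∈ S, IsCharacter T (f i)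
  pos : ∀ i ∈ S, f i 1 ≠ 0
  inv : ∀ i ∈ S, ∀ w ∈ W, ∀ t, f i (w t) = f i t
  col1 : ∀ t, t ≠ 1 → ∀ w ∈ W, ∑ i ∈ S, f i t * conj (f i (w t)) = Nat.card T
  col0 : ∀ t, t ≠ 1 → ∀ t', (∀ w ∈ W, w t ≠ t') → ∑ i ∈ S, f i t * conj (f i t') = 0

/-- the multiplicity of a linear character -/
noncomputable def mlt {T : Type*} [Group T] [Fintype T] (φ : T → ℂ) (l : T →* ℂˣ) : ℂ :=
  classInner φ fun t => (l t : ℂ)

/-- a self-centralising abelian subgroup `T Z` over a central subgroup `Z` -/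
structure CC {G : Type*} [Group G] (T Z : Subgroup G) (e : ℕ) : Prop where
  zc : Z ≤ Subgroup.center G
  comm : ∀ a ∈ T, ∀ b ∈ T, a * b = b * a
  cop : (Nat.card T).Coprime (Nat.card Z)
  cent : ∀ c ∈ T ⊔ Z, c ∉ Z → ∀ g : G, g * c = c * g → g ∈ T ⊔ Z
  idx : (T ⊔ Z).relIndex (Subgroup.normalizer (T : Set G)) = e

end Chars

section Singer

variable (F L : Type*) [Field F] [Field L] [Algebra F L]

/-- multiplication by a unit -/
def mu : Lˣ →* (L ≃ₗ[F] L) := DistribMulAction.toModuleAut F L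

theorem mu_apply (u : Lˣ) (x : L) : mu F L u x = u * x := rfl

/-- the units of norm one -/
noncomputable def C0 : Subgroup Lˣ := (Units.map (Algebra.norm F : L →* F)).ker

/-- the scalars -/
def S0 : Subgroup Lˣ := (Units.map (algebraMap F L : F →* L)).range

/-- the scalars of norm one -/
noncomputable def Z0 : Subgroup Lˣ := C0 F L ⊓ S0 F L

/-- the Singer torus -/
noncomputable def T0 : Subgroup Lˣ :=
  C0 F L ⊓ (powMonoidHom (Nat.card (C0 F L) / Nat.card (Z0 F L))).ker

variable {F L}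

/-- a subgroup of units inside a linear group -/
def sg (G : Subgroup (L ≃ₗ[F] L)) (U : Subgroup Lˣ) : Subgroup G := U.map (mu F L) |>.subgroupOf G

/-- a subgroup of `SL(L)` containing the units of norm one -/
structure Ov (G : Subgroup (L ≃ₗ[F] L)) : Prop where
  det : ∀ g ∈ G, LinearMap.det (g : L →ₗ[F] L) = 1
  mem : ∀ u ∈ C0 F L, mu F L u ∈ G

/-- a minimal overgroup -/
structure MinOv (G : Subgroup (L ≃ₗ[F] L)) : Prop extends Ov G where
  nn : ¬ (sg G (T0 F L)).Normal
  gen : ∀ N : Subgroup G, N.Normal → sg G (T0 F L) ≤ N → sg G (Z0 F L) ≤ N → N = ⊤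

/-- the normal closure of the torus is transitive on the orbit of `a` -/
def Good (G : Subgroup (L ≃ₗ[F] L)) (a : L) : Prop :=
  a ≠ 0 ∧ ∀ z ∈ Z0 F L, ∃ g ∈ Subgroup.normalClosure (sg G (T0 F L) : Set G), g • a = z * a

/-- the numbers `q, n, d = |Z|, v = |T|` -/
structure Num (q n d v : ℕ) : Prop where
  q2 : 2 ≤ q
  pr : n.Prime
  n11 : 11 ≤ n
  eq : d * v * (q - 1) + 1 = q ^ n
  d1 : d = 1 ∨ d = n
  dq : d ∣ q - 1
  cq : v.Coprime (q - 1)
  cn : v.Coprime n

end Singer

end Cfsg.Agent.SNG
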