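import Cfsg.Agent.SNG.ParB
import Mathlib.RingTheory.LittleWedderburn

/-! Project SNG (S5636): three independent components give a field (notes/SNG.md, Fld). -/

set_option autoImplicit false
set_option linter.unusedSectionVars false

namespace Cfsg.Agent.SNG

open MulAction Module Submodule

variable {F : Type*} [Field F] [Fintype F] {p : ℕ} [Fact p.Prime] [CharP F p]
  {G : Type*} [Group G] {V : Type*} [AddCommGroup V] [Module F V] [DistribMulAction G V]
  [SMulCommClass G F V] [Finite V]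

section
variable {K : V → Submodule F V}

/-- two components never span -/
theorem Par.fld_ex (h : Par K) {u v w : V} (hu : u ≠ 0) (hv : v ∉ K u) (hw : w ∉ K u ⊔ K v)
    (x y : V) : ∃ z, z ∉ K x ⊔ K y := by
  haveI : Module.Finite F V := Module.Finite.of_finite
  have le : ∀ a, finrank F (K a) ≤ finrank F (K u) := fun a => by
    by_cases a0 : a = 0
    · rw [a0, h.zero, finrank_bot]; exact Nat.zero_le _
    · exact (h.rk a u a0 hu).le
  have h1 := finrank_add_le_finrank_add_finrank (K x) (K y)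
  have h2 := h.rk_sup hu hv
  have h3 : finrank F (K u ⊔ K v : Submodule F V) < finrank F (⊤ : Submodule F V) :=
    finrank_lt_finrank_of_lt (lt_top_iff_ne_top.2 fun e => hw (e ▸ mem_top))
  obtain ⟨z, -, hz⟩ := exists_notMem (A := K x ⊔ K y) (B := ⊤) (by
    have := le x; have := le y; omega)
  exact ⟨z, hz⟩

theorem Par.fld_zero (h : Par K) {u v v' d : V} (hv' : v' ∉ K u ⊔ K v) (h1 : d ∈ K u ⊔ K v)
    (h2 : d ∈ K v') : d = 0 := by
  by_contra d0
  exact hv' (h.closed h1 (h.eq v' d h2 d0 ▸ h.self v'))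

theorem Par.fld_le (h : Par K) {u v v' : V} (h1 : v' ∈ K u ⊔ K v) : K u ⊔ K v' ≤ K u ⊔ K v :=
  sup_le le_sup_left (h.closed h1)

theorem Par.fld_swap (h : Par K) {u v v' : V} (hu : u ≠ 0) (hv : v ∉ K u) (hv' : v' ∉ K u ⊔ K v) :
    v ∉ K u ⊔ K v' := fun k => by
  haveI : Module.Finite F V := Module.Finite.of_finite
  have e : K u ⊔ K v = K u ⊔ K v' := eq_of_le_of_finrank_eq (h.fld_le k)
    (by rw [h.rk_sup hu hv, h.rk_sup hu fun q => hv' (mem_sup_left q)])
  exact hv' (e ▸ mem_sup_right (h.self v'))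

/-- the additive map prescribed at one vector -/
theorem Par.fld_add (h : Par K) (ex : ∀ x y, ∃ z, z ∉ K x ⊔ K y) {u a : V} (hu : u ≠ 0)
    (ha : a ∈ K u) : ∃ ρ : V →+ V, (∀ x, ρ x ∈ K x) ∧ ρ u = a := by
  classical
  have hf : ∀ v, ∃ b, v ∉ K u → b ∈ K v ∧ a + b ∈ K (u + v) := fun v => by
    by_cases hv : v ∈ K u
    · exact ⟨0, fun k => absurd hv k⟩
    · obtain ⟨τ, -, t, -⟩ := h.graph hu hv
      exact ⟨τ a, fun _ => t a ha⟩
  choose f hf using hf
  have uq : ∀ v, v ∉ K u → ∀ b ∈ K v, a + b ∈ K (u + v) → b = f v := fun v hv b hb k =>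
    sub_eq_zero.1 (h.disj_right hu hv (sub_mem hb (hf v hv).1) (by
      have := sub_mem k (hf v hv).2
      rwa [add_sub_add_left_eq_sub] at this))
  have nA : ∀ {v w}, w ∉ K u ⊔ K v → w ∉ K u := fun k q => k (mem_sup_left q)
  have nS : ∀ {v w x}, x ∈ K u ⊔ K v → w ∉ K u ⊔ K v → x + w ∉ K u ⊔ K v := fun hx k q =>
    k ((Submodule.add_mem_iff_right _ hx).1 q)
  have sv : ∀ v, v ∈ K u ⊔ K v := fun v => mem_sup_right (h.self v)
  have half : ∀ v v', v ∉ K u → v' ∉ K u ⊔ K v → ∀ b ∈ K v, ∀ b' ∈ K v',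
      f (v + v') = b + b' → b = f v := fun v v' hv hv' b hb b' hb' e => by
    have k := (hf (v + v') (nA (nS (sv v) hv'))).2
    rw [← add_assoc] at k
    obtain ⟨c, hc, c', hc', e'⟩ := mem_sup.1 (h.lin _ _ k)
    have m : c ∈ K u ⊔ K v := h.lin u v hc
    have z : a + b - c = c' - b' := by
      rw [sub_eq_sub_iff_add_eq_add, add_assoc, ← e, ← e', add_comm]
    have z0 : a + b - c = 0 := h.fld_zero hv'
      (sub_mem (add_mem (mem_sup_left ha) (mem_sup_right hb)) m) (z ▸ sub_mem hc' hb')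
    exact uq v hv b hb (sub_eq_zero.1 z0 ▸ hc)
  have ad : ∀ v v', v ∉ K u → v' ∉ K u ⊔ K v → f (v + v') = f v + f v' := fun v v' hv hv' => by
    obtain ⟨b, hb, b', hb', e⟩ := mem_sup.1 (h.lin _ _ (hf (v + v') (nA (nS (sv v) hv'))).1)
    rw [← half v v' hv hv' b hb b' hb' e.symm,
      ← half v' v (nA hv') (h.fld_swap hu hv hv') b' hb' b hb (by rw [add_comm v', ← e, add_comm]), e]
  have nA' : ∀ {x w}, x ∈ K u → w ∉ K u → x + w ∉ K u := fun hx k q =>
    k ((Submodule.add_mem_iff_right _ hx).1 q)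
  have r1 : ∀ x ∈ K u, ∀ w w', w ∉ K u → w' ∉ K u ⊔ K w →
      f (x + w) - f w = f (x + w') - f w' := fun x hx w w' hw hw' => by
    have e1 := ad (x + w) w' (nA' hx hw) fun q =>
      hw' (h.fld_le (add_mem (mem_sup_left hx) (sv w)) q)
    have e2 := ad w (x + w') hw (nS (mem_sup_left hx) hw')
    rw [show w + (x + w') = x + w + w' by abel, e1] at e2
    rw [sub_eq_sub_iff_add_eq_add, e2, add_comm]
  have r2 : ∀ x ∈ K u, ∀ w w', w ∉ K u → w' ∉ K u →
      f (x + w) - f w = f (x + w') - f w' := fun x hx w w' hw hw' => by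
    by_cases k : w' ∈ K u ⊔ K w
    · obtain ⟨z, hz⟩ := ex u w
      rw [r1 x hx w z hw hz, r1 x hx w' z hw' fun q => hz (h.fld_le k q)]
    · exact r1 x hx w w' hw k
  obtain ⟨w0, hw0⟩ := ex u u
  replace hw0 := nA hw0
  let g : V → V := fun x => if x ∈ K u then f (x + w0) - f w0 else f x
  have g1 : ∀ x, x ∉ K u → g x = f x := fun x hx => if_neg hx
  have g2 : ∀ x ∈ K u, ∀ w, w ∉ K u → g x = f (x + w) - f w := fun x hx w hw =>
    (if_pos hx).trans (r2 x hx w0 w hw0 hw)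
  have gS : ∀ x w, w ∉ K u ⊔ K x → f (x + w) = g x + f w := fun x w hw => by
    by_cases hx : x ∈ K u
    · rw [g2 x hx w (nA hw), sub_add_cancel]
    · rw [g1 x hx, ad x w hx hw]
  have gA : ∀ x y, g (x + y) = g x + g y := fun x y => by
    by_cases k : y ∈ K u ⊔ K x
    · obtain ⟨w, hw⟩ := ex u x
      have e1 := gS (x + y) w fun q => hw (h.fld_le (add_mem (sv x) k) q)
      rw [add_assoc, gS x (y + w) (nS k hw), gS y w (fun q => hw (h.fld_le k q)), ← add_assoc] at e1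
      exact (add_right_cancel e1).symm
    · rw [g1 y (nA k), g1 _ (nA (nS (sv x) k)), gS x y k]
  have gK : ∀ x ∈ K u, g x ∈ K u := fun x hx => by
    obtain ⟨w, hw⟩ := ex u w0
    have m : ∀ w, w ∉ K u → g x ∈ K u ⊔ K w := fun w hw => by
      rw [g2 x hx w hw]
      exact sub_mem (h.closed (add_mem (mem_sup_left hx) (sv w)) (hf _ (nA' hx hw)).1)
        (mem_sup_right (hf w hw).1)
    obtain ⟨c, hc, d, hd, e⟩ := mem_sup.1 (m w (nA hw))
    have d0 : d = 0 := h.fld_zero hw (by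
      rw [show d = g x - c by rw [← e, add_sub_cancel_left]]
      exact sub_mem (m w0 hw0) (mem_sup_left hc)) hd
    rw [← e, d0, add_zero]; exact hc
  refine ⟨AddMonoidHom.mk' g gA, fun x => ?_, ?_⟩
  · by_cases x0 : x = 0
    · rw [x0, map_zero]; exact zero_mem _
    · by_cases hx : x ∈ K u
      · rw [h.eq u x hx x0]; exact gK x hx
      · change g x ∈ _
        rw [g1 x hx]; exact (hf x hx).1
  · refine sub_eq_zero.1 (h.disj_left hw0 (sub_mem (gK u (h.self u)) ha) ?_)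
    change g u - a ∈ _
    rw [g2 u (h.self u) w0 hw0, sub_sub, add_comm (f w0)]
    exact sub_mem (hf _ (nA' (h.self u) hw0)).1 (hf w0 hw0).2

theorem Par.fld_inj (h : Par K) (ex : ∀ x y, ∃ z, z ∉ K x ⊔ K y) {ρ : V →+ V}
    (hρ : ∀ x, ρ x ∈ K x) {x : V} (x0 : x ≠ 0) (e : ρ x = 0) (y : V) : ρ y = 0 := by
  have o : ∀ w, w ∉ K x → ρ w = 0 := fun w hw =>
    h.disj_right x0 hw (hρ w) (by have := hρ (x + w); rwa [map_add, e, zero_add] at this)
  by_cases hy : y ∈ K x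
  · obtain ⟨w, hw⟩ := ex x x
    rw [sup_idem] at hw
    have := o (y + w) fun q => hw ((Submodule.add_mem_iff_right _ hy).1 q)
    rwa [map_add, o w hw, add_zero] at this
  · exact o y hy

/-- Wedderburn -/
theorem Par.fld_comm (h : Par K) (ex : ∀ x y, ∃ z, z ∉ K x ⊔ K y) {ρ σ : V →+ V}
    (hρ : ∀ x, ρ x ∈ K x) (hσ : ∀ x, σ x ∈ K x) (y : V) : ρ (σ y) = σ (ρ y) := by
  let E0 : Subring (AddMonoid.End V) :=
    { carrier := {ρ | ∀ x, ρ x ∈ K x}
      mul_mem' := fun {a b} ha hb x => h.le_of_mem (hb x) (ha (b x))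
      one_mem' := h.self
      add_mem' := fun {a b} ha hb x => add_mem (ha x) (hb x)
      zero_mem' := fun x => zero_mem _
      neg_mem' := fun {a} ha x => neg_mem (ha x) }
  haveI : Finite (AddMonoid.End V) :=
    Finite.of_injective (fun f : V →+ V => (f : V → V)) DFunLike.coe_injective
  obtain ⟨z, hz⟩ := ex 0 0
  haveI : Nontrivial E0 := ⟨⟨1, 0, fun e => hz (by
    have : z = 0 := DFunLike.congr_fun (congrArg Subtype.val e) z
    rw [this]; exact zero_mem _)⟩⟩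
  haveI : NoZeroDivisors E0 := ⟨fun {a b} e => by
    by_contra k
    rw [not_or] at k
    obtain ⟨x, hx⟩ : ∃ x, b.1 x ≠ 0 := by
      by_contra q
      exact k.2 (Subtype.ext (AddMonoidHom.ext fun x => not_not.1 fun t => q ⟨x, t⟩))
    exact k.1 (Subtype.ext (AddMonoidHom.ext
      (h.fld_inj ex a.2 hx (DFunLike.congr_fun (congrArg Subtype.val e) x))))⟩
  haveI : IsDomain E0 := NoZeroDivisors.to_isDomain E0
  exact DFunLike.congr_fun
    (congrArg Subtype.val ((Finite.isDomain_to_isField E0).mul_comm ⟨ρ, hρ⟩ ⟨σ, hσ⟩)) y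

end

theorem Par.field {K : V → Submodule F V} (h : Par K) {u v w : V} (hu : u ≠ 0) (hv : v ∉ K u)
    (hw : w ∉ K u ⊔ K v) : ∃ E : Subalgebra F (Module.End F V), (∀ ρ, ρ ∈ E ↔ ∀ a, ρ a ∈ K a) ∧
      (∀ ρ ∈ E, ∀ σ ∈ E, ρ * σ = σ * ρ) ∧ (∀ ρ ∈ E, ∀ a, a ≠ 0 → ρ a = 0 → ρ = 0) ∧
      ∀ a b, b ∈ K a → ∃ ρ ∈ E, ρ a = b := by
  have ex := h.fld_ex hu hv hw
  let E : Subalgebra F (Module.End F V) :=
    { carrier := {ρ | ∀ x, ρ x ∈ K x}
      mul_mem' := fun {a b} ha hb x => h.le_of_mem (hb x) (ha (b x))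
      add_mem' := fun {a b} ha hb x => add_mem (ha x) (hb x)
      algebraMap_mem' := fun c x => smul_mem _ c (h.self x) }
  refine ⟨E, fun _ => Iff.rfl, fun ρ hρ σ hσ => LinearMap.ext fun y =>
    h.fld_comm ex (ρ := ρ.toAddMonoidHom) (σ := σ.toAddMonoidHom) hρ hσ y,
    fun ρ hρ a a0 e => LinearMap.ext (h.fld_inj ex (ρ := ρ.toAddMonoidHom) hρ a0 e), fun a b hb => ?_⟩
  by_cases a0 : a = 0
  · rw [a0, h.zero, mem_bot] at hb
    exact ⟨0, zero_mem _, hb.symm⟩
  · obtain ⟨ρ, hρ, e⟩ := h.fld_add ex a0 hb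
    refine ⟨{ toFun := ρ, map_add' := ρ.map_add, map_smul' := fun c y => ?_ }, hρ, e⟩
    exact h.fld_comm ex (σ := DistribSMul.toAddMonoidHom V c) hρ (fun x => smul_mem _ c (h.self x)) y

end Cfsg.Agent.SNG
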