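import Cfsg.Agent.SNG.Geo0

/-! Project SNG: elementary properties of the geometry. -/

set_option autoImplicit false
set_option linter.unusedSectionVars false

namespace Cfsg.Agent.SNG

open MulAction Module Submodule

variable {F : Type*} [Field F] [Fintype F] {p : ℕ} [Fact p.Prime] [CharP F p]
  {G : Type*} [Group G] {V : Type*} [AddCommGroup V] [Module F V] [DistribMulAction G V]
  [SMulCommClass G F V] [Finite V]

variable {T : Subgroup G} {x y : V} {W : V → Submodule F V}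

theorem Geo.geoB_smul_le (h : Geo p T x y W) (c : F) (a : V) : W (c • a) ≤ W a := by
  by_cases hc : c = 0
  · rw [hc, zero_smul, h.zero]; exact bot_le
  · exact (h.smul c a hc).le

theorem Geo.sup_eqv (h : Geo p T x y W) (g : G) {a b v : V} :
    g • v ∈ W (g • a) ⊔ W (g • b) ↔ v ∈ W a ⊔ W b := by
  have key : ∀ (g : G) (a b v : V), v ∈ W a ⊔ W b → g • v ∈ W (g • a) ⊔ W (g • b) := by
    intro g a b v hv
    obtain ⟨c, hc, d, hd, rfl⟩ := mem_sup.1 hv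
    rw [smul_add]
    exact add_mem_sup (h.eqv g _ _ hc) (h.eqv g _ _ hd)
  exact ⟨fun h' => by simpa using key g⁻¹ _ _ _ h', key g a b v⟩

theorem Geo.rk_inf_eq (h : Geo p T x y W) (g : G) (a b : V) :
    finrank F (W a ⊓ W b : Submodule F V) = finrank F (W (g • a) ⊓ W (g • b) : Submodule F V) :=
  rk_eq_of_smul g fun v => by simp only [mem_inf, h.toGeo0.eqv_iff]

theorem Geo.le_sup (h : Geo p T x y W) {a b u : V} (hu : u ∈ span F {a, b}) : W u ≤ W a ⊔ W b := by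
  obtain ⟨α, β, rfl⟩ := mem_span_pair.1 hu
  exact (h.lin _ _).trans (sup_le_sup (h.geoB_smul_le _ _) (h.geoB_smul_le _ _))

theorem Geo.sup_eq (h : Geo p T x y W) {a b u : V} (hu : u ∈ span F {a, b}) (hu' : u ∉ span F {a}) :
    W a ⊔ W u = W a ⊔ W b := by
  refine le_antisymm (sup_le le_sup_left (h.le_sup hu)) (sup_le le_sup_left (h.le_sup ?_))
  obtain ⟨α, β, rfl⟩ := mem_span_pair.1 hu
  have hβ : β ≠ 0 := by
    rintro rfl
    exact hu' (by rw [zero_smul, add_zero]; exact smul_mem _ _ (self_l1 a))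
  refine mem_span_pair.2 ⟨-(β⁻¹ * α), β⁻¹, ?_⟩
  rw [smul_add, smul_smul, smul_smul, inv_mul_cancel₀ hβ, one_smul, neg_smul, neg_add_cancel_left]

theorem Geo.cl_eqv (h : Geo p T x y W) (g : G) (a v : V) : g • v ∈ Cl W (g • a) ↔ v ∈ Cl W a := by
  have key : ∀ (g : G) a v, v ∈ Cl W a → g • v ∈ Cl W (g • a) := fun g a v hv =>
    cl_le (U := (Cl W (g • a)).comap (SNG.lin F g)) (cl_self W (g • a))
      (fun u hu w hw => cl_closed (W := W) hu (h.eqv g _ _ hw)) hv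
  exact ⟨fun h' => by simpa using key g⁻¹ _ _ h', key g a v⟩

theorem Geo.par_cl (h : Geo p T x y W) : Par (Cl W) := by
  have hc : ∀ a b, a ≠ 0 → b ≠ 0 → finrank F (Cl W a) = finrank F (Cl W b) := fun a b ha hb => by
    obtain ⟨g, rfl⟩ := h.toGeo0.trans2 ha hb
    exact rk_eq_of_smul g (h.cl_eqv g a)
  have h0 : Cl W 0 = ⊥ := eq_bot_iff.2 (cl_le (zero_mem _) fun u hu => by
    rw [(mem_bot F).1 hu, h.zero])
  refine ⟨h0, cl_self W, fun a b hb b0 => eq_of_le_of_finrank_eq (cl_le hb fun u => cl_closed)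
    (hc b a b0 (by rintro rfl; exact b0 (by simpa [h0] using hb))), fun a b => ?_, hc⟩
  refine cl_le (add_mem_sup (cl_self W a) (cl_self W b)) fun u hu => ?_
  obtain ⟨c, hc, d, hd, rfl⟩ := mem_sup.1 hu
  exact (h.lin c d).trans (sup_le_sup (cl_closed hc) (cl_closed hd))

theorem Geo.par_of_le (h : Geo p T x y W) (h1 : W y ≤ W x) : Par W := by
  refine ⟨h.zero, h.self, fun a b hb b0 => ?_, h.lin, fun a b => h.toGeo0.rk_eq⟩
  by_cases hab : b ∈ span F {a}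
  · obtain ⟨c, rfl⟩ := mem_span_singleton.1 hab
    exact h.smul c a (by rintro rfl; exact b0 (zero_smul _ _))
  obtain ⟨g, c, hc, rfl, hg⟩ := h.tr a b hb hab
  refine eq_of_le_of_finrank_eq (fun v hv => ?_) (h.toGeo0.rk_eq b0 (smul_ne h.x0))
  rw [← h.smul c b hc, ← hg] at hv
  rw [← smul_inv_smul g v, h.toGeo0.eqv_iff] at hv ⊢
  exact h1 hv

theorem Geo.exists_mid (h : Geo p T x y W) {a b z : V} (b0 : b ≠ 0) (hb : b ∈ W a)
    (hz : z ∈ W a ⊔ W b) (hz' : z ∉ W a) : ∃ c ∈ W a, c ≠ 0 ∧ c ∈ W z := by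
  obtain ⟨c, hc, d, hd, rfl⟩ := mem_sup.1 hz
  have hd' : d ∉ W a := fun h' => hz' (add_mem hc h')
  obtain ⟨g, hg, hg'⟩ := h.toGeo0.cos hd' hc
  refine ⟨g • b, hg ▸ h.eqv g _ _ hb, smul_ne b0, ?_⟩
  rw [add_comm, ← hg']
  exact h.eqv g _ _ (h.symm _ _ (ne0_of_notMem hd') hd)

theorem Geo.col_of_mem (h : Geo p T x y W) {a b z : V} (hz : z ∈ W a ⊔ W b) (hz' : z ∉ W a) :
    b ∉ span F {a} := fun hb => by
  obtain ⟨c, rfl⟩ := mem_span_singleton.1 hb
  exact hz' (sup_le le_rfl (h.geoB_smul_le c a) hz)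

theorem Geo.W2_eqv (h : Geo p T x y W) (g : G) (a v : V) : g • v ∈ W2 W (g • a) ↔ v ∈ W2 W a := by
  have key : ∀ (g : G) a v, v ∈ W2 W a → g • v ∈ W2 W (g • a) := fun g a v hv =>
    W2_le (U := (W2 W (g • a)).comap (SNG.lin F g))
      (fun u hu w hw => le_W2 (W := W) (h.eqv g _ _ hu) (h.eqv g _ _ hw)) hv
  exact ⟨fun h' => by simpa using key g⁻¹ _ _ h', key g a v⟩

theorem Geo.W2_self (h : Geo p T x y W) (a : V) : W a ≤ W2 W a := le_W2 (h.self a)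

theorem Geo.sup_le_W2 (h : Geo p T x y W) {a b : V} (hb : b ∈ W a) : W a ⊔ W b ≤ W2 W a :=
  sup_le (le_W2 (h.self a)) (le_W2 hb)

theorem Geo.W2_smul (h : Geo p T x y W) {c : F} (hc : c ≠ 0) (a : V) :
    W2 W (c • a) = W2 W a := by
  unfold W2
  rw [h.smul c a hc]

theorem Geo.W2_zero (h : Geo p T x y W) : W2 W 0 = ⊥ :=
  eq_bot_iff.2 (W2_le fun b hb => by
    rw [h.zero] at hb
    rw [(mem_bot F).1 hb, h.zero])

theorem Geo.W2_lin (h : Geo p T x y W) (a b : V) : W2 W (a + b) ≤ W2 W a ⊔ W2 W b :=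
  W2_le fun c hc => by
    obtain ⟨u, hu, v, hv, rfl⟩ := mem_sup.1 (h.lin a b hc)
    exact (h.lin u v).trans (sup_le_sup (le_W2 hu) (le_W2 hv))

theorem Geo.W2_le_cl (h : Geo p T x y W) {a b : V} (hb : b ∈ Cl W a) : W2 W b ≤ Cl W a :=
  W2_le fun _ hc => cl_closed (cl_closed hb hc)

theorem Geo.conj_cl (h : Geo p T x y W) : ∀ t ∈ T, ∀ v ∈ Cl W x, v ≠ 0 → t • v = v →
    ∃ k : G, k • v = x ∧ (∀ d, d ∈ Cl W x ↔ k • d ∈ Cl W x) ∧ k * t * k⁻¹ ∈ T := by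
  intro t ht v hv v0 hv'
  obtain ⟨k, hk, hk'⟩ := h.conj (Subgroup.zpowers t)
    (h.pg.to_le ((Subgroup.zpowers_le).2 ht)) v v0
    ((Subgroup.zpowers_le (H := stabilizer G v)).2 hv')
  exact ⟨k, hk, fun d => by
    rw [← h.par_cl.eq x v hv v0, ← h.cl_eqv k, hk, h.par_cl.eq x v hv v0],
    hk' t (Subgroup.mem_zpowers t)⟩

end Cfsg.Agent.SNG
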