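import Cfsg.Agent.SNG.Step

set_option autoImplicit false
set_option linter.unusedSectionVars false

namespace Cfsg.Agent.SNG

open MulAction Module Submodule

variable {F : Type*} [Field F] [Fintype F] {p : ℕ} [Fact p.Prime] [CharP F p]
  {G : Type*} [Group G] {V : Type*} [AddCommGroup V] [Module F V] [DistribMulAction G V]
  [SMulCommClass G F V] [Finite V]

variable {T : Subgroup G} {x y : V} {W : V → Submodule F V}

theorem hexA_sm0 {A : Submodule F V} {v : V} (hv : v ∉ A) {c : F} (h : c • v ∈ A) : c = 0 :=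
  by_contra fun hc => hv ((A.smul_mem_iff hc).1 h)

theorem Hex.csup (h : Hex p T x y W) {a b : V} (hb : b ∈ W a) (hb' : b ∉ span F {a}) : W a ⋖ W a ⊔ W b :=
  h.toGeo.cov_sup h.h1 hb hb'

theorem Hex.ne0 (h : Hex p T x y W) {a b : V} (hb : b ∈ W a) (hb' : b ∉ span F {a}) : a ≠ 0 :=
  h.toGeo0.ne_zero hb (ne0_of_notMem hb')

theorem Hex.inf_eq (h : Hex p T x y W) {a b : V} (hb : b ∈ W a) (hb' : b ∉ span F {a}) :
    W a ⊓ W b = span F {a, b} := by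
  have h1 := (covBy_iff.1 (h.toGeo.cov_inf h.h1 hb hb')).2
  rw [h.rk3 a (h.ne0 hb hb')] at h1
  refine (eq_of_le_of_finrank_eq (l2_le (A := W a ⊓ W b)
    ⟨h.self a, h.symm _ _ (ne0_of_notMem hb') hb⟩ ⟨hb, h.self b⟩) ?_).symm
  rw [rk_l2 (h.ne0 hb hb') hb']
  omega

theorem Hex.cov_l2 (h : Hex p T x y W) {a b : V} (hb : b ∈ W a) (hb' : b ∉ span F {a}) :
    span F {a, b} ⋖ W a := h.inf_eq hb hb' ▸ h.toGeo.cov_inf h.h1 hb hb'

theorem Hex.rk4 (h : Hex p T x y W) {a b : V} (hb : b ∈ W a) (hb' : b ∉ span F {a}) :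
    finrank F (W a ⊔ W b : Submodule F V) = 4 := by
  rw [(covBy_iff.1 (h.csup hb hb')).2, h.rk3 a (h.ne0 hb hb')]

/-- a common vector outside `W a` -/
theorem Hex.inj' (h : Hex p T x y W) {a b c z : V} (hb : b ∈ W a) (hb' : b ∉ span F {a}) (hc : c ∈ W a)
    (hc' : c ∉ span F {a}) (h1 : z ∈ W a ⊔ W b) (h2 : z ∈ W a ⊔ W c) (hz : z ∉ W a) : c ∈ span F {a, b} :=
  h.inj a b c hb hb' hc (le_sup_right.trans (eq_of_mem (h.csup hc hc') (h.csup hb hb') h2 h1 hz).le)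

theorem Hex.inf_small (h : Hex p T x y W) {a z c c' : V} (hz : z ∉ W a) (h1 : c ∈ W a)
    (h2 : c ∈ W z) (c0 : c ≠ 0) (h3 : c' ∈ W a) (h4 : c' ∈ W z) : c' ∈ span F {c} := by
  by_cases c0' : c' = 0
  · exact c0' ▸ zero_mem _
  have ha : a ∉ W z := fun h' => hz (h.symm _ _ (h.toGeo0.ne_zero h1 c0) h')
  obtain ⟨α, β, rfl⟩ := mem_span_pair.1 (h.inj' h1 (notMem_l1_symm c0 fun h' => ha (l1_le h2 h')) h3
    (notMem_l1_symm c0' fun h' => ha (l1_le h4 h')) (mem_sup_right (h.symm _ _ c0 h2))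
    (mem_sup_right (h.symm _ _ c0' h4)) hz)
  rw [hexA_sm0 ha (((W z).add_mem_iff_left ((W z).smul_mem β h2)).1 h4), zero_smul, zero_add]
  exact smul_mem _ β (self_l1 c)

theorem Hex.exists_out (h : Hex p T x y W) {a b c : V} (hb : b ∈ W a) (hb' : b ∉ span F {a})
    (hc : c ∈ W a) (hc' : c ∉ span F {a, b}) : ∃ d ∈ W c, d ∉ W a ⊔ W b := by
  have ca : c ∉ span F {a} := fun h' => hc' (l1_le_l2 a b h')
  obtain ⟨d, hd, hd'⟩ := exists_of_covBy (h.toGeo.cov_inf' h.h1 hc ca)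
  exact ⟨d, hd, fun h' => hc' (h.inj' hb hb' hc ca h' (mem_sup_right hd) fun h' => hd' ⟨h', hd⟩)⟩

theorem Hex.cov_W2 (h : Hex p T x y W) {a b : V} (hb : b ∈ W a) (hb' : b ∉ span F {a}) :
    W a ⊔ W b ⋖ W2 W a := by
  have i1 := h.cov_l2 hb hb'
  obtain ⟨c, hc, hc'⟩ := exists_of_covBy i1
  obtain ⟨d, hd, hd'⟩ := h.exists_out hb hb' hc hc'
  have : W2 W a = W a ⊔ W b ⊔ span F {d} := by
    refine le_antisymm (W2_le fun u hu => ?_) (sup_le (h.toGeo.sup_le_W2 hb) (l1_le (le_W2 hc hd)))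
    obtain ⟨v, hv, w, hw, rfl⟩ := mem_sup.1 ((eq_adj i1 hc hc').le hu)
    refine (h.lin v w).trans (sup_le ((h.toGeo.le_sup hv).trans le_sup_left)
      ((h.toGeo.le_sup (l1_le (right_l2 a c) hw)).trans ?_))
    rw [eq_adj (h.csup hc fun h' => hc' (l1_le_l2 a b h')) (mem_sup_right hd) fun h' => hd' (mem_sup_left h')]
    exact sup_le_sup_right le_sup_left _
  rw [this]
  exact covBy_adj hd'

theorem Hex.rk5 (h : Hex p T x y W) {a : V} (ha : a ≠ 0) : finrank F (W2 W a) = 5 := by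
  obtain ⟨b, hb, hb'⟩ := h.toGeo0.exists_col ha
  rw [(covBy_iff.1 (h.cov_W2 hb hb')).2, h.rk4 hb hb']

theorem Hex.mem_W2 (h : Hex p T x y W) {a z : V} (hz : z ∈ W2 W a) : ∃ b ∈ W a, z ∈ W a ⊔ W b := by
  by_cases ha : a = 0
  · rw [ha, h.toGeo.W2_zero, mem_bot] at hz
    exact ⟨a, h.self a, hz ▸ zero_mem _⟩
  obtain ⟨b, hb, hb'⟩ := h.toGeo0.exists_col ha
  obtain ⟨c, hc, hc'⟩ := exists_of_covBy (h.cov_l2 hb hb')
  have ca : c ∉ span F {a} := fun h' => hc' (l1_le_l2 a b h')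
  obtain ⟨d, hd, hda⟩ := exists_of_covBy (h.csup hb hb')
  obtain ⟨e, he, he'⟩ := h.exists_out hb hb' hc hc'
  have nf : ∀ v ∈ W2 W a, ∃ α β : F, v - β • e - α • d ∈ W a := fun v hv => by
    obtain ⟨β, h1⟩ := mem_adj.1 ((eq_adj (h.cov_W2 hb hb') (le_W2 hc he) he').le hv)
    obtain ⟨α, h2⟩ := mem_adj.1 ((eq_adj (h.csup hb hb') hd hda).le h1)
    exact ⟨α, β, h2⟩
  have ind : ∀ {α β γ : F}, α • a + β • b + γ • c = 0 → β = 0 ∧ γ = 0 := fun {α β γ} e => by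
    obtain rfl : γ = 0 := hexA_sm0 hc' (by
      rw [eq_neg_of_add_eq_zero_right e]; exact neg_mem (mem_span_pair.2 ⟨α, β, rfl⟩))
    rw [zero_smul, add_zero] at e
    exact ⟨hexA_sm0 hb' (by rw [eq_neg_of_add_eq_zero_right e]; exact neg_mem (smul_mem _ α (self_l1 a))), rfl⟩
  have m1 : ∀ l : F, b + l • c ∈ W a := fun l => add_mem hb (smul_mem _ l hc)
  have m2 : ∀ l : F, b + l • c ∉ span F {a, c} := fun l h' => by
    obtain ⟨α, β, e⟩ := mem_span_pair.1 h'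
    exact one_ne_zero (ind (α := -α) (β := 1) (γ := l - β) (by linear_combination (norm := module) -e)).1
  have m3 : ∀ l : F, b + l • c ∉ span F {a} := fun l h' => m2 l (l1_le_l2 a c h')
  have sc : ∀ {B : Submodule F V} {v : V} {α β : F}, α ≠ 0 → v - β • e - α • d ∈ W a →
      (v ∈ W a ⊔ B ↔ d + (α⁻¹ * β) • e ∈ W a ⊔ B) := fun {B v α β} h0 h1 => by
    rw [← (W a ⊔ B).smul_mem_iff h0 (x := d + _), smul_add, smul_smul, mul_inv_cancel_left₀ h0,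
      ← (W a ⊔ B).add_mem_iff_right (mem_sup_left h1) (y := α • d + β • e)]
    exact iff_of_eq (congrArg _ (by abel))
  have z0 : ∀ {v : V} {β : F}, v - β • e - (0 : F) • d ∈ W a → v ∈ W a ⊔ W c := fun {v β} h1 => by
    rw [zero_smul, sub_zero] at h1
    exact mem_sup.2 ⟨_, h1, _, smul_mem _ β he, sub_add_cancel _ _⟩
  have ex : ∀ l : F, ∃ m : F, d + m • e ∈ W a ⊔ W (b + l • c) := fun l => by
    obtain ⟨v, hv, hv'⟩ := exists_of_covBy (h.csup (m1 l) (m3 l))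
    obtain ⟨α, β, h1⟩ := nf v (h.toGeo.sup_le_W2 (m1 l) hv)
    by_cases h0 : α = 0
    · exact absurd (h.inj' hc ca (m1 l) (m3 l) (z0 (h0 ▸ h1)) hv hv') (m2 l)
    · exact ⟨_, (sc h0 h1).1 hv⟩
  choose m hm using ex
  have inj : Function.Injective m := fun l l' e' => by
    obtain ⟨α, β, e2⟩ := mem_span_pair.1 (h.inj' (m1 l) (m3 l) (m1 l') (m3 l') (hm l) (e' ▸ hm l') fun h' => by
      rw [hexA_sm0 he' (((W a ⊔ W b).add_mem_iff_right hd).1 (mem_sup_left h')), zero_smul, add_zero] at h'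
      exact hda h')
    obtain ⟨h1, h2⟩ := ind (α := α) (β := β - 1) (γ := β * l - l') (by linear_combination (norm := module) e2)
    linear_combination h2 - l * h1
  obtain ⟨α, β, h1⟩ := nf z hz
  by_cases h0 : α = 0
  · exact ⟨c, hc, z0 (h0 ▸ h1)⟩
  · obtain ⟨l, hl⟩ := Finite.surjective_of_injective inj (α⁻¹ * β)
    exact ⟨_, m1 l, (sc h0 h1).2 (hl ▸ hm l)⟩

theorem Hex.W2_mid (h : Hex p T x y W) {a z : V} (hz : z ∈ W2 W a) (hz' : z ∉ W a) :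
    ∃ c ∈ W a, c ≠ 0 ∧ c ∈ W z := by
  obtain ⟨b, hb, hz⟩ := h.mem_W2 hz
  exact h.toGeo.exists_mid (ne0_of_notMem (h.toGeo.col_of_mem hz hz')) hb hz hz'

theorem Hex.W2_symm (h : Hex p T x y W) (a z : V) (z0 : z ≠ 0) (hz : z ∈ W2 W a) :
    a ∈ W2 W z := by
  by_cases hz' : z ∈ W a
  · exact le_W2 (h.self z) (h.symm _ _ z0 hz')
  · obtain ⟨c, hc, c0, hcz⟩ := h.W2_mid hz hz'
    exact le_W2 hcz (h.symm _ _ c0 hc)

theorem Hex.rigid0 (h : Hex p T x y W) {g : G} {a b : V} (hb : b ∈ W a) (hb' : b ∉ span F {a})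
    (hf : ∀ v ∈ W a, g • v = v) (hg : ∀ v ∈ W a ⊔ W b, g • v - v ∈ span F {a}) {d : V} (hd : d ∈ W2 W a) :
    g • d - d ∈ span F {a} := by
  have key : ∀ c ∈ W a, c ∉ span F {a, b} → g • d - d ∈ W c := fun c hc hc' => by
    obtain ⟨e, he, he'⟩ := h.exists_out hb hb' hc hc'
    obtain ⟨l, hl⟩ := mem_adj.1 ((eq_adj (h.cov_W2 hb hb') (le_W2 hc he) he').le hd)
    have h3 := l1_le (h.symm _ _ (ne0_of_notMem hc') hc) (hg _ hl)
    have h4 := h.eqv g _ _ he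
    rw [hf c hc] at h4
    have := add_mem h3 (smul_mem _ l (sub_mem h4 he))
    rwa [smul_sub, gs, smul_sub l, show g • d - l • g • e - (d - l • e) + (l • g • e - l • e) = g • d - d by abel]
      at this
  obtain ⟨c, hc, hc'⟩ := exists_of_covBy (h.cov_l2 hb hb')
  have hc2 : c + b ∉ span F {a, b} := fun h' => hc' ((Submodule.add_mem_iff_left _ (right_l2 a b)).1 h')
  refine h.inf_small (a := c) (z := c + b) (fun h' => hc' ?_) (h.symm _ _ (ne0_of_notMem hc') hc)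
    (h.symm _ _ (ne0_of_notMem hc2) (add_mem hc hb)) (h.ne0 hb hb') (key c hc hc') (key _ (add_mem hc hb) hc2)
  exact (h.inf_eq hb hb').le ⟨hc, h.symm _ _ (ne0_of_notMem hb') ((Submodule.add_mem_iff_right _ (h.self c)).1 h')⟩

theorem Hex.rigid1 (h : Hex p T x y W) {g : G} {a b : V} (hb : b ∈ W a) (hb' : b ∉ span F {a})
    (hg : ∀ v ∈ W a ⊔ W b, g • v = v) {d : V} (hd : d ∈ W2 W a) : g • d - d ∈ span F {a} :=
  h.rigid0 hb hb' (fun v hv => hg v (mem_sup_left hv)) (fun v hv => by rw [hg v hv, sub_self]; exact zero_mem _) hd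

end Cfsg.Agent.SNG
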