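import Cfsg.Agent.SNG.HexA

set_option autoImplicit false
set_option linter.unusedSectionVars false

namespace Cfsg.Agent.SNG

open MulAction Module Submodule

variable {F : Type*} [Field F] [Fintype F] {p : ℕ} [Fact p.Prime] [CharP F p]
  {G : Type*} [Group G] {V : Type*} [AddCommGroup V] [Module F V] [DistribMulAction G V]
  [SMulCommClass G F V] [Finite V]

variable {T : Subgroup G} {x y : V} {W : V → Submodule F V}

theorem hexB_mv (hT : IsPGroup p T) {t : G} (ht : t ∈ T) {A B : Submodule F V} (hc : A ⋖ B)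
    (hA : ∀ v ∈ A, t • v = v) {v : V} (hv : v ∈ B) (hv' : v ∉ A) (h : t • v ∈ B) :
    t • v - v ∈ A := by
  rw [eq_adj hc hv hv'] at h
  obtain ⟨c, hc'⟩ := mem_adj.1 h
  exact scalar_one hT ht (fun u hu => by rwa [hA u hu]) hv' hc'

theorem hexB_step {A B U : Submodule F V} (hc : A ⋖ B) {v : V} (hv : v ∈ B) (hv' : v ∉ A)
    (h : ∀ t ∈ fx T A, t • v - v ∈ U) :
    (fx T B).relIndex (fx T A) ≤ Fintype.card F ^ finrank F U := by
  have e : fx T B = fx T A ⊓ stabilizer G v := by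
    refine le_antisymm (le_inf (fx_anti T hc.le) fun t ht => ht.2 v hv) fun t ht => ⟨ht.1.1, ?_⟩
    rw [eq_adj hc hv hv']
    exact fix_sup ht.1.2 (fix_l1 ht.2)
  rw [e]
  exact idx_le _ v U h

theorem hexB_sub (t : G) (u v : V) : t • (u - v) - (u - v) = (t • u - u) - (t • v - v) := by
  rw [smul_sub]; abel

theorem hexB_adj {t : G} {A U : Submodule F V} {v : V} (hA : ∀ u ∈ A, t • u - u ∈ U)
    (hv : t • v - v ∈ U) : ∀ u ∈ A ⊔ span F {v}, t • u - u ∈ U := by
  intro u hu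
  obtain ⟨c, hc⟩ := mem_adj.1 hu
  have h1 := hA _ hc
  rw [hexB_sub, gs, ← smul_sub] at h1
  simpa using U.add_mem h1 (U.smul_mem c hv)

theorem hexB_xy (h : Hex p T x y W) : span F {x, y} ≤ W x := l2_le (h.self x) h.ymem

theorem hexB_c (h : Hex p T x y W) {c : V} (hc : c ∈ W y) (hc' : c ∉ W x) {t : G}
    (ht : t ∈ fx T (W x)) : t • c - c ∈ span F {x, y} := by
  have y0 := ne0_of_notMem h.yx
  have i := h.cov_l2 (h.symm x y y0 h.ymem) (notMem_l1_symm h.x0 h.yx)
  rw [l2_comm] at i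
  refine hexB_mv h.pg ht.1 i (fun v hv => ht.2 v (hexB_xy h hv)) hc (fun h' => hc' (hexB_xy h h')) ?_
  have := h.eqv t _ _ hc
  rwa [ht.2 y h.ymem] at this

theorem hexB_one [Finite G] (h : Hex p T x y W) :
    (fx T (W x)).relIndex T ≤ Fintype.card F ^ 3 := by
  have : FiniteDimensional F V := Module.Finite.of_finite
  have i1 := h.cov_l2 h.ymem h.yx
  obtain ⟨b, hb, hb'⟩ := exists_of_covBy i1
  have e0 : fx T (span F {x}) = T :=
    le_antisymm (fx_le _ _) fun t ht => ⟨ht, fix_l1 (h.fixx t ht)⟩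
  have i0 : span F {x} ⋖ span F {x, y} := by rw [l2_eq_sup]; exact covBy_adj h.yx
  have e1 := hexB_step (T := T) (U := span F {x}) i0 (right_l2 x y) h.yx fun t ht => by
    obtain ⟨β, hβ⟩ := h.fixy t ht.1
    rw [hβ, add_sub_cancel_left]
    exact smul_mem _ _ (self_l1 x)
  have e2 := hexB_step (T := T) (U := span F {x, y}) i1 hb hb' fun t ht =>
    hexB_mv h.pg ht.1 i1 ht.2 hb hb' (by
      have := h.eqv t _ _ hb
      rwa [h.fixx t ht.1] at this)
  rw [e0, finrank_span_singleton h.x0] at e1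
  rw [rk_l2 h.x0 h.yx] at e2
  rw [← Subgroup.relIndex_mul_relIndex (fx T (W x)) (fx T (span F {x, y})) T
    (fx_anti T i1.le) (fx_le _ _), pow_succ _ 2]
  exact Nat.mul_le_mul e2 (by simpa using e1)

theorem Hex.chain [Finite G] (h : Hex p T x y W) :
    (fx T (W x)).relIndex T ≤ Fintype.card F ^ 3 ∧
      (fx T (W x ⊔ W y)).relIndex (fx T (W x)) ≤ Fintype.card F ^ 2 ∧
      (fx T (W2 W x)).relIndex (fx T (W x ⊔ W y)) ≤ Fintype.card F := by
  have : FiniteDimensional F V := Module.Finite.of_finite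
  refine ⟨hexB_one h, ?_, ?_⟩
  · obtain ⟨c, hc, hc'⟩ := SetLike.not_le_iff_exists.1 h.h1
    have e := hexB_step (T := T) (U := span F {x, y}) (h.toGeo.cov_sup h.h1 h.ymem h.yx)
      (mem_sup_right hc) hc' fun t ht => hexB_c h hc hc' ht
    rwa [rk_l2 h.x0 h.yx] at e
  · have i3 := h.cov_W2 h.ymem h.yx
    obtain ⟨d, hd, hd'⟩ := exists_of_covBy i3
    have e := hexB_step (T := T) (U := span F {x}) i3 hd hd' fun t ht =>
      h.rigid1 h.ymem h.yx ht.2 hd
    rwa [finrank_span_singleton h.x0, pow_one] at e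

/-- the key rigidity in the degenerate case -/
theorem hexB_key (h : Hex p T x y W) (hall : ∀ a b, b ∈ W a → W2 W b ≤ W2 W a) {c : V}
    (hc : c ∈ W y) (hc' : c ∉ W x) {t : G} (ht : t ∈ fx T (W x))
    (htc : t • c - c ∈ span F {x}) : ∀ d ∈ W2 W x, t • d = d := by
  have i1 := h.cov_l2 h.ymem h.yx
  have i2 := h.toGeo.cov_sup h.h1 h.ymem h.yx
  have i3 := h.cov_W2 h.ymem h.yx
  obtain ⟨b, hb, hb'⟩ := exists_of_covBy i1
  -- moving a vector of `W u`
  have mv : ∀ u ∈ W x, u ∉ span F {x} → ∀ d ∈ W u, d ∉ W x → t • d - d ∈ span F {x, u} := by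
    intro u hu hu' d hd hd'
    have i := h.cov_l2 (h.symm x u (ne0_of_notMem hu') hu) (notMem_l1_symm h.x0 hu')
    rw [l2_comm] at i
    have hl : span F {x, u} ≤ W x := l2_le (h.self x) hu
    refine hexB_mv h.pg ht.1 i (fun v hv => ht.2 v (hl hv)) hd (fun h' => hd' (hl h')) ?_
    have := h.eqv t _ _ hd
    rwa [ht.2 u hu] at this
  have hyb : y + b ∉ span F {x, y} := fun h' =>
    hb' (((span F {x, y}).add_mem_iff_right (right_l2 x y)).1 h')
  have hyb' : y + b ∈ W x := add_mem h.ymem hb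
  obtain ⟨d, hd, hd'⟩ := h.exists_out h.ymem h.yx hb hb'
  obtain ⟨e, he, he'⟩ := h.exists_out h.ymem h.yx hyb' hyb
  have n1 := mv b hb (fun h' => hb' (l1_le_l2 x y h')) d hd fun h' => hd' (mem_sup_left h')
  have n2 := mv _ hyb' (fun h' => hyb (l1_le_l2 x y h')) e he fun h' => he' (mem_sup_left h')
  have n3 : ∀ u ∈ W x ⊔ W y, t • u - u ∈ span F {x} := by
    rw [eq_adj i2 (mem_sup_right hc) hc']
    exact hexB_adj (fun u hu => by rw [ht.2 u hu, sub_self]; exact zero_mem _) htc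
  have hdD : d ∈ W2 W x := le_W2 hb hd
  have eD := eq_adj i3 hdD hd'
  have n4 : t • d - d ∈ span F {x} := by
    have heD : e ∈ W2 W x := le_W2 hyb' he
    rw [eD] at heD
    obtain ⟨γ, hγ⟩ := mem_adj.1 heD
    have γ0 : γ ≠ 0 := by
      rintro rfl
      exact he' (by simpa using hγ)
    have n5 := l1_le_l2 x (y + b) (n3 _ hγ)
    rw [hexB_sub, gs, ← smul_sub] at n5
    have n6 : γ • (t • d - d) ∈ span F {x, y + b} := by
      simpa using sub_mem n2 n5
    have n7 : t • d - d ∈ span F {x, y + b} := (smul_mem_iff _ γ0).1 n6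
    obtain ⟨α, β, e1⟩ := mem_span_pair.1 n1
    obtain ⟨α', β', e2⟩ := mem_span_pair.1 n7
    have e3 : (β - β') • b = (α' - α) • x + β' • y := by
      linear_combination (norm := module) e1.trans e2.symm
    have e4 : β - β' = 0 := by
      by_contra hne
      exact hb' ((smul_mem_iff _ hne).1 (mem_span_pair.2 ⟨_, _, e3.symm⟩))
    have e5 : β' = 0 := by
      by_contra hne
      refine h.yx ((smul_mem_iff _ hne).1 (mem_span_singleton.2 ⟨α - α', ?_⟩))
      rw [e4, zero_smul] at e3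
      linear_combination (norm := module) e3
    rw [← e2, e5, zero_smul, add_zero]
    exact smul_mem _ _ (self_l1 x)
  have n8 : ∀ u ∈ W2 W x, t • u - u ∈ span F {x} := by
    rw [eD]; exact hexB_adj n3 n4
  -- a fixed vector outside `W x`
  obtain ⟨z, hz, hz', hz''⟩ : ∃ z ∈ W2 W x, z ∉ W x ∧ t • z = z := by
    obtain ⟨α, hα⟩ := mem_span_singleton.1 htc
    obtain ⟨δ, hδ⟩ := mem_span_singleton.1 n4
    have hcD : c ∈ W2 W x := le_W2 h.ymem hc
    by_cases α0 : α = 0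
    · refine ⟨c, hcD, hc', ?_⟩
      rw [α0, zero_smul] at hα
      exact sub_eq_zero.1 hα.symm
    · refine ⟨d - (δ / α) • c, sub_mem hdD (smul_mem _ _ hcD), fun h' => hd' ?_, ?_⟩
      · simpa using add_mem (mem_sup_left h' : _ ∈ W x ⊔ W y)
          (smul_mem _ (δ / α) (mem_sup_right hc : _ ∈ W x ⊔ W y))
      · rw [← sub_eq_zero, hexB_sub, gs, ← smul_sub, ← hα, ← hδ, smul_smul,
          div_mul_cancel₀ _ α0, sub_self]
  obtain ⟨b', hb1, hb2⟩ := h.mem_W2 hz
  have hb3 := h.toGeo.col_of_mem hb2 hz'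
  have hb4 := h.symm x b' (ne0_of_notMem hb3) hb1
  have hfix : ∀ v ∈ W b' ⊔ W x, t • v = v := by
    rw [sup_comm, eq_adj (h.toGeo.cov_sup h.h1 hb1 hb3) hb2 hz']
    exact fix_sup ht.2 (fix_l1 hz'')
  intro u hu
  have m1 := h.rigid1 hb4 (notMem_l1_symm h.x0 hb3) hfix (hall _ _ hb4 hu)
  obtain ⟨α, hα⟩ := mem_span_singleton.1 m1
  have m2 := n8 u hu
  rw [← hα] at m2
  by_cases α0 : α = 0
  · rw [α0, zero_smul] at hα
    exact sub_eq_zero.1 hα.symm
  · exact absurd ((smul_mem_iff _ α0).1 m2) hb3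

theorem hexB_idx [Finite G] (h : Hex p T x y W) (hall : ∀ a b, b ∈ W a → W2 W b ≤ W2 W a) :
    (fx T (W2 W x)).relIndex (fx T (W x)) ≤ Fintype.card F := by
  obtain ⟨c, hc, hc'⟩ := SetLike.not_le_iff_exists.1 h.h1
  obtain ⟨φ, h1, h2⟩ := sep2 h.x0 h.yx (0 : F) 1
  let f : fx T (W x) →* Multiplicative F := MonoidHom.mk'
    (fun t => Multiplicative.ofAdd (φ ((t : G) • c - c))) fun t t' => by
      rw [← ofAdd_add, ← map_add]
      congr 2
      have := t.2.2 _ (hexB_xy h (hexB_c h hc hc' t'.2))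
      rw [smul_sub] at this
      rw [Subgroup.coe_mul, mul_smul, ← this]
      abel
  have hk : f.ker ≤ (fx T (W2 W x)).subgroupOf (fx T (W x)) := by
    intro t ht
    refine Subgroup.mem_subgroupOf.2 ⟨t.2.1, hexB_key h hall hc hc' t.2 ?_⟩
    have e : φ ((t : G) • c - c) = 0 := ht
    obtain ⟨α, β, e1⟩ := mem_span_pair.1 (hexB_c h hc hc' t.2)
    rw [← e1] at e ⊢
    simp only [map_add, map_smul, h1, h2, smul_eq_mul, mul_zero, mul_one, zero_add] at e
    rw [e, zero_smul, add_zero]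
    exact smul_mem _ _ (self_l1 x)
  refine (Subgroup.index_antitone hk).trans ?_
  rw [Subgroup.index_ker]
  refine (Subgroup.card_le_card_group _).trans ?_
  rw [Nat.card_eq_fintype_card, Fintype.card_multiplicative]

theorem Hex.W2_ne [Finite G] (h : Hex p T x y W) {a b : V} (hb : b ∈ W a) (hb' : b ∉ span F {a}) :
    ¬ W2 W b ≤ W2 W a := by
  intro hle
  have hall : ∀ a' b', b' ∈ W a' → W2 W b' ≤ W2 W a' := by
    intro a' b' h1
    by_cases h2 : b' ∈ span F {a'}
    · obtain ⟨c, rfl⟩ := mem_span_singleton.1 h2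
      by_cases c0 : c = 0
      · rw [c0, zero_smul, h.toGeo.W2_zero]; exact bot_le
      · rw [h.toGeo.W2_smul c0]
    · obtain ⟨g, c, c0, rfl, e⟩ := h.toGeo0.tr2 hb hb' h1 h2
      intro v hv
      rw [← h.toGeo.W2_smul c0, ← e, ← smul_inv_smul g v, h.toGeo.W2_eqv] at hv
      rw [← smul_inv_smul g v, h.toGeo.W2_eqv]
      exact hle hv
  have hD : W2 W x = Cl W x := by
    refine le_antisymm (h.toGeo.W2_le_cl (cl_self W x))
      (cl_le (h.toGeo.W2_self x (h.self x)) fun c hc => ?_)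
    by_cases h1 : c ∈ W x
    · exact le_W2 h1
    · obtain ⟨m, hm, m0, hm'⟩ := h.W2_mid hc h1
      exact (le_W2 (h.symm c m m0 hm')).trans (hall x m hm)
  have hx : x ∈ W2 W x := h.toGeo.W2_self x (h.self x)
  obtain ⟨b1, b2⟩ := act_bound (T := T) (R := fx T (W2 W x)) hx h.x0 (fun r hr => hr.2) h.trA
  rw [h.rk5 h.x0] at b1 b2
  have e1 := hexB_one h
  have e2 := hexB_idx h hall
  have e3 := Subgroup.relIndex_mul_relIndex (fx T (W2 W x)) (fx T (W x)) T
    (fx_anti T (h.toGeo.W2_self x)) (fx_le _ _)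
  have q1 : 1 < Fintype.card F := Fintype.one_lt_card
  have e4 : Fintype.card F ^ 5 = Fintype.card F * (fx T (W2 W x)).relIndex T := by
    refine le_antisymm b1 ?_
    rw [← e3]
    calc _ ≤ Fintype.card F * (Fintype.card F * Fintype.card F ^ 3) :=
          Nat.mul_le_mul_left _ (Nat.mul_le_mul e2 e1)
      _ = _ := by ring
  have e5 : fx T (W2 W x) = fx T (W x) := by
    refine le_antisymm (fx_anti T (h.toGeo.W2_self x)) fun t ht => ⟨ht.1, ?_⟩
    refine reg_triv (x := x) (E := W x) (fun t ht d hd => ?_) (b2 e4) ?_ ht.1 (h.toGeo.W2_self x)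
      ht.2 (by rw [h.rk5 h.x0, h.rk3 x h.x0]; omega)
    · have := (h.toGeo.W2_eqv t x d).2 hd
      rwa [h.fixx t ht] at this
    · rw [hD]; exact h.toGeo.conj_cl
  rw [e5] at b1
  have e6 : Fintype.card F ^ 5 ≤ Fintype.card F ^ 4 :=
    b1.trans ((Nat.mul_le_mul_left _ e1).trans (by ring_nf; rfl))
  exact absurd ((Nat.pow_le_pow_iff_right q1).1 e6) (by omega)

end Cfsg.Agent.SNG
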