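import Cfsg.Agent.SNG.Loc
import Cfsg.Agent.SNG.Geo0
import Mathlib.Combinatorics.Enumerative.DoubleCounting

/-! Antiflag-transitive groups: linearity of `W` (notes/SNG.md, section Lin). -/

set_option autoImplicit false
set_option linter.unusedSectionVars false

namespace Cfsg.Agent.SNG

open MulAction Module Submodule

variable {F : Type*} [Field F] [Fintype F] {p : ℕ} [Fact p.Prime] [CharP F p]
  {G : Type*} [Group G] {V : Type*} [AddCommGroup V] [Module F V] [DistribMulAction G V]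
  [SMulCommClass G F V] [Finite V]

variable {T : Subgroup G} {x y : V} {W : V → Submodule F V}

theorem Geo0.btr (h : Geo0 p T x y W) {a a' : V} {φ φ' : V →ₗ[F] F} (h1 : φ a = 0) (h2 : φ' a' = 0)
    (h3 : ∃ w ∈ W a, φ w ≠ 0) (h4 : ∃ w ∈ W a', φ' w ≠ 0) :
    ∃ (g : G) (c : F), c ≠ 0 ∧ g • a = a' ∧ ∀ v, φ' (g • v) = c * φ v := by
  obtain ⟨w, hw, h3⟩ := h3
  obtain ⟨w', hw', h4⟩ := h4
  obtain ⟨k, rfl⟩ := h.trans2 (h.ne_zero hw (by rintro rfl; exact h3 (map_zero φ)))
    (h.ne_zero hw' (by rintro rfl; exact h4 (map_zero φ')))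
  obtain ⟨u, hu, hu1, hu2⟩ := exists_notMem2 (A := LinearMap.ker φ)
    (B := LinearMap.ker (φ'.comp (lin F k))) (C := W a) (fun e => h3 (e hw)) fun e => h4 (by
      have := e (show k⁻¹ • w' ∈ W a by rw [← h.eqv_iff k, smul_inv_smul]; exact hw')
      rwa [LinearMap.mem_ker, LinearMap.comp_apply, lin_apply, smul_inv_smul] at this)
  rw [LinearMap.mem_ker] at hu1 hu2
  have ua : u ∉ span F {a} := fun e => by
    obtain ⟨c, rfl⟩ := mem_span_singleton.1 e
    exact hu1 (by rw [map_smul, h1, smul_zero])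
  have hc : φ'.comp (lin F k) u / φ u ≠ 0 := div_ne_zero hu2 hu1
  obtain ⟨g, hg, hg'⟩ := fourier' (stabilizer G a) (span F {a, u}) (fun z hz v hv => by
      obtain ⟨g, e1, -, e2⟩ := h.p1' hu ua hz hv
      exact ⟨g, e1, e2⟩) (φ := (φ'.comp (lin F k) u / φ u) • φ) (φ' := φ'.comp (lin F k))
    ⟨u, right_l2 a u, mul_ne_zero hc hu1⟩ fun v hv => by
      obtain ⟨α, β, rfl⟩ := mem_span_pair.1 hv
      have e1 : φ'.comp (lin F k) a = 0 := h2
      simp only [map_add, map_smul, e1, LinearMap.smul_apply, h1, smul_eq_mul, mul_zero,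
        div_mul_cancel₀ _ hu1]
  exact ⟨k * g, _, hc, by rw [mul_smul, hg], fun v => by rw [mul_smul]; exact hg' v⟩

theorem lin_card_ann (A : Submodule F V) :
    Nat.card A.dualAnnihilator * Fintype.card F ^ finrank F A = Fintype.card F ^ finrank F V := by
  rw [card_eq_pow, ← pow_add, add_comm, Subspace.finrank_add_finrank_dualAnnihilator_eq]

theorem Geo0.lin_ann_le (h : Geo0 p T x y W) {a : V} (ha : a ≠ 0) :
    Nat.card (W a).dualAnnihilator * Fintype.card F ^ 2 ≤ Fintype.card F ^ finrank F V := by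
  rw [← lin_card_ann (W a)]
  exact Nat.mul_le_mul_left _ (Nat.pow_le_pow_right Fintype.card_pos (h.two_le ha))

theorem lin_ev_inj : Function.Injective (Du.ev : V → Du F V →ₗ[F] F) := by
  intro a b hab
  by_contra hne
  obtain ⟨ψ, hψ⟩ := sep0 (F := F) (sub_ne_zero.2 hne)
  have : ψ a = ψ b := DFunLike.congr_fun hab (Du.mk ψ)
  rw [map_sub, this, sub_self] at hψ
  exact zero_ne_one hψ

theorem Geo0.lin_both (h : Geo0 p T x y W) {T' : Subgroup G} {x' y' : Du F V}
    {W' : Du F V → Submodule F (Du F V)} (h' : Geo0 p T' x' y' W') :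
    ∃ (a : V) (φ : Du F V), φ.ap a = 0 ∧ (∃ w ∈ W a, φ.ap w ≠ 0) ∧ ∃ θ ∈ W' φ, θ.ap a ≠ 0 := by
  classical
  by_contra hn
  push Not at hn
  let _ := Fintype.ofFinite V
  let _ := Fintype.ofFinite (Du F V)
  let r : V → Du F V → Prop := fun a φ => ∀ θ ∈ W' φ, θ.ap a = 0
  obtain ⟨n, hn'⟩ : ∃ n, finrank F V = n + 2 :=
    ⟨finrank F V - 2, by have := (h.two_le h.x0).trans (finrank_le (W x)); omega⟩
  have q2 : 2 ≤ Fintype.card F := Fintype.one_lt_card
  obtain ⟨m, hm⟩ : ∃ m, Fintype.card F ^ n = m := ⟨_, rfl⟩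
  have m0 : 0 < m := hm ▸ pow_pos (by omega) n
  have h1 := Finset.card_mul_le_card_mul (s := (Finset.univ : Finset V).erase 0)
    (t := (Finset.univ : Finset (Du F V)).erase 0) r (m := m) (n := m - 1) (by
      intro a ha
      have ha : a ≠ 0 := (Finset.mem_erase.1 ha).1
      have h2 := lin_card_ann (span F {a})
      have h3 := h.lin_ann_le ha
      rw [finrank_span_singleton ha, hn', pow_succ, pow_succ, pow_zero, one_mul, pow_succ, hm] at h2
      rw [hn', pow_add, hm] at h3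
      have h2' := Nat.eq_of_mul_eq_mul_right (by omega) h2
      have h3' := Nat.le_of_mul_le_mul_right h3 (pow_pos (by omega) 2)
      have h4 : (((span F {a}).dualAnnihilator : Set (V →ₗ[F] F))) ⊆
          ((W a).dualAnnihilator : Set (V →ₗ[F] F)) ∪
          ((((Finset.univ : Finset (Du F V)).erase 0).bipartiteAbove r a : Finset (Du F V)) :
            Set (Du F V)) := by
        intro φ hφ
        by_cases h5 : φ ∈ (W a).dualAnnihilator
        · exact Or.inl h5
        · refine Or.inr ((Finset.mem_bipartiteAbove r).2 ⟨Finset.mem_erase.2 ⟨?_, Finset.mem_univ _⟩,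
            fun θ hθ => hn a φ ((mem_dualAnnihilator φ).1 hφ a (self_l1 a)) ?_ θ hθ⟩)
          · rintro rfl; exact h5 (zero_mem _)
          · simpa only [mem_dualAnnihilator, not_forall, ← Ne.eq_def, exists_prop, Du.ap] using h5
      have h5 : Nat.card (span F {a}).dualAnnihilator ≤ Nat.card (W a).dualAnnihilator +
          (((Finset.univ : Finset (Du F V)).erase 0).bipartiteAbove r a).card :=
        ((Set.ncard_le_ncard h4).trans (Set.ncard_union_le _ _)).trans_eq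
          (congrArg _ (Set.ncard_coe_finset _))
      have := Nat.mul_le_mul_left m q2
      omega) (by
      intro φ hφ
      have hφ : φ ≠ 0 := (Finset.mem_erase.1 hφ).1
      have h3 := h'.lin_ann_le hφ
      rw [Du.rk, hn', pow_add, hm] at h3
      have h3' := Nat.le_of_mul_le_mul_right h3 (pow_pos (by omega) 2)
      have h4 := Set.ncard_le_ncard_of_injOn (s := insert 0
        ((((Finset.univ : Finset V).erase 0).bipartiteBelow r φ : Finset V) : Set V))
        (t := ((W' φ).dualAnnihilator : Set (Du F V →ₗ[F] F))) Du.ev (by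
          rintro a (rfl | ha)
          · exact (mem_dualAnnihilator _).2 fun θ _ => map_zero θ.ap
          · exact (mem_dualAnnihilator _).2 ((Finset.mem_bipartiteBelow r).1 ha).2)
          lin_ev_inj.injOn
      rw [Set.ncard_insert_of_notMem (by simp), Set.ncard_coe_finset] at h4
      change _ ≤ Nat.card (W' φ).dualAnnihilator at h4
      omega)
  rw [Finset.card_erase_of_mem (Finset.mem_univ _), Finset.card_erase_of_mem (Finset.mem_univ _),
    Finset.card_univ, Finset.card_univ, ← Nat.card_eq_fintype_card, ← Nat.card_eq_fintype_card,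
    card_top_eq_pow (F := F), card_top_eq_pow (F := F), Du.rk] at h1
  have h0 : 1 < Fintype.card F ^ finrank F V := Nat.one_lt_pow (by omega) (by omega)
  have := Nat.le_of_mul_le_mul_left h1 (by omega)
  omega

theorem Geo0.lin_geo (h : Geo0 p T x y W) {T' : Subgroup G} {x' y' : Du F V}
    {W' : Du F V → Submodule F (Du F V)} (h' : Geo0 p T' x' y' W') : Geo p T x y W := by
  obtain ⟨a0, φ0, h0, h1, h2⟩ := h.lin_both h'
  have e1 : ∀ (a : V) (φ : Du F V), φ.ap a = 0 → (∃ w ∈ W a, φ.ap w ≠ 0) →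
      ∃ θ ∈ W' φ, θ.ap a ≠ 0 := by
    intro a φ h3 h4
    obtain ⟨g, c, hc, rfl, hg⟩ := h.btr h0 h3 h1 h4
    obtain ⟨θ, hθ, hθ1⟩ := h2
    have e : g • c • φ0 = φ := Du.smul_eq_iff.2 hg
    refine ⟨g • θ, e ▸ h'.eqv g _ _ (by rwa [h'.smul c φ0 hc]), ?_⟩
    rwa [Du.ap_smul, inv_smul_smul]
  have e2 : ∀ (a : V) (φ : Du F V), φ.ap a = 0 → (∃ θ ∈ W' φ, θ.ap a ≠ 0) →
      ∃ w ∈ W a, φ.ap w ≠ 0 := by
    intro a φ h3 h4
    obtain ⟨g, c, hc, rfl, hg⟩ := h'.btr (φ := Du.ev a0) (φ' := Du.ev a) h0 h3 h2 h4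
    have : g • c • a0 = a := by
      rw [← smul_inv_smul g a]
      congr 1
      refine lin_ev_inj (F := F) (LinearMap.ext fun η => ?_)
      have := hg η
      rw [Du.ev_apply, Du.ev_apply, Du.ap_smul] at this
      rw [Du.ev_apply, Du.ev_apply, this, map_smul, smul_eq_mul]
    obtain ⟨w, hw, hw1⟩ := h1
    exact ⟨g • w, this ▸ h.eqv g _ _ (by rwa [h.smul c a0 hc]), by rwa [Du.ap_smul, inv_smul_smul]⟩
  refine ⟨h, fun a b z hz => ?_⟩
  by_contra hn
  obtain ⟨φ, hφ, hφ1⟩ := sep hn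
  have ha : φ a = 0 := hφ a (mem_sup_left (h.self a))
  have hb : φ b = 0 := hφ b (mem_sup_right (h.self b))
  obtain ⟨θ, hθ, hθ1⟩ := e1 (a + b) (Du.mk φ) (by rw [map_add, Du.ap_mk, ha, hb, add_zero])
    ⟨z, hz, by rw [Du.ap_mk, hφ1]; exact one_ne_zero⟩
  by_cases h3 : θ.ap a = 0
  · rw [map_add, h3, zero_add] at hθ1
    obtain ⟨w, hw, hw1⟩ := e2 b (Du.mk φ) hb ⟨θ, hθ, hθ1⟩
    exact hw1 (hφ w (mem_sup_right hw))
  · obtain ⟨w, hw, hw1⟩ := e2 a (Du.mk φ) ha ⟨θ, hθ, h3⟩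
    exact hw1 (hφ w (mem_sup_left hw))

theorem AF.dual (h : AF F G V) : AF F G (Du F V) := by
  intro φ φ' θ θ' h1 h2
  obtain ⟨v, rfl⟩ := Du.ev_surj θ
  obtain ⟨v', rfl⟩ := Du.ev_surj θ'
  obtain ⟨g, rfl, hg⟩ := h v v' φ.ap φ'.ap h1 h2
  exact ⟨g, Du.smul_eq_iff.2 hg, fun η => by
    rw [Du.ev_apply, Du.ev_apply, Du.ap_smul, inv_smul_smul]⟩

theorem exists_geo [Finite G] (h : AF F G V) (h2 : 2 ≤ finrank F V) (T : Sylow p G) :
    ∃ (x y : V) (W : V → Submodule F V), Geo p (T : Subgroup G) x y W := by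
  obtain ⟨x, y, h1⟩ := exists_loc h h2 T
  obtain ⟨W, h1⟩ := h1.exists_geo0
  obtain ⟨x', y', h3⟩ := exists_loc h.dual (by rwa [Du.rk]) T
  obtain ⟨W', h3⟩ := h3.exists_geo0
  exact ⟨x, y, W, h1.lin_geo h3⟩

end Cfsg.Agent.SNG
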