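import Cfsg.Agent.SNG.Defs

/-! Sylow tools for linear actions in the defining characteristic. -/

set_option autoImplicit false
set_option linter.unusedSectionVars false

namespace Cfsg.Agent.SNG

open MulAction Module Submodule

variable {F : Type*} [Field F] [Fintype F] {p : ℕ} [Fact p.Prime] [CharP F p]
  {G : Type*} [Group G] {V : Type*} [AddCommGroup V] [Module F V] [DistribMulAction G V]
  [SMulCommClass G F V] [Finite V]

theorem scalar_one {P : Subgroup G} (hP : IsPGroup p P) {g : G} (hg : g ∈ P) {A : Submodule F V}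
    (hA : ∀ v ∈ A, g • v ∈ A) {v : V} (hv : v ∉ A) {c : F} (h : g • v - c • v ∈ A) :
    g • v - v ∈ A := by
  have key : ∀ j : ℕ, g ^ j • v - c ^ j • v ∈ A := fun j => by
    induction j with
    | zero => simp
    | succ j ih =>
      have := A.add_mem (hA _ ih) (A.smul_mem (c ^ j) h)
      rw [smul_sub, smul_sub, gs, ← mul_smul, ← mul_smul, sub_add_sub_cancel, ← pow_succ', ← pow_succ] at this
      exact this
  obtain ⟨k, hk⟩ := hP ⟨g, hg⟩
  have h1 := key (p ^ k)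
  rw [show g ^ p ^ k = 1 from congrArg Subtype.val hk, one_smul] at h1
  have h2 : 1 - c ^ p ^ k = 0 := by
    by_contra h0
    refine hv ((A.smul_mem_iff h0).1 ?_)
    rwa [sub_smul, one_smul]
  have h3 : (1 - c) ^ p ^ k = 0 := by rw [sub_pow_char_pow, one_pow, h2]
  have h4 : c = 1 := (sub_eq_zero.1 (pow_eq_zero_iff (pow_ne_zero k (Fact.out : p.Prime).ne_zero) |>.1 h3)).symm
  rwa [h4, one_smul] at h

variable (F p) in
theorem syl_card_pow (W : Type*) [AddCommGroup W] [Module F W] [Finite W] :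
    ∃ k, Nat.card W = p ^ k ∧ (Nontrivial W → k ≠ 0) := by
  obtain ⟨n, -, hn⟩ := FiniteField.card F p
  refine ⟨n * finrank F W, by rw [card_top_eq_pow (F := F), hn, pow_mul], fun _ => ?_⟩
  exact Nat.mul_ne_zero n.ne_zero finrank_pos.ne'

variable (F) in
theorem syl_fix_ne_zero {W : Type*} [AddCommGroup W] [Module F W] [Finite W] [DistribMulAction G W]
    (hG : IsPGroup p G) (hV : ∃ v : W, v ≠ 0) : ∃ v : W, v ≠ 0 ∧ ∀ g : G, g • v = v := by
  obtain ⟨k, hk, hk'⟩ := syl_card_pow F p W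
  obtain ⟨v, hv⟩ := hV
  have : p ∣ Nat.card W := hk ▸ dvd_pow_self p (hk' ⟨v, 0, hv⟩)
  obtain ⟨b, hb, hb'⟩ := hG.exists_fixed_point_of_prime_dvd_card_of_fixed_point W this
    (a := 0) (fun g => smul_zero g)
  exact ⟨b, hb'.symm, hb⟩

theorem fix_coset {P : Subgroup G} (hP : IsPGroup p P) {A B : Submodule F V}
    (hA : ∀ g ∈ P, ∀ v ∈ A, g • v ∈ A) (hB : ∀ g ∈ P, ∀ v ∈ B, g • v ∈ B)
    (h : ∃ v ∈ B, v ∉ A) : ∃ z ∈ B, z ∉ A ∧ ∀ g ∈ P, g • z - z ∈ A := by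
  letI := quotAct (G := P) A fun g v hv => hA g g.2 v hv
  letI := subAct (G := P) (B.map A.mkQ) (by
    rintro g _ ⟨v, hv, rfl⟩
    exact ⟨g • v, hB g g.2 v hv, rfl⟩)
  haveI : Finite (V ⧸ A) := Finite.of_surjective _ A.mkQ_surjective
  obtain ⟨v, hv, hv'⟩ := h
  obtain ⟨⟨_, z, hz, rfl⟩, h0, h1⟩ := syl_fix_ne_zero F (G := P) (W := B.map A.mkQ) hP
    ⟨⟨A.mkQ v, v, hv, rfl⟩, fun h => hv' ((Submodule.Quotient.mk_eq_zero A).1 (congrArg Subtype.val h))⟩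
  refine ⟨z, hz, fun h => h0 (Subtype.ext ((Submodule.Quotient.mk_eq_zero A).2 h)), fun g hg => ?_⟩
  exact (Submodule.Quotient.eq A).1 (congrArg Subtype.val (h1 ⟨g, hg⟩))

theorem syl_conj [Finite G] (T : Sylow p G) {S P : Subgroup G} (hT : (T : Subgroup G) ≤ S)
    (hP : IsPGroup p P) (hPS : P ≤ S) : ∃ g ∈ S, ∀ k ∈ P, g * k * g⁻¹ ∈ T := by
  obtain ⟨Q, hQ⟩ := (hP.comap_subtype (K := S)).exists_le_sylow
  obtain ⟨g, hg⟩ := exists_smul_eq S Q (T.subtype hT)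
  refine ⟨g, g.2, fun k hk => ?_⟩
  have h1 : (⟨k, hPS hk⟩ : S) ∈ Q := hQ hk
  have h2 : g * ⟨k, hPS hk⟩ * g⁻¹ ∈ ((g • Q : Sylow p S) : Subgroup S) := by
    rw [Sylow.coe_subgroup_smul]
    exact Subgroup.smul_mem_pointwise_smul _ (MulAut.conj g) _ h1
  rw [hg] at h2
  exact h2

theorem syl_trans {H X : Type*} [Group H] [Finite H] [MulAction H X] (T : Sylow p H) (φ : X)
    {k : ℕ} (h : (orbit H φ).ncard = p ^ k) (g : H) : ∃ t ∈ T, t • φ = g • φ := by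
  have h1 := Subgroup.relIndex_mul_index (show (T : Subgroup H) ⊓ stabilizer H φ ≤ T from inf_le_left)
  have h2 := Subgroup.index_dvd_of_le (show (T : Subgroup H) ⊓ stabilizer H φ ≤ _ from inf_le_right)
  rw [index_stabilizer, h, ← h1, Subgroup.inf_relIndex_left] at h2
  have h3 := (Nat.Coprime.pow_left k
    ((Nat.Prime.coprime_iff_not_dvd (Fact.out : p.Prime)).2 T.not_dvd_index)).dvd_of_dvd_mul_right h2
  have h4 : (stabilizer H φ).relIndex T = (orbit (T : Subgroup H) φ).ncard :=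
    index_stabilizer (T : Subgroup H) φ
  have hs : orbit (T : Subgroup H) φ ⊆ orbit H φ := by
    rintro _ ⟨t, rfl⟩; exact ⟨t, rfl⟩
  have hf : (orbit H φ).Finite := Set.finite_range _
  have h5 : orbit (T : Subgroup H) φ = orbit H φ := by
    refine Set.eq_of_subset_of_ncard_le hs ?_ hf
    rw [h, ← h4]
    refine Nat.le_of_dvd ?_ h3
    rw [h4]
    exact (Set.ncard_pos (hf.subset hs)).2 ⟨φ, mem_orbit_self φ⟩
  obtain ⟨t, ht⟩ : g • φ ∈ orbit (T : Subgroup H) φ := h5 ▸ mem_orbit φ g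
  exact ⟨t, t.2, ht⟩

theorem syl_trA [Finite G] (T : Sylow p G) {x : V} (hx : ∀ g : G, g • x = x)
    (h : ∀ φ φ' : V →ₗ[F] F, φ x = 1 → φ' x = 1 → ∃ g : G, ∀ v, φ' (g • v) = φ v)
    (φ φ' : V →ₗ[F] F) (h1 : φ x = 1) (h2 : φ' x = 1) : ∃ t ∈ T, ∀ v, φ' (t • v) = φ v := by
  obtain ⟨k, hk, -⟩ := syl_card_pow F p (LinearMap.ker (Du.ev (F := F) x))
  have ho : orbit G (Du.mk φ) = (fun ψ => Du.mk φ + ψ) '' (LinearMap.ker (Du.ev (F := F) x)) := by
    ext ψ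
    constructor
    · rintro ⟨g, rfl⟩
      refine ⟨g • Du.mk φ - Du.mk φ, ?_, add_sub_cancel _ _⟩
      change Du.ev x _ = 0
      rw [map_sub, Du.ev_apply, Du.ev_apply, Du.ap_smul, hx, sub_self]
    · rintro ⟨ψ, hψ, rfl⟩
      obtain ⟨g, hg⟩ := h φ (Du.mk φ + ψ).ap h1 (by
        rw [Du.ap_add, Du.ap_mk, h1, show ψ.ap x = 0 from hψ, add_zero])
      exact ⟨g, Du.smul_eq_iff.2 hg⟩
  have hc : (orbit G (Du.mk φ)).ncard = p ^ k := by
    rw [ho, Set.ncard_image_of_injective _ (add_right_injective _), ← hk]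
    rfl
  obtain ⟨g, hg⟩ := h φ φ' h1 h2
  obtain ⟨t, ht, ht'⟩ := syl_trans T (Du.mk φ) hc g
  rw [(Du.smul_eq_iff (φ := Du.mk φ) (φ' := Du.mk φ')).2 hg] at ht'
  exact ⟨t, ht, Du.smul_eq_iff.1 ht'⟩

theorem idx_le (H : Subgroup G) (v : V) (A : Submodule F V) (h : ∀ g ∈ H, g • v - v ∈ A) :
    (H ⊓ stabilizer G v).relIndex H ≤ Fintype.card F ^ finrank F A := by
  rw [Subgroup.inf_relIndex_left, show (stabilizer G v).relIndex H = (orbit H v).ncard from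
    index_stabilizer H v, ← card_eq_pow]
  refine Set.ncard_le_ncard_of_injOn (t := (A : Set V)) (· - v) ?_
    (fun a _ b _ hab => sub_left_injective hab)
  rintro _ ⟨g, rfl⟩
  exact h g g.2

theorem act_bound [Finite G] {T R : Subgroup G} {D : Submodule F V} {x : V}
    (hx : x ∈ D) (hx0 : x ≠ 0) (hR : ∀ r ∈ R, ∀ d ∈ D, r • d = d)
    (hT : ∀ φ φ' : V →ₗ[F] F, φ x = 1 → φ' x = 1 → ∃ t ∈ T, ∀ v, φ' (t • v) = φ v) :
    Fintype.card F ^ finrank F D ≤ Fintype.card F * R.relIndex T ∧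
      (Fintype.card F ^ finrank F D = Fintype.card F * R.relIndex T → ∀ t ∈ T,
        ∀ φ : V →ₗ[F] F, φ x = 1 → (∀ d ∈ D, φ (t • d) = φ d) → ∀ d ∈ D, t • d = d) := by
  obtain ⟨K, hK, hc⟩ : ∃ K : Submodule F (D →ₗ[F] F), (∀ ψ ∈ K, ψ ⟨x, hx⟩ = 0) ∧
      Fintype.card F * Nat.card K = Fintype.card F ^ finrank F D := by
    refine ⟨(span F {(⟨x, hx⟩ : D)}).dualAnnihilator, fun ψ hψ =>
      (mem_dualAnnihilator ψ).1 hψ _ (self_l1 _), ?_⟩
    rw [← Subspace.finrank_add_finrank_dualAnnihilator_eq (span F {(⟨x, hx⟩ : D)}),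
      finrank_span_singleton fun h => hx0 (congrArg Subtype.val h), pow_add, pow_one, card_eq_pow]
  have key : ∀ φ : V →ₗ[F] F, φ x = 1 →
      ∃ κ : K → T ⧸ R.subgroupOf T, Function.Injective κ ∧
        ∀ ψ (t : T), κ ψ = QuotientGroup.mk t → ∀ d : D, φ ((t : G) • (d : V)) = φ d + ψ.1 d := by
    intro φ hφ
    have : ∀ ψ : K, ∃ t : T, ∀ d : D, φ ((t : G) • (d : V)) = φ d + ψ.1 d := by
      intro ψ
      obtain ⟨ψ', hψ'⟩ := LinearMap.exists_extend ψ.1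
      have e : ∀ d : D, ψ' d = ψ.1 d := fun d => LinearMap.congr_fun hψ' d
      obtain ⟨t, ht, ht'⟩ := hT (φ + ψ') φ (by
        rw [LinearMap.add_apply, hφ, e ⟨x, hx⟩, hK _ ψ.2, add_zero]) hφ
      exact ⟨⟨t, ht⟩, fun d => by rw [← e]; exact ht' d⟩
    choose τ hτ using this
    have h2 : ∀ ψ (t : T), (QuotientGroup.mk (τ ψ) : T ⧸ R.subgroupOf T) = QuotientGroup.mk t →
        ∀ d : D, φ ((t : G) • (d : V)) = φ d + ψ.1 d := by
      intro ψ t ht d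
      have h3 : (τ ψ)⁻¹ * t ∈ R.subgroupOf T := QuotientGroup.eq.1 ht
      have h4 : ((τ ψ : G)⁻¹ * t) • (d : V) = d := hR _ h3 d d.2
      rw [mul_smul, inv_smul_eq_iff] at h4
      rw [h4, hτ]
    refine ⟨fun ψ => QuotientGroup.mk (τ ψ), fun ψ ψ' h => ?_, h2⟩
    refine Subtype.ext (LinearMap.ext fun d => ?_)
    exact add_left_cancel ((h2 ψ _ h d).symm.trans (hτ ψ' d))
  obtain ⟨φ0, h0⟩ := sep0 (F := F) hx0
  refine ⟨?_, fun he t ht φ hφ h d hd => ?_⟩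
  · obtain ⟨κ, hκ, -⟩ := key φ0 h0
    rw [← hc]
    exact Nat.mul_le_mul_left _ (Nat.card_le_card_of_injective κ hκ)
  · obtain ⟨κ, hκ, hκ'⟩ := key φ hφ
    have hb := (Nat.bijective_iff_injective_and_card κ).2 ⟨hκ,
      Nat.eq_of_mul_eq_mul_left Fintype.card_pos (hc.trans he)⟩
    obtain ⟨ψ, hψ⟩ := hb.2 (QuotientGroup.mk ⟨t, ht⟩)
    obtain ⟨ψ', hψ'⟩ := hb.2 (QuotientGroup.mk 1)
    have : ψ = ψ' := by
      refine Subtype.ext (LinearMap.ext fun d => add_left_cancel (a := φ d) ?_)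
      rw [← hκ' ψ _ hψ, ← hκ' ψ' _ hψ', h d d.2]
      simp
    have h4 := QuotientGroup.eq.1 (hψ'.symm.trans (this ▸ hψ))
    exact hR t (by simpa [Subgroup.mem_subgroupOf] using h4) d hd

theorem reg_triv {T : Subgroup G} {D E : Submodule F V} {x : V}
    (hD : ∀ t ∈ T, ∀ d ∈ D, t • d ∈ D)
    (hreg : ∀ t ∈ T, ∀ φ : V →ₗ[F] F, φ x = 1 → (∀ d ∈ D, φ (t • d) = φ d) → ∀ d ∈ D, t • d = d)
    (hconj : ∀ t ∈ T, ∀ v ∈ D, v ≠ 0 → t • v = v →
      ∃ k : G, k • v = x ∧ (∀ d, d ∈ D ↔ k • d ∈ D) ∧ k * t * k⁻¹ ∈ T)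
    {t : G} (ht : t ∈ T) (hE : E ≤ D) (hfix : ∀ v ∈ E, t • v = v)
    (hrk : finrank F D < 2 * finrank F E) : ∀ d ∈ D, t • d = d := by
  let N : D →ₗ[F] D := (lin F t - LinearMap.id).restrict fun d hd => D.sub_mem (hD t ht d hd) hd
  have hN : ∀ d : D, (N d : V) = t • (d : V) - d := fun d => rfl
  have h1 : finrank F E ≤ finrank F (LinearMap.ker N) := by
    rw [← (comapSubtypeEquivOfLe hE).finrank_eq]
    exact finrank_mono fun v hv => Subtype.ext (by rw [hN, hfix v.1 hv, sub_self]; rfl)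
  have h2 := N.finrank_range_add_finrank_ker
  obtain ⟨v, hv, hv'⟩ := exists_notMem (A := LinearMap.range N) (B := LinearMap.ker N) (by omega)
  have hv1 : t • v.1 = v.1 := sub_eq_zero.1 ((hN v).symm.trans (congrArg Subtype.val hv))
  have hv0 : v.1 ≠ 0 := fun h => hv' (by rw [show v = 0 from Subtype.ext h]; exact zero_mem _)
  obtain ⟨φ, hφ, hφ1⟩ := sep (U := (LinearMap.range N).map D.subtype) (v := v.1) (by
    rintro ⟨w, hw, hw'⟩
    exact hv' ((show w = v from Subtype.ext hw') ▸ hw))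
  obtain ⟨k, hk, hkD, hkT⟩ := hconj t ht v.1 v.2 hv0 hv1
  have := hreg _ hkT (φ.comp (lin F k⁻¹)) (by
    change φ (k⁻¹ • x) = 1
    rw [← hk, inv_smul_smul, hφ1]) (by
    intro d hd
    change φ (k⁻¹ • (k * t * k⁻¹) • d) = φ (k⁻¹ • d)
    rw [mul_smul, mul_smul, inv_smul_smul, ← sub_eq_zero, ← map_sub]
    exact hφ _ ⟨_, ⟨⟨k⁻¹ • d, (hkD _).2 (by rwa [smul_inv_smul])⟩, rfl⟩, rfl⟩)
  refine fun d hd => smul_inj (g := k) ?_
  simpa only [mul_smul, inv_smul_smul] using this _ ((hkD d).1 hd)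

end Cfsg.Agent.SNG
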