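import Cfsg.Agent.SNG.Four
import Cfsg.Agent.SNG.Syl

/-! Antiflag-transitive groups: the local structure at a Sylow `p`-subgroup (notes/SNG.md). -/

set_option autoImplicit false
set_option linter.unusedSectionVars false

namespace Cfsg.Agent.SNG

open MulAction Module Submodule

variable {F : Type*} [Field F] [Fintype F] {p : ℕ} [Fact p.Prime] [CharP F p]
  {G : Type*} [Group G] {V : Type*} [AddCommGroup V] [Module F V] [DistribMulAction G V]
  [SMulCommClass G F V] [Finite V]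

theorem AF.trans (h : AF F G V) {a b : V} (ha : a ≠ 0) (hb : b ≠ 0) : ∃ g : G, g • a = b := by
  obtain ⟨φ, h1⟩ := sep0 (F := F) ha
  obtain ⟨φ', h2⟩ := sep0 (F := F) hb
  obtain ⟨g, hg, -⟩ := h a b φ φ' h1 h2
  exact ⟨g, hg⟩

theorem loc_conj [Finite G] (T : Sylow p G) {x : V} (hx : ∀ t ∈ T, t • x = x)
    {P : Subgroup G} (hP : IsPGroup p P) {v : V} (hv : ∀ g ∈ P, g • v = v) {k0 : G}
    (hk0 : k0 • v = x) : ∃ k : G, k • v = x ∧ ∀ g ∈ P, k * g * k⁻¹ ∈ T := by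
  obtain ⟨g, hg, hg'⟩ := syl_conj T (S := stabilizer G x) hx
    (hP.map (MulAut.conj k0).toMonoidHom) (by
      rintro _ ⟨p, hp, rfl⟩
      change (k0 * p * k0⁻¹) • x = x
      rw [← hk0, mul_smul, inv_smul_smul, mul_smul, hv p hp])
  refine ⟨g * k0, by rw [mul_smul, hk0]; exact hg, fun p hp => ?_⟩
  have := hg' _ ⟨p, hp, rfl⟩
  simpa [mul_assoc] using this

theorem loc_trA [Finite G] (h : AF F G V) (T : Sylow p G) {x : V} (hx : ∀ t ∈ T, t • x = x)
    (φ φ' : V →ₗ[F] F) (h1 : φ x = 1) (h2 : φ' x = 1) : ∃ t ∈ T, ∀ v, φ' (t • v) = φ v := by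
  obtain ⟨t, ht, ht'⟩ := syl_trA (G := stabilizer G x) (T.subtype hx) (x := x) (fun g => g.2)
    (fun ψ ψ' h1 h2 => by
      obtain ⟨g, hg, hg'⟩ := h x x ψ ψ' h1 h2
      exact ⟨⟨g, hg⟩, hg'⟩) φ φ' h1 h2
  exact ⟨t, ht, ht'⟩

section

variable {T : Subgroup G} {x : V} (x0 : x ≠ 0)
  (trA : ∀ φ φ' : V →ₗ[F] F, φ x = 1 → φ' x = 1 → ∃ t ∈ T, ∀ v, φ' (t • v) = φ v)
  {y : V} (hy : y ∉ span F {x})
include x0 trA hy

theorem loc_onto {φ : V →ₗ[F] F} (h1 : φ x = 1) (c : F) : ∃ t ∈ T, φ (t • y) = c := by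
  obtain ⟨ψ, ha, hb⟩ := sep2 x0 hy 1 c
  obtain ⟨t, ht, e⟩ := trA ψ φ ha h1
  exact ⟨t, ht, (e y).trans hb⟩

theorem loc_tv (h : ∀ t ∈ T, t • y - y ∈ span F {x}) (β : F) : ∃ t ∈ T, t • y = y + β • x := by
  obtain ⟨φ, h1⟩ := sep0 (F := F) x0
  obtain ⟨t, ht, e⟩ := loc_onto x0 trA hy h1 (φ y + β)
  obtain ⟨c, hc⟩ := mem_span_singleton.1 (h t ht)
  have e1 : t • y = y + c • x := by rw [hc, add_sub_cancel]
  rw [e1, map_add, map_smul, h1, smul_eq_mul, mul_one, add_right_inj] at e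
  exact ⟨t, ht, e ▸ e1⟩

/-- a subgroup of index at most `q` fixing a second vector -/
theorem loc_key [Finite G] {Y : Subgroup G} (hi : Y.relIndex T ≤ Fintype.card F)
    (fix : ∀ g ∈ Y, g • y = y) {φ : V →ₗ[F] F} (h1 : φ x = 1) {t : G} (ht : t ∈ T)
    (e : φ (t • y) = φ y) : t ∈ Y := by
  let m : T ⧸ Y.subgroupOf T → F := Quotient.lift (fun s : T => φ ((s : G) • y)) fun a b hab => by
    have := fix _ (Subgroup.mem_subgroupOf.1 (QuotientGroup.leftRel_apply.1 hab))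
    rw [Subgroup.coe_mul, Subgroup.coe_inv, mul_smul, inv_smul_eq_iff] at this
    rw [this]
  have hs : Function.Surjective m := fun c => by
    obtain ⟨s, hs, e⟩ := loc_onto x0 trA hy h1 c
    exact ⟨QuotientGroup.mk ⟨s, hs⟩, e⟩
  have hb := hs.bijective_of_nat_card_le (by rw [Nat.card_eq_fintype_card (α := F)]; exact hi)
  have : (QuotientGroup.mk (1 : T) : T ⧸ Y.subgroupOf T) = QuotientGroup.mk ⟨t, ht⟩ :=
    hb.1 (show φ ((1 : G) • y) = φ (t • y) by rw [one_smul, e])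
  simpa [Subgroup.mem_subgroupOf] using QuotientGroup.eq.1 this

theorem loc_cls [Finite G] {Y : Subgroup G} (hi : Y.relIndex T ≤ Fintype.card F)
    (fix : ∀ g ∈ Y, g • y = y) {φ φ' : V →ₗ[F] F} (h0 : φ x ≠ 0) (h1 : φ' x = φ x) (h2 : φ' y = φ y) :
    ∃ t ∈ Y, ∀ v, φ' (t • v) = φ v := by
  have a : ((φ x)⁻¹ • φ') x = 1 := by rw [LinearMap.smul_apply, h1, smul_eq_mul, inv_mul_cancel₀ h0]
  obtain ⟨t, ht, e⟩ := trA ((φ x)⁻¹ • φ) _ (by rw [LinearMap.smul_apply, smul_eq_mul, inv_mul_cancel₀ h0]) a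
  refine ⟨t, loc_key x0 trA hy hi fix a ht (by rw [e, LinearMap.smul_apply, LinearMap.smul_apply, h2]),
    fun v => mul_left_cancel₀ (inv_ne_zero h0) (e v)⟩

end

theorem exists_loc [Finite G] (h : AF F G V) (h2 : 2 ≤ finrank F V) (T : Sylow p G) :
    ∃ x y : V, Loc F p (T : Subgroup G) x y := by
  obtain ⟨x, -, x0, hx⟩ := fix_coset (F := F) (V := V) (P := (T : Subgroup G)) T.isPGroup' (A := ⊥) (B := ⊤)
    (fun g _ v hv => by rw [(mem_bot F).1 hv, smul_zero]; exact zero_mem _) (fun _ _ _ _ => trivial)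
    (exists_notMem (by rw [finrank_bot, finrank_top]; omega))
  rw [mem_bot] at x0
  have fixx : ∀ t ∈ T, t • x = x := fun t ht => sub_eq_zero.1 ((mem_bot F).1 (hx t ht))
  have trA := loc_trA h T fixx
  have conj : ∀ P : Subgroup G, IsPGroup p P → ∀ v : V, v ≠ 0 → (∀ g ∈ P, g • v = v) →
      ∃ k : G, k • v = x ∧ ∀ g ∈ P, k * g * k⁻¹ ∈ T := fun P hP v hv hv' => by
    obtain ⟨k0, hk0⟩ := h.trans hv x0
    exact loc_conj T fixx hP hv' hk0
  obtain ⟨y, -, hy, hy'⟩ := fix_coset (F := F) (P := (T : Subgroup G)) T.isPGroup' (A := span F {x}) (B := ⊤)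
    (fun g hg v hv => by rw [fix_l1 (fixx g hg) v hv]; exact hv) (fun _ _ _ _ => trivial)
    (exists_notMem (by rw [finrank_span_singleton x0, finrank_top]; omega))
  let Y : Subgroup G := T ⊓ stabilizer G y
  have hi : Y.relIndex T ≤ Fintype.card F := by
    have := idx_le (T : Subgroup G) y (span F {x}) hy'
    rwa [finrank_span_singleton x0, pow_one] at this
  obtain ⟨k, hk, hk'⟩ := conj Y (T.isPGroup'.to_inf_left) y (ne0_of_notMem hy) (fun p hp => hp.2)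
  let Y2 : Subgroup G := Y.map (MulAut.conj k).toMonoidHom
  have hY2 : Y2 ≤ T := by rintro _ ⟨p, hp, rfl⟩; exact hk' p hp
  have hi2 : Y2.relIndex T ≤ Fintype.card F := by
    have h1 := (Y2.subgroupOf T).card_mul_index
    have h2 := (Y.subgroupOf T).card_mul_index
    rw [Nat.card_congr (Subgroup.subgroupOfEquivOfLe hY2).toEquiv,
      Subgroup.card_map_of_injective (MulAut.conj k).injective] at h1
    rw [Nat.card_congr (Subgroup.subgroupOfEquivOfLe inf_le_left).toEquiv, ← h1] at h2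
    exact (Nat.eq_of_mul_eq_mul_left Nat.card_pos h2).ge.trans hi
  have hfix : ∀ p ∈ Y2, p • k • x = k • x := by
    rintro _ ⟨p, hp, rfl⟩
    change (k * p * k⁻¹) • k • x = k • x
    rw [mul_smul, inv_smul_smul, mul_smul, fixx p hp.1]
  have hx' : k • x ∉ span F {x} := fun h' => notMem_l1_symm x0 hy ((smul_mem_l1 k).1 (hk.symm ▸ h'))
  have hs : ∀ t ∈ T, t • k • x - k • x ∈ span F {x} := fun t ht => by
    by_contra hn
    obtain ⟨φ, ha, hb⟩ := sep2 x0 hn 1 0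
    rw [hfix t (loc_key x0 trA hx' hi2 hfix ha ht (by rwa [map_sub, sub_eq_zero] at hb)), sub_self] at hn
    exact hn (zero_mem _)
  refine ⟨x, y, T.isPGroup', x0, hy, fixx, fun t ht => ?_, trA, conj, fun a ha => h.trans x0 ha,
    fun z hz u hu => ?_, loc_tv x0 trA hy hy', fun β => ?_⟩
  · obtain ⟨c, hc⟩ := mem_span_singleton.1 (hy' t ht)
    exact ⟨c, by rw [hc, add_sub_cancel]⟩
  · obtain ⟨g, hg, hg'⟩ := fourier Y (span F {x, y}) (fun φ ψ ⟨u, hu, hφ⟩ hψ => by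
      have e1 : (φ + ψ) x = φ x := by rw [LinearMap.add_apply, hψ x (left_l2 _ _), add_zero]
      have e2 : (φ + ψ) y = φ y := by rw [LinearMap.add_apply, hψ y (right_l2 _ _), add_zero]
      by_cases h0 : φ x = 0
      · have e3 : k⁻¹ • x = y := by rw [← hk, inv_smul_smul]
        obtain ⟨_, ⟨g, hg, rfl⟩, e⟩ := loc_cls x0 trA hx' hi2 hfix (φ := φ.comp (lin F k⁻¹))
          (φ' := (φ + ψ).comp (lin F k⁻¹)) (by
            obtain ⟨a, b, rfl⟩ := mem_span_pair.1 hu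
            rw [LinearMap.comp_apply, lin_apply, e3]
            intro h3
            exact hφ (by rw [map_add, map_smul, map_smul, h0, h3, smul_zero, smul_zero, add_zero]))
          (by rw [LinearMap.comp_apply, LinearMap.comp_apply, lin_apply, e3, e2])
          (by rw [LinearMap.comp_apply, LinearMap.comp_apply, lin_apply, inv_smul_smul, e1])
        refine ⟨g, hg, fun v => ?_⟩
        have : (φ + ψ) (k⁻¹ • (k * g * k⁻¹) • k • v) = φ (k⁻¹ • k • v) := e (k • v)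
        simpa only [mul_smul, inv_smul_smul] using this
      · exact loc_cls x0 trA hy hi (fun g hg => hg.2) h0 e1 e2) hz hu
    exact ⟨g, hg.1, hg.2, hg'⟩
  · obtain ⟨t, ht, e⟩ := loc_tv x0 trA hx' hs β
    refine ⟨k⁻¹ * t * k, ?_, ?_⟩
    · rw [mul_smul, mul_smul, hk, fixx t ht, ← hk, inv_smul_smul]
    · rw [mul_smul, mul_smul, e, smul_add, inv_smul_smul, gs, ← hk, inv_smul_smul]

end Cfsg.Agent.SNG
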