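import Mathlib.Combinatorics.Enumerative.DoubleCounting
import Cfsg.Agent.SNG.GeoB
import Cfsg.Agent.SNG.Syl

/-! Antiflag-transitive groups: the subspaces of two collinear points (notes/SNG.md). -/

set_option autoImplicit false
set_option linter.unusedSectionVars false

namespace Cfsg.Agent.SNG

open MulAction Module Submodule

variable {F : Type*} [Field F] [Fintype F] {p : ℕ} [Fact p.Prime] [CharP F p]
  {G : Type*} [Group G] {V : Type*} [AddCommGroup V] [Module F V] [DistribMulAction G V]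
  [SMulCommClass G F V] [Finite V]

theorem step_coset {s : Finset V} {A : Submodule F V} (z : V) (h : ∀ v, v ∈ s ↔ v - z ∈ A) :
    s.card = Fintype.card F ^ finrank F A := by
  rw [← Nat.card_eq_finsetCard, ← card_eq_pow]
  exact Nat.card_congr ((Equiv.subRight z).subtypeEquiv h)

theorem step_erase {s : Finset V} {A : Submodule F V} (h : ∀ v, v ∈ s ↔ v ∈ A ∧ v ≠ 0) :
    s.card + 1 = Fintype.card F ^ finrank F A := by
  classical
  rw [← Finset.card_insert_of_notMem (a := 0) (by simp [h]), step_coset (A := A) 0]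
  intro v
  by_cases hv : v = 0 <;> simp [h, hv]

theorem step_dvd (L : Submodule F V) (s : Set V) (h : ∀ v ∈ s, ∀ u ∈ L, v + u ∈ s) :
    Fintype.card F ^ finrank F L ∣ s.ncard := by
  have : s = (QuotientAddGroup.mk : V → V ⧸ L.toAddSubgroup) ⁻¹' (QuotientAddGroup.mk '' s) := by
    ext v
    refine ⟨fun hv => ⟨v, hv, rfl⟩, ?_⟩
    rintro ⟨w, hw, hwv⟩
    have := h w hw _ (QuotientAddGroup.eq.1 hwv)
    simpa using this
  rw [this, ← Nat.card_coe_set_eq,
    Nat.card_congr (QuotientAddGroup.preimageMkEquivAddSubgroupProdSet L.toAddSubgroup _),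
    Nat.card_prod, ← card_eq_pow]
  exact Dvd.intro _ rfl

variable {T : Subgroup G} {x y : V} {W : V → Submodule F V}

theorem Geo.rk_inf (h : Geo p T x y W) (h1 : ¬ W y ≤ W x) :
    finrank F (W x ⊓ W y : Submodule F V) + 1 = finrank F (W x) := by
  classical
  have := Fintype.ofFinite V
  have y0 : y ≠ 0 := ne0_of_notMem h.yx
  have hx : ∀ t ∈ T, ∀ v ∈ W x, t • v ∈ W x := fun t ht v hv => h.fixx t ht ▸ h.eqv t _ _ hv
  obtain ⟨z, hz, hz', hT⟩ := fix_coset h.pg (A := W x) (B := W x ⊔ W y) hx (fun t ht v hv => by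
    have := (h.sup_eqv t).2 hv
    obtain ⟨β, e⟩ := h.fixy t ht
    rwa [h.fixx t ht, e, h.sup_eq (add_mem (right_l2 x y) (smul_mem _ β (left_l2 x y))) fun h' =>
      h.yx ((Submodule.add_mem_iff_left _ (smul_mem _ β (self_l1 x))).1 h')] at this) (by
    obtain ⟨v, hv, hv'⟩ := SetLike.not_le_iff_exists.1 h1
    exact ⟨v, mem_sup_right hv, hv'⟩)
  let s : Finset V := Finset.univ.filter fun b => b ∈ W x ∧ b ≠ 0
  let t : Finset V := Finset.univ.filter fun v => v - z ∈ W x
  let M : Finset V := s.filter fun b => z ∈ W x ⊔ W b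
  have h2 := Finset.sum_card_bipartiteAbove_eq_sum_card_bipartiteBelow (s := s) (t := t)
    fun b v => v ∈ W b
  have h3 : ∀ b ∈ s, (t.bipartiteAbove (fun b v => v ∈ W b) b).card =
      if z ∈ W x ⊔ W b then Fintype.card F ^ finrank F (W x ⊓ W y : Submodule F V) else 0 := fun b hb => by
    simp only [s, Finset.mem_filter, Finset.mem_univ, true_and] at hb
    split_ifs with h4
    · obtain ⟨g, e, e0, hg, hg'⟩ := h.tr x b hb.1 (h.col_of_mem h4 hz')
      obtain ⟨c, hc, d, hd, rfl⟩ := mem_sup.1 h4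
      rw [h.rk_inf_eq g, hg, hg', h.smul e b e0]
      refine step_coset d fun v => ?_
      simp only [t, Finset.mem_bipartiteAbove, Finset.mem_filter, Finset.mem_univ, true_and, mem_inf]
      rw [show v - (c + d) = v - d - c by abel, Submodule.sub_mem_iff_left _ hc,
        Submodule.sub_mem_iff_left _ hd]
    · rw [Finset.card_eq_zero, Finset.eq_empty_iff_forall_notMem]
      intro v hv
      simp only [t, Finset.mem_bipartiteAbove, Finset.mem_filter, Finset.mem_univ, true_and] at hv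
      exact h4 (by simpa using add_mem_sup (neg_mem hv.1) hv.2)
  have h4 : ∀ v ∈ t, (s.bipartiteBelow (fun b v => v ∈ W b) v).card =
      Fintype.card F ^ finrank F (W x ⊓ W z : Submodule F V) - 1 := fun v hv => by
    simp only [t, Finset.mem_filter, Finset.mem_univ, true_and] at hv
    obtain ⟨g, hg, hg'⟩ := h.cos hz' hv
    rw [h.rk_inf_eq g, hg, hg', add_sub_cancel]
    refine Nat.eq_sub_of_add_eq (step_erase fun b => ?_)
    have v0 : v ≠ 0 := by rintro rfl; exact hz' (by simpa using hv)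
    simp only [s, Finset.mem_bipartiteBelow, Finset.mem_filter, Finset.mem_univ, true_and, mem_inf]
    exact ⟨fun h5 => ⟨⟨h5.1.1, h.symm _ _ v0 h5.2⟩, h5.1.2⟩,
      fun h5 => ⟨⟨h5.1.1, h5.2⟩, h.symm _ _ h5.2 h5.1.2⟩⟩
  rw [Finset.sum_congr rfl h3, Finset.sum_congr rfl h4, ← Finset.sum_filter, Finset.sum_const,
    Finset.sum_const, step_coset (s := t) (A := W x) z (by simp [t]), smul_eq_mul,
    smul_eq_mul] at h2
  have hM : ∀ b, b ∈ M ↔ b ∈ W x ∧ b ≠ 0 ∧ z ∈ W x ⊔ W b := fun b => by simp [M, s, and_assoc]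
  have hl : span F {x, y} ≤ W x := l2_le (h.self x) h.ymem
  have h5 : Fintype.card F ^ 2 ∣ (M.filter fun b => b ∉ span F {x, y}).card := by
    rw [← rk_l2 h.x0 h.yx, ← Set.ncard_coe_finset]
    refine step_dvd _ _ fun b hb u hu => ?_
    rw [Finset.mem_coe, Finset.mem_filter, hM] at hb ⊢
    have h6 : b + u ∉ span F {x, y} := fun h' => hb.2 ((Submodule.add_mem_iff_left _ hu).1 h')
    obtain ⟨g, hg, -, hg'⟩ := h.p1 b hb.2 u hu
    have h7 := (h.sup_eqv g).2 hb.1.2.2
    rw [h.fixx g hg, hg'] at h7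
    exact ⟨⟨add_mem hb.1.1 (hl hu), ne0_of_notMem h6,
      by simpa using sub_mem h7 (mem_sup_left (hT g hg))⟩, h6⟩
  have h6 : (M.filter fun b => b ∈ span F {x, y}).card + Fintype.card F = Fintype.card F ^ 2 := by
    have e1 := step_coset (s := Finset.univ.filter fun b => b ∈ span F {x}) (A := span F {x}) 0 (by simp)
    rw [finrank_span_singleton h.x0, pow_one] at e1
    rw [← rk_l2 h.x0 h.yx, ← step_coset (s := Finset.univ.filter fun b => b ∈ span F {x, y}) 0 (by simp),
      ← Finset.card_filter_add_card_filter_not (s := Finset.univ.filter fun b => b ∈ span F {x, y})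
        (fun b => b ∈ span F {x}), add_comm, ← e1]
    congr 2
    · ext b
      simp only [Finset.mem_filter, Finset.mem_univ, true_and]
      exact ⟨fun h' => ⟨l1_le_l2 x y h', h'⟩, fun h' => h'.2⟩
    · ext b
      simp only [Finset.mem_filter, Finset.mem_univ, true_and, hM]
      exact ⟨fun h' => ⟨h'.2, h.col_of_mem h'.1.2.2 hz'⟩, fun h' =>
        ⟨⟨hl h'.1, ne0_of_notMem h'.2, by rwa [h.sup_eq h'.1 h'.2]⟩, h'.1⟩⟩
  have h7 := Finset.card_filter_add_card_filter_not (s := M) fun b => b ∈ span F {x, y}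
  have h8 : finrank F (W x ⊓ W y : Submodule F V) < finrank F (W x) :=
    finrank_lt_finrank_of_lt (lt_of_le_of_ne inf_le_left fun e =>
      h1 (eq_of_le_of_finrank_eq (inf_eq_left.1 e) (h.rk_eq h.x0 y0)).ge)
  by_contra h9
  obtain ⟨c, hc⟩ : ∃ c, finrank F (W x) = finrank F (W x ⊓ W y : Submodule F V) + 2 + c :=
    Nat.exists_eq_add_of_le (by omega)
  have q1 : 1 < Fintype.card F := Fintype.one_lt_card
  rw [hc, mul_comm, pow_add, pow_add, mul_assoc, mul_assoc] at h2
  have h10 : M.card = _ := Nat.eq_of_mul_eq_mul_left (by positivity) h2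
  have h11 : Fintype.card F ^ 2 ∣ Fintype.card F := by
    have : Fintype.card F ^ 2 ∣ (M.filter fun b => b ∈ span F {x, y}).card :=
      (Nat.dvd_add_left h5).1 (h7 ▸ h10 ▸ Dvd.intro _ rfl)
    exact (Nat.dvd_add_right this).1 (h6 ▸ dvd_rfl)
  have := Nat.le_of_dvd (by omega) h11
  nlinarith

theorem Geo.cov_inf (h : Geo p T x y W) (h1 : ¬ W y ≤ W x) {a b : V} (hb : b ∈ W a)
    (hb' : b ∉ span F {a}) : W a ⊓ W b ⋖ W a := by
  obtain ⟨g, c, c0, rfl, e⟩ := h.tr a b hb hb'
  refine covBy_iff.2 ⟨inf_le_left, ?_⟩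
  rw [← h.smul c b c0, ← e, ← h.rk_inf_eq, h.rk_inf h1, h.rk_eq (smul_ne h.x0) h.x0]

theorem Geo.cov_inf' (h : Geo p T x y W) (h1 : ¬ W y ≤ W x) {a b : V} (hb : b ∈ W a)
    (hb' : b ∉ span F {a}) : W a ⊓ W b ⋖ W b := by
  have b0 := ne0_of_notMem hb'
  rw [inf_comm]
  exact h.cov_inf h1 (h.symm _ _ b0 hb) (notMem_l1_symm (h.ne_zero hb b0) hb')

theorem Geo.cov_sup (h : Geo p T x y W) (h1 : ¬ W y ≤ W x) {a b : V} (hb : b ∈ W a)
    (hb' : b ∉ span F {a}) : W a ⋖ W a ⊔ W b := by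
  have e := finrank_sup_add_finrank_inf_eq (W a) (W b)
  have e' := (covBy_iff.1 (h.cov_inf' h1 hb hb')).2
  exact covBy_iff.2 ⟨le_sup_left, by omega⟩

end Cfsg.Agent.SNG
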