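import Cfsg.Agent.SNG.Loc
import Cfsg.Agent.SNG.Four

set_option autoImplicit false
set_option linter.unusedSectionVars false

namespace Cfsg.Agent.SNG

open MulAction Module Submodule

variable {F : Type*} [Field F] [Fintype F] {p : ℕ} [Fact p.Prime] [CharP F p]
  {G : Type*} [Group G] {V : Type*} [AddCommGroup V] [Module F V] [DistribMulAction G V]
  [SMulCommClass G F V] [Finite V]

theorem tta_third (h2 : 2 ≤ finrank F V) {a : V} (ha : a ≠ 0) : ∃ b, b ∉ span F {a} := by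
  obtain ⟨b, -, hb⟩ := exists_notMem (A := span F {a}) (B := ⊤) (by
    rw [finrank_span_singleton ha, finrank_top]; omega)
  exact ⟨b, hb⟩

theorem tta_nm {a w : V} {φ : V →ₗ[F] F} (h : φ a = 0) (h' : φ w = 1) : w ∉ span F {a} := fun k => by
  obtain ⟨c, rfl⟩ := mem_span_singleton.1 k
  simp [h] at h'

theorem TT.trans (h : TT F G V) (h2 : 2 ≤ finrank F V) {a b : V} (ha : a ≠ 0) (hb : b ≠ 0) :
    ∃ g : G, g • a = b := by
  obtain ⟨c, hc⟩ := tta_third h2 ha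
  obtain ⟨d, hd⟩ := tta_third h2 hb
  exact (h a c b d ha hc hb hd).imp fun _ k => k.1

theorem TT.af (h : TT F G V) (h2 : 2 ≤ finrank F V) : AF F G V :=
  af_of_lt (fun _ _ => h.trans h2) fun a b a0 hb β => h a b a _ a0 hb a0 fun k =>
    hb ((Submodule.add_mem_iff_left _ (smul_mem _ β (self_l1 a))).1 k)

theorem TT.m1 [Finite G] (h : TT F G V) {a b z u : V} (a0 : a ≠ 0) (hb : b ∉ span F {a})
    (hz : z ∉ span F {a, b}) (hu : u ∈ span F {a, b}) :
    ∃ g : G, g • a = a ∧ g • b = b ∧ g • z = z + u := by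
  haveI : Fact (ringChar F).Prime := ⟨CharP.char_is_prime F _⟩
  have h2 : 2 ≤ finrank F V := rk_l2 a0 hb ▸ finrank_le _
  obtain ⟨x, y, k⟩ := exists_loc (p := ringChar F) (h.af h2) h2 default
  obtain ⟨g, rfl, rfl⟩ := h x y a b k.x0 k.yx a0 hb
  obtain ⟨t, ht, e1, e2⟩ := k.p1 (g⁻¹ • z) (by rwa [← smul_mem_l2 g, smul_inv_smul]) (g⁻¹ • u)
    (by rwa [← smul_mem_l2 g, smul_inv_smul])
  refine ⟨g * t * g⁻¹, ?_, ?_, ?_⟩
  · rw [mul_smul, mul_smul, inv_smul_smul, k.fixx t ht]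
  · rw [mul_smul, mul_smul, inv_smul_smul, e1]
  · rw [mul_smul, mul_smul, e2, smul_add, smul_inv_smul, smul_inv_smul]

theorem TT.tta_two [Finite G] (h : TT F G V) {a a' w w' : V} {φ φ' : V →ₗ[F] F} (ha : a ≠ 0) (ha' : a' ≠ 0)
    (h1 : φ a = 0) (h2 : φ' a' = 0) (h3 : φ w = 1) (h4 : φ' w' = 1) :
    ∃ g : G, g • a = a' ∧ g • w = w' ∧ ∀ v, φ' (g • v) = φ v := by
  obtain ⟨k, rfl, rfl⟩ := h a w a' w' ha (tta_nm h1 h3) ha' (tta_nm h2 h4)
  obtain ⟨g, hg, hg'⟩ := fourier' (stabilizer G a ⊓ stabilizer G w) (span F {a, w}) (fun z hz u hu => by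
      obtain ⟨g, e1, e2, e3⟩ := h.m1 ha (tta_nm h1 h3) hz hu
      exact ⟨g, ⟨e1, e2⟩, e3⟩) (φ := φ) (φ' := φ'.comp (lin F k))
    ⟨w, right_l2 a w, by rw [h3]; exact one_ne_zero⟩ fun u hu => by
      obtain ⟨α, β, rfl⟩ := mem_span_pair.1 hu
      simp only [map_add, map_smul, LinearMap.comp_apply, lin_apply, h1, h2, h3, h4]
  exact ⟨k * g, by rw [mul_smul, hg.1], by rw [mul_smul, hg.2], fun v => by rw [mul_smul]; exact hg' v⟩

theorem TT.af_quot [Finite G] (h : TT F G V) {s : V} (hs : s ≠ 0) :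
    AF F (stabilizer G s) (V ⧸ span F {s}) := by
  intro a a' φ φ' h1 h2
  induction a using Submodule.Quotient.induction_on with | H a => ?_
  induction a' using Submodule.Quotient.induction_on with | H a' => ?_
  have h0 : ∀ ψ : V ⧸ span F {s} →ₗ[F] F, ψ.comp (span F {s}).mkQ s = 0 := fun ψ => by
    rw [LinearMap.comp_apply, mkQ_apply, (Quotient.mk_eq_zero _).2 (self_l1 s), map_zero]
  obtain ⟨g, e1, e2, e3⟩ := h.tta_two hs hs (h0 φ) (h0 φ') (w := a) (w' := a') h1 h2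
  refine ⟨⟨g, e1⟩, by rw [smul_mk, e2], fun v => ?_⟩
  induction v using Submodule.Quotient.induction_on with | H v => ?_
  exact e3 v

theorem tta_one {φ : V →ₗ[F] F} (h : φ ≠ 0) : ∃ w, φ w = 1 := by
  obtain ⟨v, hv⟩ := DFunLike.ne_iff.1 h
  exact ⟨(φ v)⁻¹ • v, by rw [map_smul, smul_eq_mul, inv_mul_cancel₀ hv]⟩

theorem TT.tv_all [Finite G] (h : TT F G V) (ht : Tv F G V) {c : V} {ψ : V →ₗ[F] F} (h1 : ψ c = 0) :
    ∃ g : G, ∀ v, g • v = v + ψ v • c := by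
  by_cases c0 : c = 0
  · exact ⟨1, fun v => by simp [c0]⟩
  by_cases ψ0 : ψ = 0
  · exact ⟨1, fun v => by simp [ψ0]⟩
  obtain ⟨g, d, φ, d0, φ0, h2, h3⟩ := ht
  obtain ⟨w, hw⟩ := tta_one φ0
  obtain ⟨w', hw'⟩ := tta_one ψ0
  obtain ⟨k, rfl, -, e⟩ := h.tta_two d0 c0 h2 h1 hw hw'
  exact ⟨k * g * k⁻¹, fun v => by
    rw [mul_smul, mul_smul, h3, smul_add, gs, ← e, smul_inv_smul]⟩

theorem tv_of_hyper {g : G} {ψ : V →ₗ[F] F} {w : V} (hw : ψ w = 1) (h : ∀ v, ψ v = 0 → g • v = v)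
    (h0 : ψ (g • w) = 1) (hne : g • w ≠ w) : Tv F G V := by
  refine ⟨g, g • w - w, ψ, sub_ne_zero.2 hne, fun k => by simp [k] at hw, by rw [map_sub, h0, hw, sub_self],
    fun v => ?_⟩
  have := h (v - ψ v • w) (by simp [hw])
  rw [smul_sub, gs, sub_eq_iff_eq_add] at this
  rw [this, smul_sub]
  abel

theorem TT.small [Finite G] (h : TT F G V) (h3 : finrank F V = 3) : Tv F G V := by
  obtain ⟨a, -, ha⟩ := exists_notMem (A := (⊥ : Submodule F V)) (B := ⊤) (by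
    rw [finrank_bot, finrank_top]; omega)
  have a0 := ne0_of_notMem ha
  obtain ⟨b, hb⟩ := tta_third (F := F) (by omega) a0
  obtain ⟨z, -, hz⟩ := exists_notMem (A := span F {a, b}) (B := ⊤) (by rw [rk_l2 a0 hb, finrank_top]; omega)
  obtain ⟨g, e1, e2, e3⟩ := h.m1 a0 hb hz (left_l2 a b)
  obtain ⟨ψ, h1, h2⟩ := sep hz
  refine tv_of_hyper h2 (g := g) (fun v hv => fix_l2 (F := F) e1 e2 v ?_)
    (by rw [e3, map_add, h2, h1 a (left_l2 a b), add_zero]) (by rw [e3]; simpa using a0)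
  have e : span F {a, b} ⊔ span F {z} = ⊤ := eq_top_of_finrank_eq (by rw [rk_adj hz, rk_l2 a0 hb, h3])
  obtain ⟨c, hc⟩ := mem_adj.1 (e ▸ mem_top : v ∈ span F {a, b} ⊔ span F {z})
  have := h1 _ hc
  rw [map_sub, map_smul, hv, h2, smul_eq_mul, mul_one, zero_sub, neg_eq_zero] at this
  simpa [this] using hc

theorem faith (hn : ¬ Tv F G V) {g : G} {s : V} (hs : g • s = s)
    (h : ∀ v, g • v - v ∈ span F {s}) (v : V) : g • v = v := by
  by_cases s0 : s = 0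
  · simpa [s0, sub_eq_zero] using h v
  obtain ⟨φ, hφ⟩ := sep0 (F := F) s0
  have e : ∀ v, g • v = v + φ.comp (lin F g - LinearMap.id) v • s := fun v => by
    obtain ⟨c, hc⟩ := mem_span_singleton.1 (h v)
    rw [LinearMap.comp_apply, LinearMap.sub_apply, lin_apply, LinearMap.id_apply, ← hc, map_smul, hφ,
      smul_eq_mul, mul_one, hc, add_sub_cancel]
  by_contra hv
  refine hn ⟨g, s, _, s0, fun k => hv ?_, ?_, e⟩
  · rw [e, k, LinearMap.zero_apply, zero_smul, add_zero]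
  · rw [LinearMap.comp_apply, LinearMap.sub_apply, lin_apply, LinearMap.id_apply, hs, sub_self, map_zero]

theorem faith_quot (hn : ¬ Tv F G V) {s : V} {g : stabilizer G s}
    (h : ∀ v : V ⧸ span F {s}, g • v = v) (v : V) : (g : G) • v = v :=
  faith hn g.2 (fun w => (Submodule.Quotient.eq _).1 ((smul_mk s g w).symm.trans (h _))) v

end Cfsg.Agent.SNG
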